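import Mathlib

set_option autoImplicit false
set_option linter.all false

/-!
# Determinant and characteristic polynomial of 4×4 matrices (seat helper22)
-/

namespace Cfsg.Agent.H22

open Polynomial

theorem det_four {R : Type*} [CommRing R] (M : Matrix (Fin 4) (Fin 4) R) :
    M.det = M 0 0 * (M 1 1 * (M 2 2 * M 3 3 - M 2 3 * M 3 2) - M 1 2 * (M 2 1 * M 3 3 - M 2 3 * M 3 1) + M 1 3 * (M 2 1 * M 3 2 - M 2 2 * M 3 1))
      - M 0 1 * (M 1 0 * (M 2 2 * M 3 3 - M 2 3 * M 3 2) - M 1 2 * (M 2 0 * M 3 3 - M 2 3 * M 3 0) + M 1 3 * (M 2 0 * M 3 2 - M 2 2 * M 3 0))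
      + M 0 2 * (M 1 0 * (M 2 1 * M 3 3 - M 2 3 * M 3 1) - M 1 1 * (M 2 0 * M 3 3 - M 2 3 * M 3 0) + M 1 3 * (M 2 0 * M 3 1 - M 2 1 * M 3 0))
      - M 0 3 * (M 1 0 * (M 2 1 * M 3 2 - M 2 2 * M 3 1) - M 1 1 * (M 2 0 * M 3 2 - M 2 2 * M 3 0) + M 1 2 * (M 2 0 * M 3 1 - M 2 1 * M 3 0)) := by
  rw [Matrix.det_succ_row_zero]
  simp only [Fin.sum_univ_succ, Matrix.det_fin_three, Matrix.submatrix_apply]
  simp [Fin.succAbove]
  ring

/-- sum of the principal 2-minors -/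
def e2 {R : Type*} [CommRing R] (M : Matrix (Fin 4) (Fin 4) R) : R :=
  (M 0 0 * M 1 1 - M 0 1 * M 1 0) + (M 0 0 * M 2 2 - M 0 2 * M 2 0) + (M 0 0 * M 3 3 - M 0 3 * M 3 0)
        + (M 1 1 * M 2 2 - M 1 2 * M 2 1) + (M 1 1 * M 3 3 - M 1 3 * M 3 1) + (M 2 2 * M 3 3 - M 2 3 * M 3 2)

theorem charpoly_four {F : Type*} [CommRing F] (M : Matrix (Fin 4) (Fin 4) F) :
    M.charpoly = X ^ 4 - C M.trace * X ^ 3 + C (e2 M) * X ^ 2 - C (M.adjugate.trace) * X + C M.det := by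
  rw [Matrix.charpoly, det_four, det_four, Matrix.trace, Matrix.trace, Fin.sum_univ_four, Fin.sum_univ_four, e2]
  simp only [Matrix.diag_apply, Matrix.adjugate_fin_succ_eq_det_submatrix, Matrix.det_fin_three, Matrix.submatrix_apply, Matrix.charmatrix_apply]
  simp [Fin.succAbove, Matrix.diagonal]
  ring

/-- Cayley-Hamilton for 4×4 matrices -/
theorem cayley_hamilton_four {F : Type*} [CommRing F] (M : Matrix (Fin 4) (Fin 4) F) :
    M ^ 4 - M.trace • M ^ 3 + e2 M • M ^ 2 - M.adjugate.trace • M + M.det • (1 : Matrix (Fin 4) (Fin 4) F) = 0 := by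
  have h := Matrix.aeval_self_charpoly M
  rw [charpoly_four] at h
  simp only [map_add, map_sub, map_mul, map_pow, aeval_X, aeval_C, Algebra.algebraMap_eq_smul_one, smul_mul_assoc, one_mul] at h
  exact h

end Cfsg.Agent.H22
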