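import Cfsg.Agent.H22.Derangements

set_option autoImplicit false
set_option linter.all false

/-!
# The index of the subgroup generated by the derangements, seat helper22
-/

namespace Cfsg.Agent.H22

open MulAction

theorem dvd_card_of_dvd_index (H X : Type*) [Group H] [Finite H] [MulAction H X] [Finite X] (r : ℕ)
    (h : ∀ x : X, r ∣ (stabilizer H x).index) : r ∣ Nat.card X := by
  classical
  haveI : Fintype (orbitRel.Quotient H X) := Fintype.ofFinite _
  rw [Nat.card_congr (selfEquivSigmaOrbits H X), Nat.card_sigma]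
  apply Finset.dvd_sum
  intro ω _
  rw [Nat.card_coe_set_eq, ← index_stabilizer]
  exact h _

/-- version for an invariant subset -/
theorem dvd_ncard_of_dvd_index {G Ω : Type*} [Group G] [Finite G] [MulAction G Ω] [Finite Ω]
    (H : Subgroup G) (S : Set Ω) (hS : ∀ h ∈ H, ∀ x ∈ S, h • x ∈ S) (r : ℕ)
    (h : ∀ x ∈ S, r ∣ (stabilizer G x).relIndex H) : r ∣ S.ncard := by
  let T : SubMulAction H Ω := ⟨S, fun h x hx => hS h.1 h.2 x hx⟩
  have h1 : Nat.card T = S.ncard := Nat.card_coe_set_eq S
  rw [← h1]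
  apply dvd_card_of_dvd_index H T
  intro x
  have h2 : stabilizer H x = (stabilizer G (x : Ω)).subgroupOf H := by
    ext g
    rw [mem_stabilizer_iff, Subgroup.mem_subgroupOf, mem_stabilizer_iff]
    constructor
    · intro h; exact congrArg Subtype.val h
    · intro h; exact Subtype.ext h
  rw [h2]
  exact h x x.2

/-- counting fixed points of a coset of a transitive group -/
theorem coset_count {G Ω : Type*} [Group G] [Finite G] [MulAction G Ω] [Finite Ω]
    (S : Subgroup G) (Y : Set Ω) (hY : Y.Nonempty) (hinv : ∀ s ∈ S, ∀ y ∈ Y, s • y ∈ Y)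
    (htr : ∀ x ∈ Y, ∀ y ∈ Y, ∃ s ∈ S, s • x = y) (f : Ω → Ω) (hf : ∀ y ∈ Y, f y ∈ Y)
    (huniq : ∀ s ∈ S, ∀ x ∈ Y, ∀ y ∈ Y, s • f x = x → s • f y = y → x = y) :
    ∀ s ∈ S, ∃ y ∈ Y, s • f y = y := by
  classical
  haveI := Fintype.ofFinite G
  haveI := Fintype.ofFinite Ω
  let SF : Finset G := Finset.univ.filter (· ∈ S)
  let YF : Finset Ω := Finset.univ.filter (· ∈ Y)
  obtain ⟨z, hz⟩ := hY
  have hN : ∀ x ∈ Y, ∀ y ∈ Y, (SF.filter (fun s => s • x = y)).card = (SF.filter (fun s => s • z = z)).card := by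
    intro x hx y hy
    obtain ⟨a, haS, ha⟩ := htr x hx z hz
    obtain ⟨b, hbS, hb⟩ := htr y hy z hz
    apply Finset.card_bij' (fun s _ => b * s * a⁻¹) (fun s _ => b⁻¹ * s * a)
    · intro s hs
      simp only [Finset.mem_filter, Finset.mem_univ, true_and, SF] at hs ⊢
      refine ⟨S.mul_mem (S.mul_mem hbS hs.1) (S.inv_mem haS), ?_⟩
      rw [mul_smul, mul_smul, ← ha, inv_smul_smul, hs.2, hb, ha]
    · intro s hs
      simp only [Finset.mem_filter, Finset.mem_univ, true_and, SF] at hs ⊢
      refine ⟨S.mul_mem (S.mul_mem (S.inv_mem hbS) hs.1) haS, ?_⟩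
      rw [mul_smul, mul_smul, ha, hs.2, ← hb, inv_smul_smul]
    · intro s _; simp [mul_assoc]
    · intro s _; simp [mul_assoc]
  have h1 : ∑ y ∈ YF, (SF.filter (fun s => s • z = y)).card = SF.card := by
    rw [← Finset.card_eq_sum_card_fiberwise (f := fun s => s • z)]
    intro s hs
    simp only [Finset.coe_filter, Finset.mem_univ, true_and, SF, YF, Set.mem_setOf_eq] at hs ⊢
    exact hinv s hs z hz
  have h2 : ∑ y ∈ YF, (SF.filter (fun s => s • f y = y)).card = SF.card := by
    rw [← h1]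
    apply Finset.sum_congr rfl
    intro y hy
    have hy' : y ∈ Y := by simpa [YF] using hy
    rw [hN _ (hf y hy') y hy', hN z hz y hy']
  have h3 : ∑ s ∈ SF, (YF.filter (fun y => s • f y = y)).card = SF.card := by
    rw [← h2]
    simp only [Finset.card_filter]
    exact Finset.sum_comm
  have h4 : ∀ s ∈ SF, (YF.filter (fun y => s • f y = y)).card ≤ 1 := by
    intro s hs
    rw [Finset.card_le_one]
    intro x hx y hy
    simp only [Finset.mem_filter, Finset.mem_univ, true_and, YF] at hx hy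
    exact huniq s (by simpa [SF] using hs) x hx.1 y hy.1 hx.2 hy.2
  have h5 : ∑ s ∈ SF, (YF.filter (fun y => s • f y = y)).card = ∑ s ∈ SF, 1 := by
    rw [h3]; simp
  have h6 := (Finset.sum_eq_sum_iff_of_le h4).1 h5
  intro s hs
  have h7 := h6 s (by simpa [SF] using hs)
  obtain ⟨y, hy⟩ := Finset.card_eq_one.1 h7
  have h8 : y ∈ YF.filter (fun y => s • f y = y) := by rw [hy]; exact Finset.mem_singleton_self y
  simp only [Finset.mem_filter, Finset.mem_univ, true_and, YF] at h8
  exact ⟨y, h8.1, h8.2⟩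

section
variable {G Ω : Type*} [Group G] [Finite G] [MulAction G Ω] [Finite Ω]

omit [Finite G] [Finite Ω] in
theorem sup_stabilizer_eq_top (D : Subgroup G) (hD : IsPretransitive D Ω) (ω : Ω) :
    D ⊔ stabilizer G ω = ⊤ := by
  rw [eq_top_iff]
  intro g _
  obtain ⟨d, hd⟩ := hD.exists_smul_eq ω (g • ω)
  have hd' : (d : G) • ω = g • ω := hd
  have : g = (d : G) * ((d : G)⁻¹ * g) := by simp
  rw [this]
  apply Subgroup.mul_mem_sup d.2
  rw [mem_stabilizer_iff, mul_smul, ← hd', inv_smul_smul]

omit [Finite G] [Finite Ω] in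
theorem index_eq_relIndex_stabilizer (D : Subgroup G) [D.Normal] (hD : IsPretransitive D Ω) (ω : Ω) :
    D.index = D.relIndex (stabilizer G ω) := by
  rw [← Subgroup.relIndex_top_right, ← sup_stabilizer_eq_top D hD ω, Subgroup.relIndex_sup_left]

/-- the index of the derangement subgroup divides all nontrivial "suborbit" lengths -/
theorem derang_index_dvd (ht : IsPretransitive G Ω) (ω : Ω) (K : Subgroup G)
    (hK : K ⊓ stabilizer G ω ≤ derang G Ω) :
    (derang G Ω).index ∣ K.relIndex (stabilizer G ω) := by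
  haveI := derang_normal (G := G) (Ω := Ω)
  rw [index_eq_relIndex_stabilizer (derang G Ω) (derang_transitive ht) ω,
    ← Subgroup.inf_relIndex_right K]
  exact Subgroup.relIndex_dvd_of_le_left _ hK

theorem derang_index_dvd_sub_one (ht : IsPretransitive G Ω) (ω : Ω) :
    (derang G Ω).index ∣ Nat.card Ω - 1 := by
  have h1 : ({ω}ᶜ : Set Ω).ncard = Nat.card Ω - 1 := by
    rw [Set.ncard_compl, Set.ncard_singleton]
  rw [← h1]
  apply dvd_ncard_of_dvd_index (stabilizer G ω)
  · intro h hh x hx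
    simp only [Set.mem_compl_iff, Set.mem_singleton_iff] at hx ⊢
    intro h'
    apply hx
    rw [← inv_smul_smul h x, h', inv_smul_eq_iff]
    exact hh.symm
  · intro x hx
    apply derang_index_dvd ht ω
    rintro g ⟨hg1, hg2⟩
    simp only [Set.mem_compl_iff, Set.mem_singleton_iff] at hx
    exact mem_derang_of_two_fixed ht hx hg1 hg2

end

end Cfsg.Agent.H22
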