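import Mathlib

set_option autoImplicit false
set_option linter.unusedSectionVars false
set_option linter.style.haveILetI false

/-! The field generated by an irreducible linear map, and semilinear actions. -/

namespace Cfsg.Agent.H22.FieldAct

open Polynomial

variable {V : Type*} [AddCommGroup V] {p : ℕ} [Fact p.Prime] [Module (ZMod p) V]

/-- `τ` acts irreducibly -/
def Irr (τ : Module.End (ZMod p) V) : Prop :=
  ∀ W : Submodule (ZMod p) V, (∀ v ∈ W, τ v ∈ W) → W = ⊥ ∨ W = ⊤

theorem Irr.ker {τ : Module.End (ZMod p) V} (h : Irr τ) {f : Module.End (ZMod p) V} (hc : f * τ = τ * f)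
    (hf : f ≠ 0) : ∀ v, f v = 0 → v = 0 := by
  rcases h (LinearMap.ker f) (by
    intro v hv
    rw [LinearMap.mem_ker] at hv ⊢
    have : f (τ v) = τ (f v) := LinearMap.congr_fun hc v
    rw [this, hv, map_zero]) with h1 | h1
  · intro v hv
    have : v ∈ LinearMap.ker f := hv
    rw [h1] at this
    exact this
  · exact absurd (LinearMap.ker_eq_top.1 h1) hf

theorem aeval_comm (τ : Module.End (ZMod p) V) (f : (ZMod p)[X]) : aeval τ f * τ = τ * aeval τ f := by
  have h1 : aeval τ (f * X) = aeval τ (X * f) := by rw [mul_comm]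
  rwa [map_mul, map_mul, aeval_X] at h1

universe u1 u2 u3

theorem ring_aux {A : Type u1} {B : Type u2} {k : Type u3} [CommRing k] [CommRing A] [Ring B]
    [Algebra k A] [Algebra k B] (f : A →ₐ[k] B) :
    ∃ (R : Type u1) (_ : CommRing R) (_ : Algebra k R) (ι : R →ₐ[k] B) (π : A →ₐ[k] R),
      Function.Injective ι ∧ Function.Surjective π ∧ ∀ a, ι (π a) = f a := by
  refine ⟨A ⧸ RingHom.ker f, inferInstance, inferInstance, Ideal.kerLiftAlg f,
    Ideal.Quotient.mkₐ k _, Ideal.kerLiftAlg_injective f, Ideal.Quotient.mkₐ_surjective _ _, fun a => rfl⟩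

/-- the ring generated by `τ` -/
theorem exists_ring (τ : Module.End (ZMod p) V) : ∃ (R : Type) (_ : CommRing R) (_ : Algebra (ZMod p) R)
    (ι : R →ₐ[ZMod p] Module.End (ZMod p) V) (x : R), ι x = τ ∧ Function.Injective ι ∧
      (∀ r : R, ∃ f : (ZMod p)[X], r = aeval x f) := by
  obtain ⟨R, _, _, ι, π, hι, hπ, h⟩ := ring_aux (aeval τ : (ZMod p)[X] →ₐ[ZMod p] Module.End (ZMod p) V)
  refine ⟨R, inferInstance, inferInstance, ι, π X, ?_, hι, ?_⟩
  · rw [h, aeval_X]
  · intro r
    obtain ⟨f, rfl⟩ := hπ r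
    refine ⟨f, ?_⟩
    have h1 := aeval_algHom_apply π X f
    rw [aeval_X_left_apply] at h1
    exact h1.symm

section
variable [Finite V] [Nontrivial V] {τ : Module.End (ZMod p) V} (h : Irr τ)
include h

/-- the field generated by `τ`, existence -/
theorem Irr.exists_field0 : ∃ (R : Type) (_ : Field R) (_ : Algebra (ZMod p) R)
    (ι : R →ₐ[ZMod p] Module.End (ZMod p) V) (x : R), ι x = τ ∧
      (∀ r : R, ∃ f : (ZMod p)[X], r = aeval x f) := by
  obtain ⟨R, _, _, ι, x, hx, hι, hR⟩ := exists_ring τ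
  have hcomm : ∀ r : R, ι r * τ = τ * ι r := by
    intro r
    rw [← hx, ← map_mul, ← map_mul, mul_comm]
  have hfin : Finite (Module.End (ZMod p) V) :=
    Finite.of_injective (fun f : Module.End (ZMod p) V => (f : V → V)) DFunLike.coe_injective
  have hfR : Finite R := Finite.of_injective ι hι
  have hnt : Nontrivial R := by
    refine ⟨0, 1, fun h01 => ?_⟩
    have h1 := congrArg ι h01
    rw [map_zero, map_one] at h1
    exact zero_ne_one h1
  have hnz : NoZeroDivisors R := by
    constructor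
    intro a b hab
    by_contra hcon
    push Not at hcon
    obtain ⟨v, hv⟩ := exists_ne (0 : V)
    have h1 := h.ker (hcomm b) ((map_ne_zero_iff ι hι).2 hcon.2)
    have h2 := h.ker (hcomm a) ((map_ne_zero_iff ι hι).2 hcon.1)
    apply hv
    apply h1
    apply h2
    have h3 : ι (a * b) v = 0 := by rw [hab, map_zero]; rfl
    rw [map_mul] at h3
    exact h3
  have hdom : IsDomain R := NoZeroDivisors.to_isDomain R
  have hF : IsField R := Finite.isField_of_domain R
  exact ⟨R, hF.toField, inferInstance, ι, x, hx, hR⟩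

theorem Irr.card_field {R : Type} [Field R] [Algebra (ZMod p) R]
    (ι : R →ₐ[ZMod p] Module.End (ZMod p) V) {x : R} (hx : ι x = τ) (hι : Function.Injective ι) :
    Nat.card R = Nat.card V := by
  obtain ⟨v0, hv0⟩ := exists_ne (0 : V)
  apply Nat.card_congr
  refine Equiv.ofBijective (fun r => ι r v0) ⟨?_, ?_⟩
  · intro r s hrs
    by_contra hne
    have h1 : ι (r - s) ≠ 0 := by
      rw [map_ne_zero_iff ι hι, sub_ne_zero]; exact hne
    have h2 : ι (r - s) * τ = τ * ι (r - s) := by
      rw [← hx, ← map_mul, ← map_mul, mul_comm]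
    apply hv0
    apply h.ker h2 h1
    rw [map_sub]
    show ι r v0 - ι s v0 = 0
    rw [sub_eq_zero]; exact hrs
  · have h3 := h (LinearMap.range ((LinearMap.applyₗ (R := ZMod p) v0).comp ι.toLinearMap)) (by
      rintro _ ⟨r, rfl⟩
      refine ⟨x * r, ?_⟩
      show ι (x * r) v0 = τ (ι r v0)
      rw [map_mul, hx]; rfl)
    rcases h3 with h3 | h3
    · exfalso
      have h4 : ι 1 v0 ∈ LinearMap.range ((LinearMap.applyₗ (R := ZMod p) v0).comp ι.toLinearMap) := ⟨1, rfl⟩
      rw [h3, Submodule.mem_bot, map_one] at h4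
      exact hv0 h4
    · intro v
      have h4 : v ∈ LinearMap.range ((LinearMap.applyₗ (R := ZMod p) v0).comp ι.toLinearMap) := by
        rw [h3]; trivial
      obtain ⟨r, hr⟩ := h4
      exact ⟨r, hr⟩

/-- the field generated by `τ` -/
theorem Irr.exists_field : ∃ (R : Type) (_ : Field R) (_ : Algebra (ZMod p) R)
    (ι : R →ₐ[ZMod p] Module.End (ZMod p) V) (x : R), Function.Injective ι ∧ ι x = τ ∧
      (∀ r : R, ∃ f : (ZMod p)[X], r = aeval x f) ∧ Nat.card R = Nat.card V := by
  obtain ⟨R, i1, i2, ι, x, hx, hR⟩ := h.exists_field0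
  have hι : Function.Injective ι := ι.toRingHom.injective
  exact ⟨R, i1, i2, ι, x, hι, hx, hR, h.card_field ι hx hι⟩

/-- if `τ ^ (p ^ i) = τ` then the space has at most `p ^ i` elements -/
theorem Irr.card_le {i : ℕ} (hi : 0 < i) (hτ : τ ^ p ^ i = τ) : Nat.card V ≤ p ^ i := by
  obtain ⟨R, _, _, ι, x, hι, hx, hR, hcard⟩ := h.exists_field
  haveI : Finite R := by
    apply Nat.finite_of_card_ne_zero
    rw [hcard]; exact Nat.card_pos.ne'
  letI : Fintype R := Fintype.ofFinite R
  haveI : CharP R p := charP_of_injective_algebraMap' (ZMod p) p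
  have hx' : x ^ p ^ i = x := by
    apply hι
    rw [map_pow, hx, hτ]
  have hall : ∀ r : R, r ^ p ^ i = r := by
    intro r
    obtain ⟨f, rfl⟩ := hR r
    have h1 : (iterateFrobenius R p i).comp (aeval x : (ZMod p)[X] →ₐ[ZMod p] R).toRingHom =
        (aeval x : (ZMod p)[X] →ₐ[ZMod p] R).toRingHom := by
      apply Polynomial.ringHom_ext'
      · exact Subsingleton.elim _ _
      · show iterateFrobenius R p i (aeval x X) = aeval x X
        rw [aeval_X, iterateFrobenius_def, hx']
    have h2 := RingHom.congr_fun h1 f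
    exact h2
  have h3 : ∀ u : Rˣ, u ^ (p ^ i - 1) = 1 := by
    intro u
    have h4 : u ^ (p ^ i - 1) * u = u := by
      rw [← pow_succ, Nat.sub_add_cancel (Nat.one_le_pow _ _ (Fact.out : p.Prime).pos)]
      apply Units.ext
      rw [Units.val_pow_eq_pow_val]
      exact hall u
    exact mul_eq_right.1 h4
  have h5 := (FiniteField.forall_pow_eq_one_iff R (p ^ i - 1)).1 h3
  have h6 : 0 < p ^ i - 1 := by
    have : 1 < p ^ i := Nat.one_lt_pow hi.ne' (Fact.out : p.Prime).one_lt
    omega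
  have h7 := Nat.le_of_dvd h6 h5
  rw [← hcard, Nat.card_eq_fintype_card]
  omega

/-- semilinear action: the group of `g` commuting with `τ` has index dividing `d` -/
theorem Irr.index_dvd {d : ℕ} (hd : Nat.card V = p ^ d) {Γ : Type*} [Group Γ] (ρ : Γ →* (V ≃ₗ[ZMod p] V))
    (hρ : ∀ g : Γ, ∃ f : (ZMod p)[X], (ρ g : V →ₗ[ZMod p] V) ∘ₗ τ = (aeval τ f : Module.End (ZMod p) V) ∘ₗ (ρ g : V →ₗ[ZMod p] V))
    (K : Subgroup Γ) (hK : ∀ g, g ∈ K ↔ (ρ g : V →ₗ[ZMod p] V) ∘ₗ τ = τ ∘ₗ (ρ g : V →ₗ[ZMod p] V)) :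
    K.index ∣ d := by
  obtain ⟨R, _, _, ι, x, hι, hx, hR, hcard⟩ := h.exists_field
  haveI : Finite R := by
    apply Nat.finite_of_card_ne_zero
    rw [hcard]; exact Nat.card_pos.ne'
  -- conjugation
  let c : Γ → (Module.End (ZMod p) V →ₐ[ZMod p] Module.End (ZMod p) V) := fun g =>
    ((ρ g).conjAlgEquiv (ZMod p)).toAlgHom
  have hc : ∀ g (f : Module.End (ZMod p) V), c g f = (ρ g : V →ₗ[ZMod p] V) ∘ₗ f ∘ₗ ((ρ g).symm : V →ₗ[ZMod p] V) :=
    fun g f => rfl
  have hcv : ∀ g (f : Module.End (ZMod p) V) (v : V), c g f v = ρ g (f ((ρ g).symm v)) := fun g f v => rfl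
  have hcmul : ∀ g h f, c (g * h) f = c g (c h f) := by
    intro g h f
    ext v
    rw [hcv, hcv, hcv, map_mul]; rfl
  have hcτ : ∀ g, c g τ ∈ ι.range := by
    intro g
    obtain ⟨f, hf⟩ := hρ g
    refine ⟨aeval x f, ?_⟩
    show ι (aeval x f) = _
    rw [← aeval_algHom_apply, hx]
    ext v
    have h1 := LinearMap.congr_fun hf ((ρ g).symm v)
    rw [hcv]
    have h2 : ρ g (τ ((ρ g).symm v)) = (aeval τ f : Module.End (ZMod p) V) (ρ g ((ρ g).symm v)) := h1
    rw [h2, LinearEquiv.apply_symm_apply]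
  have hcr : ∀ g (r : R), c g (ι r) ∈ ι.range := by
    intro g r
    obtain ⟨f, rfl⟩ := hR r
    obtain ⟨y, hy⟩ := hcτ g
    refine ⟨aeval y f, ?_⟩
    show ι (aeval y f) = _
    have hy' : ι y = c g τ := hy
    rw [← aeval_algHom_apply, ← aeval_algHom_apply, ← aeval_algHom_apply, hx, hy']
  let e := AlgEquiv.ofInjective ι hι
  have he : ∀ y : ι.range, ι (e.symm y) = y := by
    intro y
    have := e.apply_symm_apply y
    exact congrArg Subtype.val this
  let φ : Γ → (R →ₐ[ZMod p] R) := fun g =>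
    (e.symm : ι.range →ₐ[ZMod p] R).comp (((c g).comp ι).codRestrict ι.range (hcr g))
  have hφ : ∀ g r, ι (φ g r) = c g (ι r) := fun g r => he _
  let Φ : Γ →* (R →ₐ[ZMod p] R) :=
    { toFun := φ
      map_one' := by
        apply AlgHom.ext
        intro r
        apply hι
        rw [hφ]
        ext v
        rw [hcv, map_one]; rfl
      map_mul' := by
        intro g g'
        apply AlgHom.ext
        intro r
        apply hι
        rw [hφ, hcmul]
        show _ = ι (φ g (φ g' r))
        rw [hφ, hφ] }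
  let Ψ : Γ →* (R ≃ₐ[ZMod p] R) := (AlgEquiv.algHomUnitsEquiv (ZMod p) R).toMonoidHom.comp Φ.toHomUnits
  have hΨ : ∀ g r, Ψ g r = φ g r := fun g r => rfl
  have hker : Ψ.ker = K := by
    ext g
    rw [MonoidHom.mem_ker, hK]
    have hdom : (ρ g : V →ₗ[ZMod p] V) ∘ₗ τ = τ ∘ₗ (ρ g : V →ₗ[ZMod p] V) ↔ c g τ = τ := by
      constructor
      · intro h1
        ext v
        rw [hcv]
        have h2 : ρ g (τ ((ρ g).symm v)) = τ (ρ g ((ρ g).symm v)) := LinearMap.congr_fun h1 _
        rw [h2, LinearEquiv.apply_symm_apply]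
      · intro h1
        ext v
        have h2 := LinearMap.congr_fun h1 (ρ g v)
        rw [hcv, LinearEquiv.symm_apply_apply] at h2
        exact h2
    rw [hdom]
    constructor
    · intro h1
      rw [← hx, ← hφ, ← hΨ, h1]; rfl
    · intro h1
      apply AlgEquiv.ext
      intro r
      rw [hΨ]
      obtain ⟨f, rfl⟩ := hR r
      apply hι
      rw [hφ]
      show _ = ι (aeval x f)
      rw [← aeval_algHom_apply, ← aeval_algHom_apply, hx, h1]
  rw [← hker, Subgroup.index_ker]
  haveI : Module.Finite (ZMod p) R := Module.Finite.of_finite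
  have h1 := IsGalois.card_aut_eq_finrank (ZMod p) R
  have h2 : Module.finrank (ZMod p) R = d := by
    letI : Fintype R := Fintype.ofFinite R
    have h3 := Module.card_eq_pow_finrank (K := ZMod p) (V := R)
    rw [ZMod.card, ← Nat.card_eq_fintype_card, hcard, hd] at h3
    exact (Nat.pow_right_injective (Fact.out : p.Prime).two_le h3).symm
  rw [← h2, ← h1]
  exact Subgroup.card_subgroup_dvd_card _

end

end Cfsg.Agent.H22.FieldAct
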