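import Cfsg.Agent.H22.FieldAct
import Cfsg.Agent.H29.MulAutGL

set_option autoImplicit false
set_option linter.unusedSectionVars false
set_option linter.style.haveILetI false

/-! Group version of the field lemma. -/

namespace Cfsg.Agent.H22.FieldAct

open Polynomial

theorem group_version_mod {E : Type*} [CommGroup E] [Finite E] [Nontrivial E] {p : ℕ} [hp : Fact p.Prime]
    [Module (ZMod p) (Additive E)] {d : ℕ} (hd : Nat.card E = p ^ d) {Γ : Type*} [Group Γ]
    (ρ : Γ →* MulAut E) (t : Γ) (hirr : ∀ M : Subgroup E, (∀ x ∈ M, ρ t x ∈ M) → M = ⊥ ∨ M = ⊤)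
    (hk : ∀ h : Γ, ∃ k : ℕ, h * t * h⁻¹ = t ^ k) :
    (∀ i : ℕ, 0 < i → t ^ p ^ i = t → Nat.card E ≤ p ^ i) ∧
    (∀ K : Subgroup Γ, (∀ g, g ∈ K ↔ ρ g * ρ t = ρ t * ρ g) → K.index ∣ d) := by
  let L := Cfsg.Agent.H29.mulAutLin (E := E) (p := p)
  have hL : ∀ (f : MulAut E) (v : Additive E), L f v = Additive.ofMul (f (Additive.toMul v)) := fun f v => rfl
  obtain ⟨τ, hτ⟩ : ∃ τ : Module.End (ZMod p) (Additive E), τ = ((L (ρ t) : Additive E ≃ₗ[ZMod p] Additive E) :
    Additive E →ₗ[ZMod p] Additive E) := ⟨_, rfl⟩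
  have hτv : ∀ v, τ v = Additive.ofMul (ρ t (Additive.toMul v)) := by intro v; rw [hτ]; rfl
  have hpow : ∀ (n : ℕ) v, (τ ^ n) v = Additive.ofMul (ρ (t ^ n) (Additive.toMul v)) := by
    intro n
    induction n with
    | zero => intro v; rw [pow_zero, pow_zero, map_one]; rfl
    | succ n ih =>
      intro v
      rw [pow_succ, Module.End.mul_apply, ih, hτv, pow_succ, map_mul]; rfl
  have hI : Irr τ := by
    intro W hW
    rcases hirr (AddSubgroup.toSubgroup' W.toAddSubgroup) (by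
      intro x hx
      exact hW (Additive.ofMul x) hx |> fun h => by rw [hτv] at h; exact h) with h1 | h1
    · left
      rw [Submodule.eq_bot_iff]
      intro v hv
      have h2 : Additive.toMul v ∈ (AddSubgroup.toSubgroup' W.toAddSubgroup : Subgroup E) := hv
      rw [h1, Subgroup.mem_bot] at h2
      exact h2
    · right
      rw [Submodule.eq_top_iff']
      intro v
      have h2 : Additive.toMul v ∈ (AddSubgroup.toSubgroup' W.toAddSubgroup : Subgroup E) := by
        rw [h1]; trivial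
      exact h2
  have hnt : Nontrivial (Additive E) := ‹Nontrivial E›
  have hfin : Finite (Additive E) := ‹Finite E›
  constructor
  · intro i hi ht
    apply hI.card_le hi
    ext v
    rw [hpow, ht, hτv]
  · intro K hK
    apply hI.index_dvd (d := d) hd (L.toMonoidHom.comp ρ) _ K
    · intro g
      rw [hK]
      constructor
      · intro h
        ext v
        show L (ρ g) (τ v) = τ (L (ρ g) v)
        rw [hτv, hτv, hL, hL]
        exact congrArg Additive.ofMul (DFunLike.congr_fun h (Additive.toMul v))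
      · intro h
        apply MulEquiv.ext
        intro x
        have h1 : L (ρ g) (τ (Additive.ofMul x)) = τ (L (ρ g) (Additive.ofMul x)) :=
          LinearMap.congr_fun h (Additive.ofMul x)
        rw [hτv, hτv, hL, hL] at h1
        exact h1
    · intro g
      obtain ⟨k, hk⟩ := hk g
      refine ⟨X ^ k, ?_⟩
      rw [map_pow, aeval_X]
      ext v
      show L (ρ g) (τ v) = (τ ^ k) (L (ρ g) v)
      rw [hτv, hpow, hL, hL]
      apply congrArg Additive.ofMul
      show (ρ g * ρ t) (Additive.toMul v) = (ρ (t ^ k) * ρ g) (Additive.toMul v)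
      rw [← map_mul, ← map_mul, ← hk, inv_mul_cancel_right]

theorem group_version_comm {E : Type*} [CommGroup E] [Finite E] [Nontrivial E] {p : ℕ} [hp : Fact p.Prime]
    (he : ∀ a : E, a ^ p = 1) {d : ℕ} (hd : Nat.card E = p ^ d) {Γ : Type*} [Group Γ]
    (ρ : Γ →* MulAut E) (t : Γ) (hirr : ∀ M : Subgroup E, (∀ x ∈ M, ρ t x ∈ M) → M = ⊥ ∨ M = ⊤)
    (hk : ∀ h : Γ, ∃ k : ℕ, h * t * h⁻¹ = t ^ k) :
    (∀ i : ℕ, 0 < i → t ^ p ^ i = t → Nat.card E ≤ p ^ i) ∧
    (∀ K : Subgroup Γ, (∀ g, g ∈ K ↔ ρ g * ρ t = ρ t * ρ g) → K.index ∣ d) := by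
  let md : Module (ZMod p) (Additive E) := AddCommGroup.zmodModule (n := p) (by
    intro x
    show Additive.ofMul ((Additive.toMul x) ^ p) = 0
    rw [he]; rfl)
  exact group_version_mod hd ρ t hirr hk

theorem group_version {E : Type*} [hg : Group E] [Finite E] [Nontrivial E] {p : ℕ} [hp : Fact p.Prime]
    (hc : ∀ a b : E, a * b = b * a)
    (he : ∀ a : E, a ^ p = 1) {d : ℕ} (hd : Nat.card E = p ^ d) {Γ : Type*} [Group Γ]
    (ρ : Γ →* MulAut E) (t : Γ) (hirr : ∀ M : Subgroup E, (∀ x ∈ M, ρ t x ∈ M) → M = ⊥ ∨ M = ⊤)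
    (hk : ∀ h : Γ, ∃ k : ℕ, h * t * h⁻¹ = t ^ k) :
    (∀ i : ℕ, 0 < i → t ^ p ^ i = t → Nat.card E ≤ p ^ i) ∧
    (∀ K : Subgroup Γ, (∀ g, g ∈ K ↔ ρ g * ρ t = ρ t * ρ g) → K.index ∣ d) :=
  @group_version_comm E { hg with mul_comm := hc } _ _ p hp he d hd Γ _ ρ t hirr hk

end Cfsg.Agent.H22.FieldAct
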