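import Cfsg.Agent.H22.FrobV

set_option autoImplicit false
set_option linter.unusedSectionVars false

/-!
# Frobenius groups `p^d : q` with irreducible action (seat helper22)
-/

namespace Cfsg.Agent.H22

open IntermediateField in
/-- a finite field generated by an element of order `q` -/
theorem exists_irr_field (p q : ℕ) (hp : p.Prime) (hq : q.Prime) (hpq : p ≠ q) :
    ∃ (K : Type) (_ : Field K) (_ : Finite K) (ζ : Kˣ), CharP K p ∧ orderOf ζ = q ∧
      ∀ U : AddSubgroup K, U ≠ ⊥ → (∀ u ∈ U, (ζ : K) * u ∈ U) → U = ⊤ := by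
  classical
  have : Fact p.Prime := ⟨hp⟩
  have : Fact q.Prime := ⟨hq⟩
  have hq1 : q - 1 ≠ 0 := by have := hq.two_le; omega
  have hdvd : q ∣ p ^ (q - 1) - 1 := by
    have h1 : (p : ZMod q) ≠ 0 := by
      intro h
      rw [ZMod.natCast_eq_zero_iff] at h
      exact hpq ((Nat.prime_dvd_prime_iff_eq hq hp).1 h).symm
    have h2 := ZMod.pow_card_sub_one_eq_one h1
    have h3 : 1 ≤ p ^ (q - 1) := Nat.one_le_pow _ _ hp.pos
    rw [← CharP.cast_eq_zero_iff (ZMod q) q, Nat.cast_sub h3]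
    push_cast
    rw [h2]; ring
  let K₀ := GaloisField p (q - 1)
  have hcard : Nat.card K₀ˣ = p ^ (q - 1) - 1 := by
    have := Fintype.ofFinite K₀
    rw [Nat.card_eq_fintype_card, Fintype.card_units, ← Nat.card_eq_fintype_card, GaloisField.card p (q - 1) hq1]
  obtain ⟨ζ₀, hζ₀⟩ := exists_prime_orderOf_dvd_card' (G := K₀ˣ) q (by rw [hcard]; exact hdvd)
  set K := (ZMod p)⟮(ζ₀ : K₀)⟯ with hK
  have hint : IsIntegral (ZMod p) (ζ₀ : K₀) := Algebra.IsIntegral.isIntegral _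
  let g : K := AdjoinSimple.gen (ZMod p) (ζ₀ : K₀)
  have hgv : (g : K₀) = ζ₀ := AdjoinSimple.coe_gen _ _
  have hg0 : g ≠ 0 := by
    intro h
    have := congrArg (fun x : K => (x : K₀)) h
    simp only [hgv] at this
    exact ζ₀.ne_zero this
  let ζ : Kˣ := Units.mk0 g hg0
  have hgord : orderOf ζ = q := by
    have h1 : orderOf (Units.map ((algebraMap K K₀ : K →+* K₀) : K →* K₀) ζ) = orderOf ζ :=
      orderOf_injective _ (Units.map_injective (algebraMap K K₀).injective) ζ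
    rw [← h1]
    have h2 : Units.map ((algebraMap K K₀ : K →+* K₀) : K →* K₀) ζ = ζ₀ := by
      apply Units.ext
      exact hgv
    rw [h2]
    exact hζ₀
  refine ⟨K, inferInstance, inferInstance, ζ, inferInstance, hgord, ?_⟩
  intro U hU hinv
  have hpoly : ∀ f : Polynomial (ZMod p), ∀ u ∈ U, Polynomial.aeval g f * u ∈ U := by
    intro f
    induction f using Polynomial.induction_on' with
    | add a b ha hb =>
      intro u hu
      rw [map_add, add_mul]
      exact U.add_mem (ha u hu) (hb u hu)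
    | monomial n a =>
      intro u hu
      rw [Polynomial.aeval_monomial, mul_assoc]
      have h1 : g ^ n * u ∈ U := by
        induction n with
        | zero => rw [pow_zero, one_mul]; exact hu
        | succ n ih => rw [pow_succ', mul_assoc]; exact hinv _ ih
      have h2 : algebraMap (ZMod p) K a = ((a.val : ℕ) : K) := by
        conv_lhs => rw [← ZMod.natCast_zmod_val a]
        exact map_natCast _ _
      rw [h2, ← nsmul_eq_mul]
      exact U.nsmul_mem h1 _
  rw [eq_top_iff]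
  rintro x -
  obtain ⟨u', hu'⟩ := AddSubgroup.ne_bot_iff_exists_ne_zero.1 hU
  obtain ⟨u, hu, hu0⟩ : ∃ u : K, u ∈ U ∧ u ≠ 0 := ⟨u'.1, u'.2, fun h => hu' (Subtype.ext h)⟩
  obtain ⟨f, hf⟩ := (adjoin.powerBasis hint).exists_eq_aeval' (x * (u : K)⁻¹)
  have h3 := hpoly f u hu
  rw [adjoin.powerBasis_gen] at hf
  have h4 : Polynomial.aeval g f * (u : K) = x := by
    show Polynomial.aeval (AdjoinSimple.gen (ZMod p) (ζ₀ : K₀)) f * (u : K) = x
    rw [← hf, mul_assoc, inv_mul_cancel₀ hu0, mul_one]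
  rw [h4] at h3
  exact h3

/-- Frobenius groups `p^d : q` with irreducible kernel -/
theorem exists_frob_irr (p q : ℕ) (hp : p.Prime) (hq : q.Prime) (hpq : p ≠ q) :
    ∃ (F : Type) (_ : Group F) (_ : Finite F) (V : Subgroup F),
      (∀ x ∈ V, ∀ y ∈ V, x * y = y * x) ∧ (∀ x ∈ V, x ≠ 1 → orderOf x = p) ∧ (∀ x, x ∉ V → orderOf x = q) ∧
      (∃ x ∈ V, x ≠ 1) ∧ (∃ x, x ∉ V) ∧
      (∀ U : Subgroup F, (∃ v ∈ U, v ∈ V ∧ v ≠ 1) → (∃ x ∈ U, x ∉ V) → U = ⊤) ∧
      (∃ x y, x ∉ V ∧ y ∉ V ∧ x * y ≠ y * x) ∧ (∀ N : Subgroup F, N.Normal → N ≠ ⊥ → V ≤ N) := by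
  classical
  obtain ⟨K, i1, i2, ζ, hchar, hζ, hirr⟩ := exists_irr_field p q hp hq hpq
  have : Fact p.Prime := ⟨hp⟩
  have : Fact q.Prime := ⟨hq⟩
  set S := Subgroup.zpowers ζ with hS
  have hSc : Nat.card S = q := by rw [Nat.card_zpowers, hζ]
  set ρ := mulAct S with hρ
  let V : Subgroup (FV S) := (SD.toS ρ).ker
  have hVmem : ∀ x : FV S, x ∈ V ↔ x.s = 1 := fun x => Iff.rfl
  have hpA : ∀ a : K, p • a = 0 := fun a => by rw [nsmul_eq_mul, CharP.cast_eq_zero, zero_mul]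
  -- every nontrivial s generates
  have hgen : ∀ s : S, s ≠ 1 → ∀ t : S, ∃ j : ℕ, s ^ j = t := by
    intro s hs t
    have h1 : t ∈ Subgroup.zpowers s := by
      have : Subgroup.zpowers s = ⊤ := by
        apply (Subgroup.card_eq_iff_eq_top _).1
        rw [Nat.card_zpowers, hSc]
        have h2 : orderOf s ∣ q := by rw [← hSc]; exact orderOf_dvd_natCard s
        exact ((Nat.dvd_prime hq).1 h2).resolve_left fun h => hs (orderOf_eq_one_iff.1 h)
      rw [this]; trivial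
    exact (Submonoid.mem_powers_iff _ _).1 ((mem_powers_iff_mem_zpowers).2 h1)
  -- additive subgroups invariant under a nontrivial s
  have hinvtop : ∀ (U : AddSubgroup K) (s : S), s ≠ 1 → U ≠ ⊥ → (∀ u ∈ U, ((s : Kˣ) : K) * u ∈ U) → U = ⊤ := by
    intro U s hs hU hinv
    apply hirr U hU
    intro u hu
    obtain ⟨j, hj⟩ := hgen s hs ⟨ζ, Subgroup.mem_zpowers ζ⟩
    have h1 : ∀ j : ℕ, ((((s ^ j : S)) : Kˣ) : K) * u ∈ U := by
      intro j
      induction j with
      | zero => simpa using hu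
      | succ j ih =>
        have := hinv _ ih
        rw [← mul_assoc] at this
        rw [pow_succ']
        exact this
    have h2 := h1 j
    rw [hj] at h2
    exact h2
  -- trace of a subgroup on K
  let tr : Subgroup (FV S) → AddSubgroup K := fun U =>
    { carrier := {a | (⟨a, 1⟩ : FV S) ∈ U}
      zero_mem' := U.one_mem
      add_mem' := by
        intro a b ha hb
        have := U.mul_mem ha hb
        have e : (⟨a, 1⟩ : FV S) * ⟨b, 1⟩ = ⟨a + b, 1⟩ := by
          ext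
          · show a + ρ 1 b = a + b
            rw [SD.rho_one]
          · show (((1 * 1 : S) : Kˣ) : K) = ((1 : S) : Kˣ)
            rw [one_mul]
        rw [e] at this
        exact this
      neg_mem' := by
        intro a ha
        have := U.inv_mem ha
        have e : (⟨a, 1⟩ : FV S)⁻¹ = ⟨-a, 1⟩ := by
          rw [inv_eq_iff_mul_eq_one]
          ext
          · show a + ρ 1 (-a) = 0
            rw [SD.rho_one, add_neg_cancel]
          · show (((1 * 1 : S) : Kˣ) : K) = ((1 : S) : Kˣ)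
            rw [one_mul]
        rw [e] at this
        exact this }
  have htr : ∀ (U : Subgroup (FV S)) (a : K), a ∈ tr U ↔ (⟨a, 1⟩ : FV S) ∈ U := fun U a => Iff.rfl
  -- conjugation
  have hconj : ∀ (x : FV S) (a : K), x * ⟨a, 1⟩ * x⁻¹ = ⟨((x.s : Kˣ) : K) * a, 1⟩ := by
    intro x a
    rw [mul_inv_eq_iff_eq_mul]
    ext
    · show x.a + ρ x.s a = ((x.s : Kˣ) : K) * a + ρ 1 x.a
      rw [SD.rho_one, mulAct_apply, add_comm]
    · show (((x.s * 1 : S) : Kˣ) : K) = ((1 * x.s : S) : Kˣ)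
      rw [mul_one, one_mul]
  have hVtop : ∀ U : Subgroup (FV S), (∃ v ∈ U, v ∈ V ∧ v ≠ 1) → (∃ x : FV S, x ∉ V ∧ ∀ u ∈ U, x * u * x⁻¹ ∈ U) → V ≤ U := by
    rintro U ⟨v, hvU, hvV, hv1⟩ ⟨x, hxV, hx⟩
    have h1 : tr U = ⊤ := by
      apply hinvtop (tr U) x.s (fun h => hxV ((hVmem x).2 h))
      · intro hbot
        have h2 : v.a ∈ tr U := by
          rw [htr]
          have : (⟨v.a, 1⟩ : FV S) = v := by
            ext
            · rfl
            · rw [(hVmem v).1 hvV]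
          rw [this]; exact hvU
        rw [hbot, AddSubgroup.mem_bot] at h2
        apply hv1
        ext
        · exact h2
        · rw [(hVmem v).1 hvV]; rfl
      · intro u hu
        rw [htr] at hu ⊢
        rw [← hconj x u]
        exact hx _ hu
    intro w hw
    have h2 : w.a ∈ tr U := by rw [h1]; trivial
    rw [htr] at h2
    have : (⟨w.a, 1⟩ : FV S) = w := by
      ext
      · rfl
      · rw [(hVmem w).1 hw]
    rw [this] at h2
    exact h2
  have hζne : (⟨ζ, Subgroup.mem_zpowers ζ⟩ : S) ≠ 1 := by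
    intro h
    have h1 : ζ = 1 := congrArg Subtype.val h
    rw [h1, orderOf_one] at hζ
    exact hq.one_lt.ne hζ
  have hζ1 : (ζ : K) ≠ 1 := by
    intro h
    apply hζne
    apply Subtype.ext
    apply Units.ext
    exact h
  refine ⟨FV S, inferInstance, inferInstance, V, ?_, ?_, ?_, ?_, ?_, ?_, ?_, ?_⟩
  · intro x hx y hy
    rw [hVmem] at hx hy
    ext
    · show x.a + ρ x.s y.a = y.a + ρ y.s x.a
      rw [hx, hy, SD.rho_one, SD.rho_one, add_comm]
    · show (((x.s * y.s : S) : Kˣ) : K) = ((y.s * x.s : S) : Kˣ)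
      rw [hx, hy]
  · intro x hx hx1
    rcases SD.orderOf_cases ρ hp hpA x with h | ⟨h, _⟩
    · exfalso
      rw [(hVmem x).1 hx, orderOf_one, orderOf_eq_one_iff] at h
      exact hx1 h
    · rw [(hVmem x).1 hx, orderOf_one, one_mul] at h
      exact h
  · intro x hx
    have hs : x.s ≠ 1 := fun h => hx ((hVmem x).2 h)
    have hso : orderOf x.s = q := by
      have h2 : orderOf x.s ∣ q := by rw [← hSc]; exact orderOf_dvd_natCard _
      exact ((Nat.dvd_prime hq).1 h2).resolve_left fun h => hs (orderOf_eq_one_iff.1 h)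
    rcases SD.orderOf_cases ρ hp hpA x with h | ⟨h, u, hu, hf⟩
    · rw [h, hso]
    · exact absurd (fv_fixed hu hf) hs
  · refine ⟨⟨1, 1⟩, (hVmem _).2 rfl, fun h => one_ne_zero (congrArg SD.a h)⟩
  · exact ⟨⟨0, ⟨ζ, Subgroup.mem_zpowers ζ⟩⟩, fun h => hζne ((hVmem _).1 h)⟩
  · rintro U ⟨v, hvU, hvV, hv1⟩ ⟨x, hxU, hxV⟩
    have hVU := hVtop U ⟨v, hvU, hvV, hv1⟩ ⟨x, hxV, fun u hu => U.mul_mem (U.mul_mem hxU hu) (U.inv_mem hxU)⟩
    rw [eq_top_iff]
    rintro w -
    obtain ⟨j, hj⟩ := hgen x.s (fun h => hxV ((hVmem x).2 h)) w.s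
    have h1 : w * (x ^ j)⁻¹ ∈ V := by
      rw [hVmem]
      show w.s * (x ^ j)⁻¹.s = 1
      rw [SD.inv_s, SD.pow_s, hj, mul_inv_cancel]
    have h2 := U.mul_mem (hVU h1) (U.pow_mem hxU j)
    rwa [inv_mul_cancel_right] at h2
  · refine ⟨⟨0, ⟨ζ, Subgroup.mem_zpowers ζ⟩⟩, ⟨1, ⟨ζ, Subgroup.mem_zpowers ζ⟩⟩, fun h => hζne ((hVmem _).1 h),
      fun h => hζne ((hVmem _).1 h), ?_⟩
    intro h
    have h1 := congrArg SD.a h
    change (0 : K) + (ζ : K) * 1 = 1 + (ζ : K) * 0 at h1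
    rw [zero_add, mul_one, mul_zero, add_zero] at h1
    exact hζ1 h1
  · intro N hN hbot
    obtain ⟨y', hy'⟩ := Subgroup.ne_bot_iff_exists_ne_one.1 hbot
    obtain ⟨y, hy, hy1⟩ : ∃ y : FV S, y ∈ N ∧ y ≠ 1 := ⟨y'.1, y'.2, fun h => hy' (Subtype.ext h)⟩
    apply hVtop N _ ⟨⟨0, ⟨ζ, Subgroup.mem_zpowers ζ⟩⟩, fun h => hζne ((hVmem _).1 h), fun u hu => hN.conj_mem u hu _⟩
    by_cases hyV : (y : FV S) ∈ V
    · exact ⟨y, hy, hyV, hy1⟩
    · -- commutator with (1,1)
      refine ⟨(y : FV S) * ⟨1, 1⟩ * (y : FV S)⁻¹ * (⟨1, 1⟩ : FV S)⁻¹, ?_, ?_, ?_⟩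
      · have h1 := hN.conj_mem _ (N.inv_mem hy) (⟨1, 1⟩ : FV S)
        have h2 := N.mul_mem hy h1
        have e : (y : FV S) * ((⟨1, 1⟩ : FV S) * (y : FV S)⁻¹ * (⟨1, 1⟩ : FV S)⁻¹) =
            (y : FV S) * ⟨1, 1⟩ * (y : FV S)⁻¹ * (⟨1, 1⟩ : FV S)⁻¹ := by group
        rw [e] at h2
        exact h2
      · rw [hconj]
        exact V.mul_mem ((hVmem _).2 rfl) (V.inv_mem ((hVmem _).2 rfl))
      · intro h
        rw [hconj, mul_inv_eq_one] at h
        have h1 := congrArg SD.a h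
        change ((((y : FV S).s : Kˣ)) : K) * 1 = 1 at h1
        rw [mul_one] at h1
        apply hyV
        rw [hVmem]
        apply Subtype.ext
        apply Units.ext
        exact h1

end Cfsg.Agent.H22
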