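import Cfsg.Agent.H23.RankOne2
import Cfsg.Agent.H23.PGroup4
import Cfsg.Agent.H1.Hall

set_option autoImplicit false
set_option linter.style.haveILetI false

/-!
Finite `p`-groups in which subgroups of equal order are isomorphic (helper22).
-/

namespace Cfsg.Agent.H22

open Cfsg Subgroup

variable {X : Type*} [Group X]

/-- exponent `p` or rank one -/
theorem isoP_key [Finite X] {p : ℕ} [hp : Fact p.Prime] (hX : IsPGroup p X)
    (hiso : ∀ H K : Subgroup X, Nat.card H = Nat.card K → Nonempty (H ≃* K)) :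
    (IsCyclic X ∨ (p = 2 ∧ ∃ n, 1 ≤ n ∧ Nonempty (X ≃* QuaternionGroup (2 ^ n)))) ∨ ∀ x : X, x ^ p = 1 := by
  classical
  by_cases huniq : ∀ x y : X, orderOf x = p → orderOf y = p → y ∈ zpowers x
  · exact Or.inl (H23.cyclic_or_quaternion hX huniq)
  right
  push Not at huniq
  obtain ⟨x, y, hx, hy, hxy⟩ := huniq
  haveI : Nontrivial X := ⟨x, 1, fun h => by rw [h, orderOf_one] at hx; exact hp.out.one_lt.ne hx⟩
  have hZ := hX.center_nontrivial
  have hZp : p ∣ Nat.card (center X) := by
    obtain ⟨k, hk⟩ := IsPGroup.iff_card.mp (hX.to_subgroup (center X))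
    rw [hk]
    apply dvd_pow_self
    rintro rfl
    rw [pow_zero] at hk
    rw [← Finite.one_lt_card_iff_nontrivial] at hZ
    omega
  obtain ⟨z, hz⟩ := exists_prime_orderOf_dvd_card' p hZp
  have hzc := z.2
  have hz' : orderOf (z : X) = p := by rw [orderOf_coe]; exact hz
  generalize (z : X) = z at hzc hz'
  obtain ⟨w, hw, hwz⟩ : ∃ w : X, orderOf w = p ∧ w ∉ zpowers z := by
    by_contra hcon
    push Not at hcon
    have h1 := hcon x hx
    have h2 := hcon y hy
    have h3 : zpowers x = zpowers z := by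
      apply eq_of_le_of_card_ge (zpowers_le.mpr h1)
      rw [Nat.card_zpowers, Nat.card_zpowers, hx, hz']
    rw [h3] at hxy
    exact hxy h2
  haveI hzn : (zpowers z).Normal := by
    refine ⟨fun a ha g => ?_⟩
    have hac : a ∈ center X := (zpowers_le.mpr hzc) ha
    rw [mem_center_iff.mp hac g, mul_inv_cancel_right]; exact ha
  set E := zpowers z ⊔ zpowers w with hE
  have hEc : Nat.card E = p ^ 2 := by
    rw [hE, H23.card_sup_zpowers_of_pow_mem (p := p) hwz (by rw [orderOf_dvd_iff_pow_eq_one.mp hw.dvd]; exact one_mem _), Nat.card_zpowers, hz', pow_two]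
  have hEp : ∀ a ∈ E, a ^ p = 1 := by
    intro a ha
    rw [hE, mem_sup_of_normal_left] at ha
    obtain ⟨c, hc, d, hd, rfl⟩ := ha
    have hcc : c ∈ center X := (zpowers_le.mpr hzc) hc
    have hcd : Commute c d := (mem_center_iff.mp hcc d).symm
    obtain ⟨i, rfl⟩ := mem_zpowers_iff.mp hc
    obtain ⟨j, rfl⟩ := mem_zpowers_iff.mp hd
    have hz1 : z ^ p = 1 := orderOf_dvd_iff_pow_eq_one.mp hz'.dvd
    have hw1 : w ^ p = 1 := orderOf_dvd_iff_pow_eq_one.mp hw.dvd
    rw [hcd.mul_pow, ← zpow_natCast, ← zpow_mul, mul_comm i, zpow_mul, zpow_natCast, hz1, one_zpow, one_mul,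
      ← zpow_natCast, ← zpow_mul, mul_comm j, zpow_mul, zpow_natCast, hw1, one_zpow]
  intro t
  by_contra htp
  obtain ⟨k, hk⟩ := (IsPGroup.iff_orderOf.mp hX) t
  have hk2 : 2 ≤ k := by
    by_contra h
    apply htp
    rw [← orderOf_dvd_iff_pow_eq_one, hk]
    calc p ^ k ∣ p ^ 1 := pow_dvd_pow p (by omega)
      _ = p := pow_one p
  have hs : orderOf (t ^ (p ^ (k - 2))) = p ^ 2 := by
    rw [orderOf_pow_of_dvd (pow_pos hp.out.pos _).ne' (by rw [hk]; exact pow_dvd_pow p (by omega)), hk]
    rw [Nat.pow_div (by omega) hp.out.pos]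
    congr 1; omega
  obtain ⟨g⟩ := hiso (zpowers (t ^ (p ^ (k - 2)))) E (by rw [Nat.card_zpowers, hs, hEc])
  have h1 : (⟨t ^ (p ^ (k - 2)), mem_zpowers _⟩ : zpowers (t ^ (p ^ (k - 2)))) ^ p = 1 := by
    apply g.injective
    rw [map_pow, map_one]
    apply Subtype.ext
    exact hEp _ (g _).2
  have h3 : (t ^ (p ^ (k - 2))) ^ p = 1 := congrArg Subtype.val h1
  have h4 := orderOf_dvd_of_pow_eq_one h3
  rw [hs] at h4
  have h5 := Nat.le_of_dvd hp.out.pos h4
  have := hp.out.one_lt
  nlinarith

/-- generalized quaternion groups of order at least 16 are excluded -/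
theorem isoP_quat [Finite X]
    (hiso : ∀ H K : Subgroup X, Nat.card H = Nat.card K → Nonempty (H ≃* K)) {n : ℕ} (hn : 1 ≤ n)
    (e : X ≃* QuaternionGroup (2 ^ n)) : n = 1 := by
  by_contra hn1
  have hn2 : 2 ≤ n := by omega
  haveI : Fact (Nat.Prime 2) := ⟨Nat.prime_two⟩
  haveI : NeZero (2 ^ n) := ⟨by positivity⟩
  have hcard : Nat.card X = 2 ^ (n + 2) := by
    rw [Nat.card_congr e.toEquiv, Nat.card_eq_fintype_card, QuaternionGroup.card]; ring
  set y := e.symm (QuaternionGroup.xa 0) with hy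
  set z := e.symm (QuaternionGroup.a 1) with hz
  have hyo : orderOf y = 4 := by rw [hy, MulEquiv.orderOf_eq, QuaternionGroup.orderOf_xa]
  have hzo : orderOf z = 2 ^ (n + 1) := by
    rw [hz, MulEquiv.orderOf_eq, QuaternionGroup.orderOf_a_one]; ring
  obtain ⟨H, hH, hyH⟩ := Sylow.exists_subgroup_card_pow_prime_le 2 (n := 2) (m := n + 1) (G := X)
    (by rw [hcard]; exact pow_dvd_pow 2 (by omega)) (zpowers y) (by rw [Nat.card_zpowers, hyo]; rfl) (by omega)
  obtain ⟨g⟩ := hiso (zpowers z) H (by rw [Nat.card_zpowers, hzo, hH])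
  set h := g ⟨z, mem_zpowers z⟩ with hh
  have hho : orderOf (h : X) = 2 ^ (n + 1) := by
    rw [orderOf_coe, hh, MulEquiv.orderOf_eq, ← hzo, ← orderOf_coe]
  have hhH : zpowers (h : X) = H := by
    apply eq_of_le_of_card_ge (zpowers_le.2 h.2)
    rw [Nat.card_zpowers, hho, hH]
  have hhz : (h : X) ∈ zpowers z := by
    rcases he : e (h : X) with i | i
    · rw [mem_zpowers_iff]
      refine ⟨(i.val : ℤ), ?_⟩
      apply e.injective
      rw [map_zpow, hz, MulEquiv.apply_symm_apply, he, zpow_natCast, QuaternionGroup.a_one_pow,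
        ZMod.natCast_zmod_val]
    · exfalso
      have h1 : orderOf (e (h : X)) = 4 := by rw [he, QuaternionGroup.orderOf_xa]
      rw [MulEquiv.orderOf_eq, hho] at h1
      have : 2 ^ 3 ≤ 2 ^ (n + 1) := Nat.pow_le_pow_right (by norm_num) (by omega)
      omega
  have hyz : y ∈ zpowers z := by
    have h1 : H ≤ zpowers z := by rw [← hhH, zpowers_le]; exact hhz
    exact h1 (hyH (mem_zpowers y))
  obtain ⟨j, hj⟩ := mem_zpowers_iff.1 hyz
  have hcomm : y * z = z * y := by
    rw [← hj]; exact (Commute.refl z).zpow_left j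
  have h2 := congrArg e hcomm
  rw [map_mul, map_mul, hy, hz, MulEquiv.apply_symm_apply, MulEquiv.apply_symm_apply,
    QuaternionGroup.xa_mul_a, QuaternionGroup.a_mul_xa] at h2
  have h3 : (0 + 1 : ZMod (2 * 2 ^ n)) = 0 - 1 := QuaternionGroup.xa.inj h2
  have h4 : ((2 : ℕ) : ZMod (2 * 2 ^ n)) = 0 := by
    push_cast
    have : (2 : ZMod (2 * 2 ^ n)) = (0 + 1) - (0 - 1) := by ring
    rw [this, h3]; ring
  rw [ZMod.natCast_eq_zero_iff] at h4
  have h5 := Nat.le_of_dvd (by norm_num) h4
  have : 2 ^ 2 ≤ 2 ^ n := Nat.pow_le_pow_right (by norm_num) hn2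
  omega

/-- exponent `p`, nonabelian: order `p ^ 3` -/
theorem isoP_exp [Finite X] {p : ℕ} [hp : Fact p.Prime] (hX : IsPGroup p X)
    (hiso : ∀ H K : Subgroup X, Nat.card H = Nat.card K → Nonempty (H ≃* K))
    (hexp : ∀ x : X, x ^ p = 1) (hna : ¬ ∀ x y : X, x * y = y * x) : Nat.card X = p ^ 3 := by
  classical
  obtain ⟨m, hm⟩ := IsPGroup.iff_card.1 hX
  have hp1 := hp.out.one_lt
  have hcen : ∀ {Y : Type _} [Group Y] [Finite Y] [Nontrivial Y], IsPGroup p Y →
      ∃ z : Y, z ≠ 1 ∧ ∀ g, g * z = z * g := by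
    intro Y _ _ _ hY
    haveI := hY.center_nontrivial
    obtain ⟨z, hz⟩ := exists_ne (1 : center Y)
    exact ⟨z, fun h => hz (Subtype.ext h), fun g => mem_center_iff.1 z.2 g⟩
  haveI hnt : Nontrivial X := by
    by_contra hcon
    rw [not_nontrivial_iff_subsingleton] at hcon
    exact hna fun x y => Subsingleton.elim _ _
  have hord : ∀ x : X, Nat.card (zpowers x) ≤ p := by
    intro x
    rw [Nat.card_zpowers]
    exact Nat.le_of_dvd hp.out.pos (orderOf_dvd_of_pow_eq_one (hexp x))
  -- `m ≥ 3` and `A` abelian of order `p ^ 3` force abelian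
  have hm3 : 3 ≤ m := by
    by_contra hcon
    push Not at hcon
    apply hna
    have h0 : m ≠ 0 := by
      rintro rfl
      rw [pow_zero] at hm
      have := Finite.one_lt_card_iff_nontrivial.2 hnt
      omega
    interval_cases m
    · exact absurd rfl h0
    · rw [pow_one] at hm
      have := isCyclic_of_prime_card hm
      intro x y
      letI := IsCyclic.commGroup (α := X)
      exact mul_comm x y
    · have h := IsPGroup.isMulCommutative_of_card_eq_prime_sq hm
      intro x y
      exact h.is_comm.comm x y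
  -- no abelian subgroup of order p^3
  have hnoA : ∀ A : Subgroup X, Nat.card A = p ^ 3 → ¬ ∀ x ∈ A, ∀ y ∈ A, x * y = y * x := by
    intro A hA hAc
    have hcomm3 : ∀ K : Subgroup X, Nat.card K = p ^ 3 → ∀ x ∈ K, ∀ y ∈ K, x * y = y * x := by
      intro K hK x hx y hy
      obtain ⟨g⟩ := hiso K A (by rw [hK, hA])
      have h1 : (⟨x, hx⟩ : K) * ⟨y, hy⟩ = ⟨y, hy⟩ * ⟨x, hx⟩ := by
        apply g.injective
        rw [map_mul, map_mul]
        exact Subtype.ext (hAc _ (g _).2 _ (g _).2)
      exact congrArg Subtype.val h1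
    have hZt : center X ≠ ⊤ := by
      intro h
      apply hna
      intro x y
      have : x ∈ center X := by rw [h]; exact mem_top x
      exact (mem_center_iff.1 this y).symm
    haveI : Nontrivial (X ⧸ center X) := QuotientGroup.nontrivial_iff.2 hZt
    obtain ⟨xb, hxb1, hxbc⟩ := hcen (hX.to_quotient (center X))
    obtain ⟨x, rfl⟩ := QuotientGroup.mk_surjective xb
    have hxZ : x ∉ center X := fun h => hxb1 ((QuotientGroup.eq_one_iff _).2 h)
    rw [mem_center_iff] at hxZ
    push Not at hxZ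
    obtain ⟨y, hy⟩ := hxZ
    have hc : y * x * y⁻¹ * x⁻¹ ∈ center X := by
      rw [← QuotientGroup.eq_one_iff]
      have := hxbc y
      rw [QuotientGroup.mk_mul, QuotientGroup.mk_mul, QuotientGroup.mk_mul, this]
      rw [QuotientGroup.mk_inv, QuotientGroup.mk_inv]; group
    set c := y * x * y⁻¹ * x⁻¹ with hcdef
    haveI hFn : (zpowers c).Normal := by
      refine ⟨fun a ha g => ?_⟩
      have hac : a ∈ center X := (zpowers_le.mpr hc) ha
      rw [mem_center_iff.mp hac g, mul_inv_cancel_right]; exact ha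
    set E := zpowers c ⊔ zpowers x with hE
    have hEy : zpowers y ≤ normalizer (E : Set X) := by
      rw [zpowers_le]
      have hyx : y * x * y⁻¹ = c * x := by rw [hcdef]; group
      have hmap : E.map (MulAut.conj y).toMonoidHom ≤ E := by
        rw [hE, Subgroup.map_sup, MonoidHom.map_zpowers, MonoidHom.map_zpowers, sup_le_iff, zpowers_le, zpowers_le]
        constructor
        · show y * c * y⁻¹ ∈ _
          rw [mem_center_iff.1 hc y, mul_inv_cancel_right]
          exact mem_sup_left (mem_zpowers c)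
        · show y * x * y⁻¹ ∈ _
          rw [hyx]
          exact mul_mem (mem_sup_left (mem_zpowers c)) (mem_sup_right (mem_zpowers x))
      have heq : E.map (MulAut.conj y).toMonoidHom = E :=
        eq_of_le_of_card_ge hmap (card_map_of_injective (MulAut.conj y).injective).ge
      rw [mem_normalizer_iff]
      intro a
      constructor
      · intro ha
        have : MulAut.conj y a ∈ E.map (MulAut.conj y).toMonoidHom := mem_map_of_mem _ ha
        rwa [heq] at this
      · intro ha
        have h2 : y * a * y⁻¹ ∈ E.map (MulAut.conj y).toMonoidHom := by rw [heq]; exact ha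
        obtain ⟨b, hb, hb'⟩ := mem_map.1 h2
        have : b = a := (MulAut.conj y).injective hb'
        rwa [← this]
    have hcE : Nat.card E ≤ p * p := by
      have h1 := H1.card_sup_mul_card_inf_of_le_normalizer (H := zpowers c) (K := zpowers x)
        (by rw [Subgroup.normalizer_eq_top_iff.2 hFn]; exact le_top)
      have h2 : 0 < Nat.card (zpowers c ⊓ zpowers x : Subgroup X) := Nat.card_pos
      calc Nat.card E ≤ Nat.card E * Nat.card (zpowers c ⊓ zpowers x : Subgroup X) := Nat.le_mul_of_pos_right _ h2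
        _ = _ := h1
        _ ≤ p * p := Nat.mul_le_mul (hord c) (hord x)
    have hcL : Nat.card (E ⊔ zpowers y : Subgroup X) ≤ p ^ 3 := by
      have h1 := H1.card_sup_mul_card_inf_of_le_normalizer hEy
      have h2 : 0 < Nat.card (E ⊓ zpowers y : Subgroup X) := Nat.card_pos
      calc Nat.card (E ⊔ zpowers y : Subgroup X) ≤ Nat.card (E ⊔ zpowers y : Subgroup X) * Nat.card (E ⊓ zpowers y : Subgroup X) := Nat.le_mul_of_pos_right _ h2
        _ = _ := h1
        _ ≤ (p * p) * p := Nat.mul_le_mul hcE (hord y)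
        _ = p ^ 3 := by ring
    obtain ⟨j, hj⟩ := IsPGroup.iff_card.1 (hX.to_subgroup (E ⊔ zpowers y))
    have hj3 : j ≤ 3 := by
      rw [hj] at hcL
      exact (Nat.pow_le_pow_iff_right hp1).1 hcL
    obtain ⟨K, hK, hLK⟩ := Sylow.exists_subgroup_card_pow_prime_le p (n := j) (m := 3) (G := X)
      (by rw [hm]; exact pow_dvd_pow p hm3) _ hj hj3
    exact hy (hcomm3 K hK y (hLK (mem_sup_right (mem_zpowers y))) x
      (hLK (mem_sup_left (mem_sup_right (mem_zpowers x)))))
  rw [hm]
  congr 1
  by_contra hm3'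
  have hm4 : 4 ≤ m := by omega
  -- an abelian subgroup of order p^3
  obtain ⟨z, hz1, hzc⟩ := hcen hX
  have hzo : orderOf z = p := orderOf_eq_prime (hexp z) hz1
  haveI hFn : (zpowers z).Normal := by
    refine ⟨fun a ha g => ?_⟩
    have hac : a ∈ center X := (zpowers_le.mpr (mem_center_iff.2 hzc)) ha
    rw [mem_center_iff.mp hac g, mul_inv_cancel_right]; exact ha
  have hFt : zpowers z ≠ ⊤ := by
    intro h
    have := congrArg (fun H : Subgroup X => Nat.card H) h
    simp only [Nat.card_zpowers, card_top] at this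
    rw [hzo, hm] at this
    have h2 : p ^ 1 < p ^ m := Nat.pow_lt_pow_right hp1 (by omega)
    rw [pow_one] at h2
    omega
  haveI : Nontrivial (X ⧸ zpowers z) := QuotientGroup.nontrivial_iff.2 hFt
  obtain ⟨ub, hub1, hubc⟩ := hcen (hX.to_quotient (zpowers z))
  obtain ⟨u, rfl⟩ := QuotientGroup.mk_surjective ub
  have huF : u ∉ zpowers z := fun h => hub1 ((QuotientGroup.eq_one_iff _).2 h)
  have huc : ∀ g, g * u * g⁻¹ * u⁻¹ ∈ zpowers z := by
    intro g
    rw [← QuotientGroup.eq_one_iff]
    have := hubc g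
    rw [QuotientGroup.mk_mul, QuotientGroup.mk_mul, QuotientGroup.mk_mul, this]
    rw [QuotientGroup.mk_inv, QuotientGroup.mk_inv]; group
  -- centralizer index ≤ p
  have hidx : (centralizer ({u} : Set X)).index ≤ p := by
    have h1 : (centralizer ({u} : Set X)).index = Nat.card (X ⧸ centralizer ({u} : Set X)) := rfl
    rw [h1]
    have h2 : Nat.card (zpowers z) = p := by rw [Nat.card_zpowers, hzo]
    rw [← h2]
    let f : X ⧸ centralizer ({u} : Set X) → zpowers z :=
      Quotient.lift (fun g : X => (⟨g * u * g⁻¹ * u⁻¹, huc g⟩ : zpowers z)) (by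
        intro a b hab
        have hab' : a⁻¹ * b ∈ centralizer ({u} : Set X) := QuotientGroup.leftRel_apply.1 hab
        rw [mem_centralizer_singleton_iff] at hab'
        apply Subtype.ext
        show a * u * a⁻¹ * u⁻¹ = b * u * b⁻¹ * u⁻¹
        have : a⁻¹ * b * u * b⁻¹ * a = u := by
          calc a⁻¹ * b * u * b⁻¹ * a = (a⁻¹ * b * u) * (a⁻¹ * b)⁻¹ := by group
            _ = (u * (a⁻¹ * b)) * (a⁻¹ * b)⁻¹ := by rw [hab']
            _ = u := by group
        calc a * u * a⁻¹ * u⁻¹ = a * (a⁻¹ * b * u * b⁻¹ * a) * a⁻¹ * u⁻¹ := by rw [this]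
          _ = _ := by group)
    refine Nat.card_le_card_of_injective f ?_
    intro a b
    induction a using Quotient.inductionOn' with | _ a => ?_
    induction b using Quotient.inductionOn' with | _ b => ?_
    intro hab
    have h3 : a * u * a⁻¹ * u⁻¹ = b * u * b⁻¹ * u⁻¹ := congrArg Subtype.val hab
    apply Quotient.sound'
    rw [QuotientGroup.leftRel_apply, mem_centralizer_singleton_iff]
    have h4 : a * u * a⁻¹ = b * u * b⁻¹ := mul_right_cancel h3
    calc a⁻¹ * b * u = a⁻¹ * (b * u * b⁻¹) * b := by group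
      _ = a⁻¹ * (a * u * a⁻¹) * b := by rw [h4]
      _ = u * (a⁻¹ * b) := by group
  have hCcard : p ^ 3 ≤ Nat.card (centralizer ({u} : Set X)) := by
    have h1 := (centralizer ({u} : Set X)).card_mul_index
    rw [hm] at h1
    have h2 : p ^ m = p ^ (m - 1) * p := by rw [← pow_succ]; congr 1; omega
    have h3 : p ^ (m - 1) * p ≤ Nat.card (centralizer ({u} : Set X)) * p := by
      rw [← h2, ← h1]; exact Nat.mul_le_mul_left _ hidx
    have h4 := Nat.le_of_mul_le_mul_right h3 hp.out.pos
    exact le_trans (Nat.pow_le_pow_right hp.out.pos (by omega)) h4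
  set N := zpowers z ⊔ zpowers u with hN
  have hNcard : Nat.card N = p ^ 2 := by
    rw [hN, H23.card_sup_zpowers_of_pow_mem (p := p) huF (by rw [hexp]; exact one_mem _), Nat.card_zpowers, hzo, pow_two]
  obtain ⟨w, hwC, hwN⟩ : ∃ w ∈ centralizer ({u} : Set X), w ∉ N := by
    by_contra hcon
    push Not at hcon
    have h1 : centralizer ({u} : Set X) ≤ N := hcon
    have h2 := Nat.le_of_dvd Nat.card_pos (card_dvd_of_le h1)
    rw [hNcard] at h2
    have h3 : p ^ 2 < p ^ 3 := Nat.pow_lt_pow_right hp1 (by norm_num)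
    omega
  set A := Subgroup.closure ({z, u, w} : Set X) with hA
  have hwu : w * u = u * w := mem_centralizer_singleton_iff.1 hwC
  have hAcomm : ∀ x ∈ A, ∀ y ∈ A, x * y = y * x := by
    have h1 : A ≤ centralizer ({z, u, w} : Set X) := by
      rw [hA, closure_le]
      rintro a ha
      rw [SetLike.mem_coe, mem_centralizer_iff]
      intro b hb
      simp only [Set.mem_insert_iff, Set.mem_singleton_iff] at ha hb
      rcases ha with rfl | rfl | rfl <;> rcases hb with rfl | rfl | rfl <;>
        first | rfl | exact hzc _ | exact (hzc _).symm | exact hwu | exact hwu.symm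
    have h2 : A ≤ centralizer (A : Set X) := by
      rw [hA, centralizer_closure, ← hA]; exact h1
    intro x hx y hy
    exact (mem_centralizer_iff.1 (h2 hx) y hy).symm
  have hNA : N ≤ A := by
    rw [hN, sup_le_iff, zpowers_le, zpowers_le]
    exact ⟨subset_closure (by simp), subset_closure (by simp)⟩
  have hwA : w ∈ A := subset_closure (by simp)
  obtain ⟨a, ha⟩ := IsPGroup.iff_card.1 (hX.to_subgroup A)
  have ha3 : 3 ≤ a := by
    by_contra hcon
    have h1 : Nat.card A ≤ Nat.card N := by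
      rw [ha, hNcard]; exact Nat.pow_le_pow_right hp.out.pos (by omega)
    have h2 := eq_of_le_of_card_ge hNA h1
    exact hwN (h2 ▸ hwA)
  obtain ⟨B, hB⟩ := Sylow.exists_subgroup_card_pow_prime p (G := A) (n := 3) (by rw [ha]; exact pow_dvd_pow p ha3)
  refine hnoA (B.map A.subtype) ?_ ?_
  · rw [card_map_of_injective A.subtype_injective, hB]
  · rintro _ ⟨x, -, rfl⟩ _ ⟨y, -, rfl⟩
    exact hAcomm x x.2 y y.2

end Cfsg.Agent.H22
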