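import Cfsg.Agent.H22.Quasi
import Cfsg.Agent.H22.ThreeCycle

set_option autoImplicit false
set_option linter.all false

/-!
# Jordan sets in primitive groups: 2-transitivity, primitivity of point stabilizers (seat helper22)
-/

namespace Cfsg.Agent.H22

open MulAction
open scoped Pointwise

/-- elementwise Jordan set -/
def JSet (G : Type*) {Ω : Type*} [Group G] [MulAction G Ω] (Γ : Set Ω) : Prop :=
  ∀ x ∈ Γ, ∀ y ∈ Γ, ∃ g : G, (∀ z ∉ Γ, g • z = z) ∧ g • x = y

section
variable {G Ω : Type*} [Group G] [MulAction G Ω]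

theorem JSet.translate {Γ : Set Ω} (h : JSet G Γ) (g : G) : JSet G (g • Γ) := by
  intro x hx y hy
  rw [Set.mem_smul_set_iff_inv_smul_mem] at hx hy
  obtain ⟨k, hk, hkx⟩ := h _ hx _ hy
  refine ⟨g * k * g⁻¹, ?_, ?_⟩
  · intro z hz
    rw [Set.mem_smul_set_iff_inv_smul_mem] at hz
    rw [mul_smul, mul_smul, hk _ hz, smul_inv_smul]
  · rw [mul_smul, mul_smul, hkx, smul_inv_smul]

/-- a Jordan set avoiding `a` gives a Jordan set of the stabilizer of `a` -/
theorem JSet.ofStabilizer {Γ : Set Ω} (h : JSet G Γ) {a : Ω} (ha : a ∉ Γ) :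
    JSet (stabilizer G a) {x : SubMulAction.ofStabilizer G a | (x : Ω) ∈ Γ} := by
  intro x hx y hy
  obtain ⟨k, hk, hkx⟩ := h _ hx _ hy
  refine ⟨⟨k, hk a ha⟩, ?_, Subtype.ext hkx⟩
  intro z hz
  exact Subtype.ext (hk _ hz)

/-- Jordan: a primitive group with a Jordan set is 2-transitive. -/
theorem two_trans_of_jset [Finite Ω] (hp : IsPreprimitive G Ω) {Γ : Set Ω} (h1 : 1 < Γ.ncard)
    (h2 : Γ.ncard < Nat.card Ω) (hJ : JSet G Γ) : IsMultiplyPretransitive G Ω 2 := by
  have hc : Γᶜ.ncard + Γ.ncard = Nat.card Ω := by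
    rw [add_comm]; exact Set.ncard_add_ncard_compl Γ (Set.toFinite _) (Set.toFinite _)
  obtain ⟨n, hn⟩ : ∃ n, Γᶜ.ncard = n + 1 := ⟨Γᶜ.ncard - 1, by omega⟩
  exact hp.is_two_pretransitive hn (by omega) (jordan_intro hJ)

theorem card_ofStabilizer [Finite Ω] (a : Ω) : Nat.card (SubMulAction.ofStabilizer G a) + 1 = Nat.card Ω := by
  have h1 : Nat.card (SubMulAction.ofStabilizer G a) = ({a}ᶜ : Set Ω).ncard := by
    rw [← Nat.card_coe_set_eq]
    apply Nat.card_congr
    exact Equiv.setCongr (by ext x; simp [SubMulAction.mem_ofStabilizer_iff])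
  rw [h1, ← Set.ncard_singleton a, add_comm]
  exact Set.ncard_add_ncard_compl {a} (Set.toFinite _) (Set.toFinite _)

theorem ncard_preimage_ofStabilizer [Finite Ω] {a : Ω} {Γ : Set Ω} (ha : a ∉ Γ) :
    ({x : SubMulAction.ofStabilizer G a | (x : Ω) ∈ Γ}).ncard = Γ.ncard := by
  rw [← Set.ncard_image_of_injective _ (Subtype.val_injective (p := fun x => x ∈ SubMulAction.ofStabilizer G a))]
  congr 1
  ext x
  constructor
  · rintro ⟨y, hy, rfl⟩; exact hy
  · intro hx
    refine ⟨⟨x, ?_⟩, hx, rfl⟩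
    rw [SubMulAction.mem_ofStabilizer_iff]
    rintro rfl
    exact ha hx

/-- counting translates containing given points -/
theorem count_inv [Finite G] {Γ : Set Ω} (P : Set Ω → Prop) (g : G) :
    Nat.card {k : G // P ((k : G) • Γ)} = Nat.card {k : G // P ((g * k : G) • Γ)} := by
  apply Nat.card_congr
  refine ⟨fun k => ⟨g⁻¹ * k.1, by rw [mul_inv_cancel_left]; exact k.2⟩, fun k => ⟨g * k.1, k.2⟩, ?_, ?_⟩
  · intro k; simp
  · intro k; simp

theorem exists_translate_avoid [Finite Ω] (ht : IsPretransitive G Ω) {Γ : Set Ω} (h2 : Γ ≠ Set.univ) (a : Ω) :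
    ∃ g : G, a ∉ g • Γ := by
  obtain ⟨b, hb⟩ := (Set.ne_univ_iff_exists_notMem Γ).1 h2
  obtain ⟨g, hg⟩ := ht.exists_smul_eq b a
  refine ⟨g, ?_⟩
  rw [← hg, Set.smul_mem_smul_set_iff]
  exact hb

/-- point stabilizers are primitive when the Jordan set is at most half of the points -/
theorem stab_primitive [Finite G] [Finite Ω] (hp : IsPreprimitive G Ω) {Γ : Set Ω} (h1 : 1 < Γ.ncard)
    (h2 : 2 * Γ.ncard ≤ Nat.card Ω) (hJ : JSet G Γ) (a : Ω) :
    IsPreprimitive (stabilizer G a) (SubMulAction.ofStabilizer G a) := by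
  classical
  haveI : Fintype G := Fintype.ofFinite G
  haveI : Fintype Ω := Fintype.ofFinite Ω
  have h2t : IsMultiplyPretransitive G Ω 2 := two_trans_of_jset hp h1 (by omega) hJ
  haveI := hp.toIsPretransitive
  set X := SubMulAction.ofStabilizer G a with hX
  have ht : IsPretransitive (stabilizer G a) X := by
    rw [← is_one_pretransitive_iff]
    exact (SubMulAction.ofStabilizer.isMultiplyPretransitive (n := 1)).1 h2t
  refine { toIsPretransitive := ht, isTrivialBlock_of_isBlock := ?_ }
  intro B hB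
  rw [IsTrivialBlock]
  by_contra hcon
  rw [not_or, Set.not_subsingleton_iff] at hcon
  obtain ⟨hBnt, hBu⟩ := hcon
  have hBne : B.Nonempty := hBnt.nonempty
  have hcardX : Nat.card X + 1 = Nat.card Ω := card_ofStabilizer a
  -- size of the block
  have hbd : B.ncard ∣ Nat.card X := hB.ncard_dvd_card hBne
  have hb1 : 1 < B.ncard := (Set.one_lt_ncard (Set.toFinite _)).2 hBnt
  have hbX : B.ncard < Nat.card X := by
    rw [← Set.ncard_univ]
    exact Set.ncard_lt_ncard (Set.ssubset_univ_iff.2 hBu) (Set.toFinite _)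
  have hb2 : 2 * B.ncard ≤ Nat.card X := by
    obtain ⟨c, hc⟩ := hbd
    rcases c with _ | _ | c
    · omega
    · omega
    · rw [hc]; nlinarith
  -- dichotomy for translates avoiding a, and blocks
  have hdich : ∀ g : G, a ∉ g • Γ → ∀ k : stabilizer G a, ∀ x : X, x ∈ k • B → (x : Ω) ∈ g • Γ →
      ({y : X | (y : Ω) ∈ g • Γ} ⊆ k • B ∨ k • B ⊆ {y : X | (y : Ω) ∈ g • Γ}) := by
    intro g hg k x hxB hx
    exact jordan_block_dichotomy (JSet.ofStabilizer (hJ.translate g) hg) (hB.translate k) ⟨x, hxB, hx⟩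
  -- the counting functions
  let N1 : Ω → ℕ := fun x => (Finset.univ.filter (fun g : G => x ∈ g • Γ)).card
  let N2 : Ω → Ω → ℕ := fun x y => (Finset.univ.filter (fun g : G => x ∈ g • Γ ∧ y ∈ g • Γ)).card
  have hN2inv : ∀ (k : G) x y, N2 (k • x) (k • y) = N2 x y := by
    intro k x y
    apply Finset.card_bij (fun g _ => k⁻¹ * g)
    · intro g hg
      simp only [Finset.mem_filter, Finset.mem_univ, true_and] at hg ⊢
      rw [mul_smul, Set.mem_smul_set_iff_inv_smul_mem, Set.mem_smul_set_iff_inv_smul_mem (a := k⁻¹), inv_inv]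
      exact hg
    · intro g1 _ g2 _ h
      exact mul_left_cancel h
    · intro g hg
      simp only [Finset.mem_filter, Finset.mem_univ, true_and] at hg
      refine ⟨k * g, ?_, by simp⟩
      simp only [Finset.mem_filter, Finset.mem_univ, true_and]
      rw [mul_smul, Set.smul_mem_smul_set_iff, Set.smul_mem_smul_set_iff]
      exact hg
  have hN2eq : ∀ x y x' y', x ≠ y → x' ≠ y' → N2 x y = N2 x' y' := by
    intro x y x' y' hxy hxy'
    obtain ⟨k, hk1, hk2⟩ := (is_two_pretransitive_iff (G := G) (α := Ω)).1 h2t hxy hxy'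
    rw [← hk1, ← hk2, hN2inv]
  -- double counting
  have hdc : ∀ x : Ω, N1 x * (Γ.ncard - 1) = ∑ y ∈ Finset.univ.erase x, N2 x y := by
    intro x
    have e1 : ∀ y, N2 x y = ∑ g ∈ Finset.univ.filter (fun g : G => x ∈ g • Γ), if y ∈ g • Γ then 1 else 0 := by
      intro y
      rw [← Finset.sum_filter, Finset.sum_const, smul_eq_mul, mul_one, Finset.filter_filter]
    rw [Finset.sum_congr rfl (fun y _ => e1 y), Finset.sum_comm]
    have e2 : ∀ g ∈ Finset.univ.filter (fun g : G => x ∈ g • Γ),
        (∑ y ∈ Finset.univ.erase x, if y ∈ g • Γ then 1 else 0) = Γ.ncard - 1 := by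
      intro g hg
      simp only [Finset.mem_filter, Finset.mem_univ, true_and] at hg
      rw [← Finset.sum_filter, Finset.sum_const, smul_eq_mul, mul_one]
      have e3 : (Finset.univ.erase x).filter (fun y => y ∈ g • Γ) =
          (Finset.univ.filter (fun y => y ∈ g • Γ)).erase x := by
        ext y
        simp only [Finset.mem_filter, Finset.mem_erase, Finset.mem_univ, true_and, and_true]
      have e4 : (Finset.univ.filter (fun y => y ∈ g • Γ)).card = Γ.ncard := by
        rw [← Set.ncard_smul_set g Γ, ← Set.ncard_coe_finset]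
        congr 1
        ext y
        simp
      rw [e3, Finset.card_erase_of_mem (by simp only [Finset.mem_filter, Finset.mem_univ, true_and]; exact hg), e4]
    rw [Finset.sum_congr rfl e2, Finset.sum_const, smul_eq_mul]
  obtain ⟨x0, hx0, y0, hy0, hxy0⟩ := hBnt
  have hx0a : (x0 : Ω) ≠ a := (SubMulAction.mem_ofStabilizer_iff G a).1 x0.2
  have hy0a : (y0 : Ω) ≠ a := (SubMulAction.mem_ofStabilizer_iff G a).1 y0.2
  have hxy0' : (x0 : Ω) ≠ y0 := fun h => hxy0 (Subtype.ext h)
  set L := N2 x0 y0 with hL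
  have hLeq : ∀ x y, x ≠ y → N2 x y = L := fun x y hxy => hN2eq _ _ _ _ hxy hxy0'
  have hdc0 : N1 x0 * (Γ.ncard - 1) = (Nat.card Ω - 1) * L := by
    rw [hdc, Finset.sum_congr rfl (fun y hy => hLeq _ _ (Finset.ne_of_mem_erase hy).symm), Finset.sum_const,
      Finset.card_erase_of_mem (Finset.mem_univ _), Finset.card_univ, smul_eq_mul, Nat.card_eq_fintype_card]
  have hLpos : 0 < L := by
    obtain ⟨u, hu, v, hv, huv⟩ := (Set.one_lt_ncard (Set.toFinite _)).1 h1
    rw [← hLeq u v huv]
    apply Finset.card_pos.2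
    refine ⟨1, ?_⟩
    simp only [Finset.mem_filter, Finset.mem_univ, true_and, one_smul]
    exact ⟨hu, hv⟩
  -- number of translates containing x0 and avoiding a
  have hav : ∀ x : Ω, x ≠ a → (Finset.univ.filter (fun g : G => x ∈ g • Γ ∧ a ∉ g • Γ)).card + L = N1 x := by
    intro x hx
    rw [← hLeq x a hx]
    have := Finset.card_filter_add_card_filter_not (s := Finset.univ.filter (fun g : G => x ∈ g • Γ)) (fun g : G => a ∉ g • Γ)
    rw [Finset.filter_filter, Finset.filter_filter] at this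
    simp only [not_not] at this
    exact this
  by_cases hmb : B.ncard < Γ.ncard
  · -- case m > b: translates avoiding a and containing x0 contain y0
    have hsub : (Finset.univ.filter (fun g : G => (x0 : Ω) ∈ g • Γ ∧ a ∉ g • Γ)) ⊆
        (Finset.univ.filter (fun g : G => (x0 : Ω) ∈ g • Γ ∧ (y0 : Ω) ∈ g • Γ)) := by
      intro g hg
      simp only [Finset.mem_filter, Finset.mem_univ, true_and] at hg ⊢
      refine ⟨hg.1, ?_⟩
      rcases hdich g hg.2 1 x0 (by rw [one_smul]; exact hx0) hg.1 with h | h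
      · exfalso
        rw [one_smul] at h
        have := Set.ncard_le_ncard h (Set.toFinite _)
        rw [ncard_preimage_ofStabilizer hg.2, Set.ncard_smul_set] at this
        omega
      · rw [one_smul] at h
        exact h hy0
    have hle := Finset.card_le_card hsub
    have h3 := hav x0 hx0a
    have h4 : N1 x0 ≤ 2 * L := by
      have h5 : (Finset.univ.filter (fun g : G => (x0 : Ω) ∈ g • Γ ∧ (y0 : Ω) ∈ g • Γ)).card = L := rfl
      omega
    have h6 : (Nat.card Ω - 1) * L ≤ 2 * L * (Γ.ncard - 1) := by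
      rw [← hdc0]; exact Nat.mul_le_mul_right _ h4
    have h7 : (Nat.card Ω - 1) * L ≤ (2 * (Γ.ncard - 1)) * L := by
      calc (Nat.card Ω - 1) * L ≤ 2 * L * (Γ.ncard - 1) := h6
        _ = (2 * (Γ.ncard - 1)) * L := by ring
    have h8 := Nat.le_of_mul_le_mul_right h7 hLpos
    omega
  · -- case m ≤ b: translates avoiding a lie in blocks
    push Not at hmb
    have hcont : ∀ g : G, a ∉ g • Γ → (x0 : Ω) ∈ g • Γ → ∀ y : X, (y : Ω) ∈ g • Γ → y ∈ B := by
      intro g hg hx y hy
      rcases hdich g hg 1 x0 (by rw [one_smul]; exact hx0) hx with h | h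
      · rw [one_smul] at h
        exact h hy
      · rw [one_smul] at h
        have h3 : B = {y : X | (y : Ω) ∈ g • Γ} := by
          apply Set.eq_of_subset_of_ncard_le h _ (Set.toFinite _)
          rw [ncard_preimage_ofStabilizer hg, Set.ncard_smul_set]
          exact hmb
        rw [h3]; exact hy
    -- all translates containing a and x0 contain every point outside B
    have hall : ∀ z : X, z ∉ B → ∀ g : G, a ∈ g • Γ → (x0 : Ω) ∈ g • Γ → (z : Ω) ∈ g • Γ := by
      intro z hz
      have hza : (z : Ω) ≠ a := (SubMulAction.mem_ofStabilizer_iff G a).1 z.2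
      have hzx : (x0 : Ω) ≠ z := fun h => hz (by
        have : z = x0 := Subtype.ext h.symm
        rw [this]; exact hx0)
      have hsub : (Finset.univ.filter (fun g : G => (x0 : Ω) ∈ g • Γ ∧ (z : Ω) ∈ g • Γ)) ⊆
          (Finset.univ.filter (fun g : G => (x0 : Ω) ∈ g • Γ ∧ a ∈ g • Γ)) := by
        intro g hg
        simp only [Finset.mem_filter, Finset.mem_univ, true_and] at hg ⊢
        refine ⟨hg.1, ?_⟩
        by_contra hag
        exact hz (hcont g hag hg.1 z hg.2)
      have heq := Finset.eq_of_subset_of_card_le hsub (by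
        have e1 : (Finset.univ.filter (fun g : G => (x0 : Ω) ∈ g • Γ ∧ (z : Ω) ∈ g • Γ)).card = N2 x0 z := rfl
        have e2 : (Finset.univ.filter (fun g : G => (x0 : Ω) ∈ g • Γ ∧ a ∈ g • Γ)).card = N2 x0 a := rfl
        rw [e1, e2, hLeq _ _ hzx, hLeq _ _ hx0a])
      intro g hga hgx
      have : g ∈ (Finset.univ.filter (fun g : G => (x0 : Ω) ∈ g • Γ ∧ a ∈ g • Γ)) := by
        simp only [Finset.mem_filter, Finset.mem_univ, true_and]; exact ⟨hgx, hga⟩
      rw [← heq] at this
      simp only [Finset.mem_filter, Finset.mem_univ, true_and] at this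
      exact this.2
    obtain ⟨g, hg⟩ : ∃ g : G, (x0 : Ω) ∈ g • Γ ∧ a ∈ g • Γ := by
      have h3 : 0 < N2 x0 a := by rw [hLeq _ _ hx0a]; exact hLpos
      obtain ⟨g, hg⟩ := Finset.card_pos.1 h3
      simp only [Finset.mem_filter, Finset.mem_univ, true_and] at hg
      exact ⟨g, hg⟩
    have hsub2 : Subtype.val '' (Bᶜ : Set X) ∪ {a, (x0 : Ω)} ⊆ g • Γ := by
      rintro w (⟨z, hz, rfl⟩ | hw)
      · exact hall z hz g hg.2 hg.1
      · rcases hw with rfl | hw
        · exact hg.2
        · rw [Set.mem_singleton_iff] at hw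
          rw [hw]; exact hg.1
    have hcard := Set.ncard_le_ncard hsub2 (Set.toFinite _)
    rw [Set.ncard_smul_set, Set.ncard_union_eq ?_ (Set.toFinite _) (Set.toFinite _),
      Set.ncard_image_of_injective _ Subtype.val_injective, Set.ncard_pair hx0a.symm] at hcard
    · have h5 := Set.ncard_add_ncard_compl B (Set.toFinite _) (Set.toFinite _)
      omega
    · rw [Set.disjoint_left]
      rintro w ⟨z, hz, rfl⟩ (hw | hw)
      · exact (SubMulAction.mem_ofStabilizer_iff G a).1 z.2 hw
      · rw [Set.mem_singleton_iff] at hw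
        apply hz
        have : z = x0 := Subtype.ext hw
        rw [this]; exact hx0

/-- Marggraf: 3-transitivity -/
theorem three_trans_of_jset [Finite G] [Finite Ω] (hp : IsPreprimitive G Ω) {Γ : Set Ω} (h1 : 1 < Γ.ncard)
    (h2 : 2 * Γ.ncard ≤ Nat.card Ω) (hJ : JSet G Γ) : IsMultiplyPretransitive G Ω 3 := by
  haveI := hp.toIsPretransitive
  have hne : Γ ≠ Set.univ := by
    rintro rfl
    rw [Set.ncard_univ] at h1 h2
    omega
  obtain ⟨x, hx⟩ : Γ.Nonempty := (Set.ncard_pos (Set.toFinite _)).1 (by omega)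
  obtain ⟨g, hg⟩ := exists_translate_avoid hp.toIsPretransitive hne x
  have hprim := stab_primitive hp h1 h2 hJ x
  have h3 := JSet.ofStabilizer (hJ.translate g) hg
  have h4 := two_trans_of_jset hprim (Γ := {y : SubMulAction.ofStabilizer G x | (y : Ω) ∈ g • Γ})
    (by rw [ncard_preimage_ofStabilizer hg, Set.ncard_smul_set]; exact h1)
    (by
      rw [ncard_preimage_ofStabilizer hg, Set.ncard_smul_set]
      have := card_ofStabilizer (G := G) x
      omega) h3
  exact (SubMulAction.ofStabilizer.isMultiplyPretransitive (n := 2)).2 h4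

end

end Cfsg.Agent.H22
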