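import Cfsg.Agent.H22.Marggraf

set_option autoImplicit false
set_option linter.all false

/-!
# Marggraf's theorem: primitive groups with a small Jordan set contain the alternating group (seat helper22)
-/

namespace Cfsg.Agent.H22

open MulAction
open scoped Pointwise


/-- numerical contradiction in the critical case -/
theorem marggraf_numeric (m k : ℕ) (hk2 : 2 ≤ k) (hkm : k ≤ m + 1) (c t : ℕ → ℤ)
    (hc : ∀ a : ℕ, a + 1 ≤ k → ((m : ℤ) + 2 - k + a) * c (a + 1) = ((m : ℤ) - a) * c a)
    (ht : ∀ a : ℕ, a ≤ k → t (a + 1) + t a = c a) (ht1 : t 1 = 0) (htpos : ∀ a : ℕ, a ≤ k + 1 → 0 ≤ t a)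
    (hc0 : 0 < c 0) (hcnn : ∀ a : ℕ, a ≤ k → 0 ≤ c a) : False := by
  have H1 : ∀ a : ℕ, a ≤ k → (2 * (m : ℤ) + 1 - k) * t (a + 1) = ((m : ℤ) - a) * c a - (-1) ^ a * m * c 0 := by
    intro a
    induction a with
    | zero => intro _; rw [ht1]; simp
    | succ a ih =>
      intro ha
      have h1 := ih (by omega)
      have h2 := ht (a + 1) ha
      have h3 := hc a ha
      push_cast
      rw [pow_succ]
      linear_combination (2 * (m : ℤ) + 1 - k) * h2 - h1 + h3
  have H2 : ∀ j : ℕ, j ≤ k → c j * ∏ i ∈ Finset.range j, ((m : ℤ) + 2 - k + i) = c 0 * ∏ i ∈ Finset.range j, ((m : ℤ) - i) := by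
    intro j
    induction j with
    | zero => intro _; simp
    | succ j ih =>
      intro hj
      rw [Finset.prod_range_succ, Finset.prod_range_succ]
      have h1 := ih (by omega)
      have h2 := hc j hj
      linear_combination (∏ i ∈ Finset.range j, ((m : ℤ) + 2 - k + i)) * h2 + ((m : ℤ) - j) * h1
  have H3 : c (k - 1) = c 0 := by
    have h1 := H2 (k - 1) (by omega)
    have h2 : ∏ i ∈ Finset.range (k - 1), ((m : ℤ) + 2 - k + i) = ∏ i ∈ Finset.range (k - 1), ((m : ℤ) - i) := by
      rw [← Finset.prod_range_reflect]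
      apply Finset.prod_congr rfl
      intro i hi
      rw [Finset.mem_range] at hi
      have : ((k - 1 - 1 - i : ℕ) : ℤ) = (k : ℤ) - 2 - i := by omega
      rw [this]; ring
    rw [h2] at h1
    have h3 : ∏ i ∈ Finset.range (k - 1), ((m : ℤ) - i) ≠ 0 := by
      apply Finset.prod_ne_zero_iff.2
      intro i hi
      rw [Finset.mem_range] at hi
      have : (i : ℤ) < m := by omega
      intro h
      linarith
    exact mul_right_cancel₀ h3 h1
  rcases Nat.even_or_odd k with hk | hk
  · -- k even, a = k + 1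
    have h1 := H1 k le_rfl
    rw [hk.neg_one_pow] at h1
    have h2 := htpos (k + 1) le_rfl
    have h3 := hc (k - 1) (by omega)
    have h4 : k - 1 + 1 = k := by omega
    rw [h4, H3] at h3
    have h5 : ((k - 1 : ℕ) : ℤ) = (k : ℤ) - 1 := by omega
    rw [h5] at h3
    have h6 : 0 ≤ (2 * (m : ℤ) + 1 - k) * t (k + 1) := mul_nonneg (by omega) h2
    have h7 : c k ≤ c 0 := by
      have h8 := hcnn k le_rfl
      have h9 : ((m : ℤ) + 1) * c k ≤ (m + 1) * c 0 := by
        have e : (m : ℤ) + 2 - k + (k - 1) = m + 1 := by ring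
        rw [e] at h3
        rw [h3]
        apply mul_le_mul_of_nonneg_right _ hc0.le
        have : (2 : ℤ) ≤ k := by exact_mod_cast hk2
        linarith
      have h10 : (0 : ℤ) < (m : ℤ) + 1 := by positivity
      exact le_of_mul_le_mul_left h9 h10
    have h8 := hcnn k le_rfl
    have h11 : ((m : ℤ) - k) * c k ≤ (m - 2) * c 0 ∨ (m : ℤ) - k < 0 := by
      by_cases hmk : (m : ℤ) - k < 0
      · right; exact hmk
      · left
        push Not at hmk
        have : (2 : ℤ) ≤ k := by exact_mod_cast hk2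
        nlinarith
    rw [h1] at h6
    rcases h11 with h11 | h11
    · nlinarith
    · have hm : (0 : ℤ) < m := by
        have : 1 ≤ m := by omega
        exact_mod_cast this
      nlinarith
  · -- k odd, a = k
    have hk1 : k - 1 + 1 = k := by omega
    have h1 := H1 (k - 1) (by omega)
    have hev : Even (k - 1) := by
      obtain ⟨r, hr⟩ := hk
      exact ⟨r, by omega⟩
    rw [hev.neg_one_pow, hk1, H3] at h1
    have h2 := htpos k (by omega)
    have h5 : ((k - 1 : ℕ) : ℤ) = (k : ℤ) - 1 := by omega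
    rw [h5] at h1
    have h6 : 0 ≤ (2 * (m : ℤ) + 1 - k) * t k := mul_nonneg (by omega) h2
    rw [h1] at h6
    have : (2 : ℤ) ≤ k := by exact_mod_cast hk2
    nlinarith

section
variable {G Ω : Type*} [Group G] [MulAction G Ω]

/-- high transitivity on pairs of disjoint finsets -/
theorem exists_smul_finset [Finite Ω] [DecidableEq Ω] {k : ℕ} (h : IsMultiplyPretransitive G Ω k) (hk : k ≤ Nat.card Ω)
    (I J I' J' : Finset Ω) (hd : Disjoint I J) (hd' : Disjoint I' J') (hI : I'.card = I.card)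
    (hJ : J'.card = J.card) (hIJ : I.card + J.card ≤ k) :
    ∃ g : G, (∀ x, g • x ∈ I' ↔ x ∈ I) ∧ (∀ x, g • x ∈ J' ↔ x ∈ J) := by
  classical
  set a := I.card with ha
  set b := J.card with hb
  haveI : IsMultiplyPretransitive G Ω k := h
  have hab : IsMultiplyPretransitive G Ω (a + b) := isMultiplyPretransitive_of_le hIJ hk
  let mk : ∀ (A B : Finset Ω) (hA : A.card = a) (hB : B.card = b) (hAB : Disjoint A B), Fin a ⊕ Fin b ↪ Ω :=
    fun A B hA hB hAB =>
      ⟨Sum.elim (fun i => ((A.equivFinOfCardEq hA).symm i : Ω)) (fun i => ((B.equivFinOfCardEq hB).symm i : Ω)), by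
        rintro (i | i) (j | j) hij
        · have : (A.equivFinOfCardEq hA).symm i = (A.equivFinOfCardEq hA).symm j := Subtype.ext hij
          rw [(A.equivFinOfCardEq hA).symm.injective this]
        · exfalso
          have h1 : ((A.equivFinOfCardEq hA).symm i : Ω) = ((B.equivFinOfCardEq hB).symm j : Ω) := hij
          exact Finset.disjoint_left.1 hAB ((A.equivFinOfCardEq hA).symm i).2 (by rw [h1]; exact Subtype.property _)
        · exfalso
          have h1 : ((B.equivFinOfCardEq hB).symm i : Ω) = ((A.equivFinOfCardEq hA).symm j : Ω) := hij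
          exact Finset.disjoint_left.1 hAB ((A.equivFinOfCardEq hA).symm j).2 (by rw [← h1]; exact Subtype.property _)
        · have : (B.equivFinOfCardEq hB).symm i = (B.equivFinOfCardEq hB).symm j := Subtype.ext hij
          rw [(B.equivFinOfCardEq hB).symm.injective this]⟩
  let F := mk I J rfl rfl hd
  let F' := mk I' J' hI hJ hd'
  obtain ⟨g, hg⟩ := hab.exists_smul_eq (finSumFinEquiv.symm.toEmbedding.trans F) (finSumFinEquiv.symm.toEmbedding.trans F')
  have hgF : ∀ s, g • F s = F' s := by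
    intro s
    have := congrArg (fun e : Fin (a + b) ↪ Ω => e (finSumFinEquiv s)) hg
    simpa using this
  have h1 : ∀ x ∈ I, g • x ∈ I' := by
    intro x hx
    have e1 : F (Sum.inl (I.equivFinOfCardEq rfl ⟨x, hx⟩)) = x := by
      show ((I.equivFinOfCardEq rfl).symm (I.equivFinOfCardEq rfl ⟨x, hx⟩) : Ω) = x
      rw [Equiv.symm_apply_apply]
    rw [← e1, hgF]
    exact ((I'.equivFinOfCardEq hI).symm _).2
  have h2 : ∀ x ∈ J, g • x ∈ J' := by
    intro x hx
    have e1 : F (Sum.inr (J.equivFinOfCardEq rfl ⟨x, hx⟩)) = x := by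
      show ((J.equivFinOfCardEq rfl).symm (J.equivFinOfCardEq rfl ⟨x, hx⟩) : Ω) = x
      rw [Equiv.symm_apply_apply]
    rw [← e1, hgF]
    exact ((J'.equivFinOfCardEq hJ).symm _).2
  have fin : ∀ (A A' : Finset Ω), A'.card = A.card → (∀ x ∈ A, g • x ∈ A') → ∀ x, g • x ∈ A' ↔ x ∈ A := by
    intro A A' hc hA x
    refine ⟨fun hx => ?_, hA x⟩
    have e1 : A.image (fun x => g • x) = A' := by
      apply Finset.eq_of_subset_of_card_le
      · intro y hy
        obtain ⟨z, hz, rfl⟩ := Finset.mem_image.1 hy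
        exact hA z hz
      · rw [hc, Finset.card_image_of_injective _ (MulAction.injective g)]
    rw [← e1] at hx
    obtain ⟨z, hz, hzx⟩ := Finset.mem_image.1 hx
    rwa [← MulAction.injective g hzx]
  exact ⟨g, fin I I' hI h1, fin J J' hJ h2⟩

/-- number of translates containing `I` and avoiding `J` -/
noncomputable def Nc (G : Type*) {Ω : Type*} [Group G] [MulAction G Ω] (Γ : Set Ω) (I J : Finset Ω) : ℕ :=
  Nat.card {g : G // (∀ x ∈ I, x ∈ g • Γ) ∧ (∀ x ∈ J, x ∉ g • Γ)}

theorem Nc_smul (Γ : Set Ω) (I J I' J' : Finset Ω) (k : G) (hI : ∀ x, k • x ∈ I' ↔ x ∈ I)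
    (hJ : ∀ x, k • x ∈ J' ↔ x ∈ J) : Nc G Γ I J = Nc G Γ I' J' := by
  apply Nat.card_congr
  refine ⟨fun g => ⟨k * g.1, ?_, ?_⟩, fun g => ⟨k⁻¹ * g.1, ?_, ?_⟩, ?_, ?_⟩
  · intro x hx
    rw [mul_smul, Set.mem_smul_set_iff_inv_smul_mem]
    apply g.2.1
    rw [← hI, smul_inv_smul]; exact hx
  · intro x hx
    rw [mul_smul, Set.mem_smul_set_iff_inv_smul_mem]
    apply g.2.2
    rw [← hJ, smul_inv_smul]; exact hx
  · intro x hx
    rw [mul_smul, Set.mem_smul_set_iff_inv_smul_mem, inv_inv]
    apply g.2.1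
    rw [hI]; exact hx
  · intro x hx
    rw [mul_smul, Set.mem_smul_set_iff_inv_smul_mem, inv_inv]
    apply g.2.2
    rw [hJ]; exact hx
  · intro g; simp
  · intro g; simp

theorem Nc_split [Finite G] [DecidableEq Ω] (Γ : Set Ω) (I J : Finset Ω) (x : Ω) :
    Nc G Γ I J = Nc G Γ (insert x I) J + Nc G Γ I (insert x J) := by
  classical
  haveI : Fintype G := Fintype.ofFinite G
  unfold Nc
  simp only [Nat.card_eq_fintype_card, Fintype.card_subtype]
  rw [← Finset.card_filter_add_card_filter_not (s := Finset.univ.filter (fun g : G => (∀ x ∈ I, x ∈ g • Γ) ∧ (∀ x ∈ J, x ∉ g • Γ)))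
    (fun g : G => x ∈ g • Γ), Finset.filter_filter, Finset.filter_filter]
  congr 1
  · congr 1
    ext g
    simp only [Finset.mem_filter, Finset.mem_univ, true_and, Finset.mem_insert, forall_eq_or_imp]
    tauto
  · congr 1
    ext g
    simp only [Finset.mem_filter, Finset.mem_univ, true_and, Finset.mem_insert, forall_eq_or_imp]
    tauto

/-- double counting -/
theorem Nc_sum [Finite G] [Finite Ω] [Fintype Ω] [DecidableEq Ω] (Γ : Set Ω) (I J : Finset Ω) (hd : Disjoint I J) :
    ∑ x ∈ Finset.univ \ (I ∪ J), Nc G Γ (insert x I) J = (Γ.ncard - I.card) * Nc G Γ I J := by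
  classical
  haveI : Fintype G := Fintype.ofFinite G
  unfold Nc
  simp only [Nat.card_eq_fintype_card, Fintype.card_subtype]
  have e1 : ∀ x, (Finset.univ.filter (fun g : G => (∀ y ∈ insert x I, y ∈ g • Γ) ∧ (∀ y ∈ J, y ∉ g • Γ))).card =
      ∑ g ∈ Finset.univ.filter (fun g : G => (∀ x ∈ I, x ∈ g • Γ) ∧ (∀ x ∈ J, x ∉ g • Γ)), if x ∈ g • Γ then 1 else 0 := by
    intro x
    rw [← Finset.sum_filter, Finset.sum_const, smul_eq_mul, mul_one, Finset.filter_filter]
    congr 1
    ext g
    simp only [Finset.mem_filter, Finset.mem_univ, true_and, Finset.mem_insert, forall_eq_or_imp]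
    tauto
  rw [Finset.sum_congr rfl (fun x _ => e1 x), Finset.sum_comm]
  have e2 : ∀ g ∈ Finset.univ.filter (fun g : G => (∀ x ∈ I, x ∈ g • Γ) ∧ (∀ x ∈ J, x ∉ g • Γ)),
      (∑ x ∈ Finset.univ \ (I ∪ J), if x ∈ g • Γ then 1 else 0) = Γ.ncard - I.card := by
    intro g hg
    simp only [Finset.mem_filter, Finset.mem_univ, true_and] at hg
    rw [← Finset.sum_filter, Finset.sum_const, smul_eq_mul, mul_one]
    have e3 : (Finset.univ \ (I ∪ J)).filter (fun x => x ∈ g • Γ) = (Finset.univ.filter (fun x => x ∈ g • Γ)) \ I := by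
      ext x
      simp only [Finset.mem_filter, Finset.mem_sdiff, Finset.mem_univ, true_and, Finset.mem_union, not_or]
      constructor
      · rintro ⟨⟨h1, h2⟩, h3⟩; exact ⟨h3, h1⟩
      · rintro ⟨h1, h2⟩
        exact ⟨⟨h2, fun h => hg.2 x h h1⟩, h1⟩
    have e4 : (Finset.univ.filter (fun y => y ∈ g • Γ)).card = Γ.ncard := by
      rw [← Set.ncard_smul_set g Γ, ← Set.ncard_coe_finset]
      congr 1
      ext y
      simp
    rw [e3, Finset.card_sdiff_of_subset, e4]
    intro x hx
    simp only [Finset.mem_filter, Finset.mem_univ, true_and]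
    exact hg.1 x hx
  rw [Finset.sum_congr rfl e2, Finset.sum_const, smul_eq_mul, mul_comm]

/-- criterion for going from `k`-transitivity to `(k+1)`-transitivity -/
theorem succ_trans [Finite Ω] [DecidableEq Ω] {k : ℕ} (h : IsMultiplyPretransitive G Ω k)
    (hK : ∀ K : Finset Ω, K.card = k → ∀ x y : Ω, x ∉ K → y ∉ K → ∃ g : G, (∀ z ∈ K, g • z = z) ∧ g • x = y) :
    IsMultiplyPretransitive G Ω (k + 1) := by
  constructor
  intro x y
  let x' : Fin k ↪ Ω := (Fin.castSuccEmb).trans x
  let y' : Fin k ↪ Ω := (Fin.castSuccEmb).trans y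
  obtain ⟨g, hg⟩ := h.exists_smul_eq x' y'
  have hg' : ∀ i : Fin k, g • x i.castSucc = y i.castSucc := fun i => by
    have := congrArg (fun e : Fin k ↪ Ω => e i) hg
    exact this
  let K : Finset Ω := Finset.univ.map y'
  have hKc : K.card = k := by rw [Finset.card_map, Finset.card_univ, Fintype.card_fin]
  have hmem : ∀ w, w ∈ K ↔ ∃ i : Fin k, y i.castSucc = w := by
    intro w
    simp only [K, Finset.mem_map, Finset.mem_univ, true_and]
    rfl
  have h1 : g • x (Fin.last k) ∉ K := by
    rw [hmem]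
    rintro ⟨i, hi⟩
    rw [← hg'] at hi
    have := x.injective (MulAction.injective g hi)
    exact (Fin.castSucc_lt_last i).ne this
  have h2 : y (Fin.last k) ∉ K := by
    rw [hmem]
    rintro ⟨i, hi⟩
    exact (Fin.castSucc_lt_last i).ne (y.injective hi)
  obtain ⟨u, hu, hux⟩ := hK K hKc _ _ h1 h2
  refine ⟨u * g, ?_⟩
  ext i
  show (u * g) • x i = y i
  induction i using Fin.lastCases with
  | last => rw [mul_smul, hux]
  | cast i => rw [mul_smul, hg', hu _ ((hmem _).2 ⟨i, rfl⟩)]

/-- the critical step in Marggraf's theorem: degree `2m+1` -/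
theorem crit_step [Finite G] [Finite Ω] {Γ : Set Ω} (hJ : JSet G Γ) {m k : ℕ} (hm : Γ.ncard = m)
    (hn : Nat.card Ω = 2 * m + 1) (hk2 : 2 ≤ k) (hkm : k ≤ m) (hk : IsMultiplyPretransitive G Ω k) :
    IsMultiplyPretransitive G Ω (k + 1) := by
  classical
  haveI : Fintype Ω := Fintype.ofFinite Ω
  haveI : Fintype G := Fintype.ofFinite G
  have hn' : Fintype.card Ω = 2 * m + 1 := by rw [← Nat.card_eq_fintype_card]; exact hn
  apply succ_trans hk
  by_contra hcon
  push Not at hcon
  obtain ⟨K, hKc, x, y, hxK, hyK, hno⟩ := hcon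
  -- a point not in any translate avoiding K
  obtain ⟨w, hwK, hw⟩ : ∃ w, w ∉ K ∧ ∀ g : G, w ∈ g • Γ → ¬ ∀ z ∈ K, z ∉ g • Γ := by
    by_contra hcon2
    push Not at hcon2
    obtain ⟨g1, hg1, hg1K⟩ := hcon2 x hxK
    obtain ⟨g2, hg2, hg2K⟩ := hcon2 y hyK
    -- the two translates intersect
    obtain ⟨z, hz1, hz2⟩ : ((g1 • Γ) ∩ (g2 • Γ)).Nonempty := by
      by_contra hemp
      rw [Set.not_nonempty_iff_eq_empty, ← Set.disjoint_iff_inter_eq_empty] at hemp
      have h1 : ((g1 • Γ) ∪ (g2 • Γ) ∪ (K : Set Ω)).ncard ≤ 2 * m + 1 := by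
        rw [← hn, ← Set.ncard_univ]
        exact Set.ncard_le_ncard (Set.subset_univ _) (Set.toFinite _)
      rw [Set.ncard_union_eq _ (Set.toFinite _) (Set.toFinite _), Set.ncard_union_eq hemp (Set.toFinite _) (Set.toFinite _),
        Set.ncard_smul_set, Set.ncard_smul_set, Set.ncard_coe_finset, hKc, hm] at h1
      · omega
      · rw [Set.disjoint_union_left]
        constructor
        · rw [Set.disjoint_left]
          intro a ha haK
          exact hg1K a haK ha
        · rw [Set.disjoint_left]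
          intro a ha haK
          exact hg2K a haK ha
    obtain ⟨u, hu, hux⟩ := (hJ.translate g1) x hg1 z hz1
    obtain ⟨v, hv, hvz⟩ := (hJ.translate g2) z hz2 y hg2
    apply hno (v * u)
    · intro a ha
      rw [mul_smul, hu a (hg1K a ha), hv a (hg2K a ha)]
    · rw [mul_smul, hux, hvz]
  -- constancy of the counts
  have hcst : ∀ I J I' J' : Finset Ω, Disjoint I J → Disjoint I' J' → I'.card = I.card → J'.card = J.card →
      I.card + J.card ≤ k → Nc G Γ I J = Nc G Γ I' J' := by
    intro I J I' J' hd hd' hI hJ' hIJ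
    obtain ⟨g, hg1, hg2⟩ := exists_smul_finset hk (by omega) I J I' J' hd hd' hI hJ' hIJ
    exact Nc_smul Γ I J I' J' g hg1 hg2
  -- the numbers c
  let c : ℕ → ℤ := fun a => if h : ∃ p : Finset Ω × Finset Ω, Disjoint p.1 p.2 ∧ p.1.card = a ∧ p.2.card = k - a then
    (Nc G Γ h.choose.1 h.choose.2 : ℤ) else 0
  have hc : ∀ I J : Finset Ω, Disjoint I J → I.card + J.card = k → (Nc G Γ I J : ℤ) = c I.card := by
    intro I J hd hIJ
    have hex : ∃ p : Finset Ω × Finset Ω, Disjoint p.1 p.2 ∧ p.1.card = I.card ∧ p.2.card = k - I.card :=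
      ⟨(I, J), hd, rfl, by show J.card = _; omega⟩
    simp only [c]
    rw [dif_pos hex]
    obtain ⟨h1, h2, h3⟩ := hex.choose_spec
    rw [hcst I J _ _ hd h1 h2 (by rw [h3]; omega) (by omega)]
  -- existence of disjoint sets
  have hexist : ∀ a b : ℕ, a + b ≤ 2 * m + 1 → ∃ I J : Finset Ω, Disjoint I J ∧ I.card = a ∧ J.card = b := by
    intro a b hab
    obtain ⟨U, -, hU⟩ := Finset.exists_subset_card_eq (s := (Finset.univ : Finset Ω)) (n := a + b) (by
      rw [Finset.card_univ, hn']; exact hab)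
    obtain ⟨I, hIU, hI⟩ := Finset.exists_subset_card_eq (s := U) (n := a) (by omega)
    refine ⟨I, U \ I, Finset.disjoint_sdiff, hI, ?_⟩
    rw [Finset.card_sdiff_of_subset hIU, hU, hI]; omega
  -- recurrence for c
  have hrec : ∀ a : ℕ, a + 1 ≤ k → ((m : ℤ) + 2 - k + a) * c (a + 1) = ((m : ℤ) - a) * c a := by
    intro a ha
    obtain ⟨I, J, hd, hI, hJc⟩ := hexist a (k - 1 - a) (by omega)
    have hcardU : (Finset.univ \ (I ∪ J)).card = 2 * m + 2 - k := by
      rw [Finset.card_sdiff_of_subset (Finset.subset_univ _), Finset.card_univ, hn', Finset.card_union_of_disjoint hd, hI, hJc]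
      omega
    have h1 := Nc_sum (G := G) Γ I J hd
    rw [hI, hm] at h1
    have h2 : ∀ x ∈ Finset.univ \ (I ∪ J), (Nc G Γ (insert x I) J : ℤ) = c (a + 1) := by
      intro x hx
      simp only [Finset.mem_sdiff, Finset.mem_univ, true_and, Finset.mem_union, not_or] at hx
      rw [hc (insert x I) J (by rw [Finset.disjoint_insert_left]; exact ⟨hx.2, hd⟩)
        (by rw [Finset.card_insert_of_notMem hx.1]; omega), Finset.card_insert_of_notMem hx.1, hI]
    have h3 : ((2 * m + 2 - k : ℕ) : ℤ) * c (a + 1) = ((m - a : ℕ) : ℤ) * (Nc G Γ I J : ℤ) := by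
      have h4 := congrArg (fun n : ℕ => (n : ℤ)) h1
      simp only [Nat.cast_sum, Nat.cast_mul] at h4
      rw [Finset.sum_congr rfl h2, Finset.sum_const, hcardU, nsmul_eq_mul] at h4
      exact h4
    obtain ⟨x, hx⟩ : (Finset.univ \ (I ∪ J)).Nonempty := by
      rw [← Finset.card_pos, hcardU]; omega
    have hx' := hx
    simp only [Finset.mem_sdiff, Finset.mem_univ, true_and, Finset.mem_union, not_or] at hx'
    have h5 := Nc_split (G := G) Γ I J x
    have h6 : (Nc G Γ I (insert x J) : ℤ) = c a := by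
      rw [hc I (insert x J) (by rw [Finset.disjoint_insert_right]; exact ⟨hx'.1, hd⟩)
        (by rw [Finset.card_insert_of_notMem hx'.2]; omega), hI]
    have h7 : (Nc G Γ I J : ℤ) = c (a + 1) + c a := by
      rw [h5]; push_cast; rw [h2 x hx, h6]
    rw [h7] at h3
    have e1 : ((2 * m + 2 - k : ℕ) : ℤ) = 2 * m + 2 - k := by omega
    have e2 : ((m - a : ℕ) : ℤ) = (m : ℤ) - a := by omega
    rw [e1, e2] at h3
    linear_combination h3
  -- the bad set
  set S := insert w K with hS
  have hScard : S.card = k + 1 := by rw [hS, Finset.card_insert_of_notMem hwK, hKc]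
  have hT : ∀ A : Finset Ω, A ⊆ S → ∀ x ∈ S, x ∉ A → (Nc G Γ (insert x A) (S \ insert x A) : ℤ) + Nc G Γ A (S \ A) = c A.card := by
    intro A hA x hxS hxA
    have hxSA : x ∉ S \ insert x A := by simp
    have e1 : S \ A = insert x (S \ insert x A) := by
      ext z
      simp only [Finset.mem_sdiff, Finset.mem_insert, not_or]
      constructor
      · rintro ⟨h1, h2⟩
        by_cases hz : z = x
        · exact Or.inl hz
        · exact Or.inr ⟨h1, hz, h2⟩
      · rintro (rfl | ⟨h1, -, h2⟩)
        · exact ⟨hxS, hxA⟩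
        · exact ⟨h1, h2⟩
    have hd : Disjoint A (S \ insert x A) := by
      rw [Finset.disjoint_left]
      intro z hz hz'
      simp only [Finset.mem_sdiff, Finset.mem_insert, not_or] at hz'
      exact hz'.2.2 hz
    have hcard : A.card + (S \ insert x A).card = k := by
      rw [Finset.card_sdiff_of_subset (Finset.insert_subset hxS hA), Finset.card_insert_of_notMem hxA, hScard]
      have : A.card + 1 ≤ k + 1 := by
        rw [← hScard, ← Finset.card_insert_of_notMem hxA]
        exact Finset.card_le_card (Finset.insert_subset hxS hA)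
      omega
    rw [← hc A (S \ insert x A) hd hcard, Nc_split (G := G) Γ A (S \ insert x A) x, e1]
    push_cast; ring
  -- the sequence t
  let t : ℕ → ℤ := fun a => Nat.rec (Nc G Γ ∅ S : ℤ) (fun a r => c a - r) a
  have ht0 : t 0 = (Nc G Γ ∅ S : ℤ) := rfl
  have hts : ∀ a, t (a + 1) = c a - t a := fun a => rfl
  have htA : ∀ A : Finset Ω, A ⊆ S → (Nc G Γ A (S \ A) : ℤ) = t A.card := by
    intro A
    induction A using Finset.induction_on with
    | empty => intro _; simp [ht0]
    | insert x A hxA ih =>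
      intro hA
      have h1 := ih (fun z hz => hA (Finset.mem_insert_of_mem hz))
      have h2 := hT A (fun z hz => hA (Finset.mem_insert_of_mem hz)) x (hA (Finset.mem_insert_self _ _)) hxA
      rw [Finset.card_insert_of_notMem hxA, hts]
      linarith
  apply marggraf_numeric m k hk2 (by omega) c t hrec
  · intro a _
    rw [hts]; ring
  · have h1 := htA {w} (by rw [Finset.singleton_subset_iff]; exact Finset.mem_insert_self _ _)
    rw [Finset.card_singleton] at h1
    rw [← h1]
    have h2 : S \ {w} = K := by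
      rw [hS]
      ext z
      simp only [Finset.mem_sdiff, Finset.mem_insert, Finset.mem_singleton]
      constructor
      · rintro ⟨h3 | h3, h4⟩
        · exact absurd h3 h4
        · exact h3
      · intro h3
        exact ⟨Or.inr h3, fun h4 => hwK (h4 ▸ h3)⟩
    rw [h2]
    have : Nc G Γ {w} K = 0 := by
      unfold Nc
      rw [Nat.card_eq_zero]
      left
      constructor
      rintro ⟨g, hg1, hg2⟩
      exact hw g (hg1 w (Finset.mem_singleton_self w)) hg2
    rw [this]; rfl
  · intro a ha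
    obtain ⟨A, hA, hAc⟩ := Finset.exists_subset_card_eq (s := S) (n := a) (by omega)
    rw [← hAc, ← htA A hA]
    exact Int.natCast_nonneg _
  · -- c 0 > 0
    have hΓc : Γᶜ.ncard = m + 1 := by
      have := Set.ncard_add_ncard_compl Γ (Set.toFinite _) (Set.toFinite _)
      omega
    obtain ⟨J, hJs, hJc⟩ := Finset.exists_subset_card_eq (s := (Γᶜ).toFinite.toFinset) (n := k) (by
      rw [← Set.ncard_eq_toFinset_card]; omega)
    have h1 := hc ∅ J (Finset.disjoint_empty_left _) (by rw [Finset.card_empty, hJc]; omega)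
    rw [Finset.card_empty] at h1
    rw [← h1]
    have : 0 < Nc G Γ ∅ J := by
      unfold Nc
      haveI : Nonempty {g : G // (∀ x ∈ (∅ : Finset Ω), x ∈ g • Γ) ∧ (∀ x ∈ J, x ∉ g • Γ)} :=
        ⟨⟨1, by simp, fun x hx => by
          rw [one_smul]
          have := hJs hx
          simpa using this⟩⟩
      exact Nat.card_pos
    exact_mod_cast this
  · intro a ha
    obtain ⟨I, J, hd, hI, hJc⟩ := hexist a (k - a) (by omega)
    have := hc I J hd (by omega)
    rw [hI] at this
    rw [← this]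
    exact Int.natCast_nonneg _

/-- Marggraf: a primitive group with a Jordan set of size `m < n/2` is `m`-transitive -/
theorem marggraf_trans [Finite G] [Finite Ω] (hp : IsPreprimitive G Ω) {Γ : Set Ω} (hJ : JSet G Γ)
    (h1 : 1 < Γ.ncard) (h2 : 2 * Γ.ncard < Nat.card Ω) : IsMultiplyPretransitive G Ω Γ.ncard := by
  obtain ⟨d, hd⟩ : ∃ d, Nat.card Ω = 2 * Γ.ncard + 1 + d := ⟨Nat.card Ω - (2 * Γ.ncard + 1), by omega⟩
  induction d generalizing G Ω with
  | zero =>
    have h3 : ∀ k, 2 ≤ k → k ≤ Γ.ncard + 1 → IsMultiplyPretransitive G Ω k := by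
      intro k hk
      induction k, hk using Nat.le_induction with
      | base => intro _; exact two_trans_of_jset hp h1 (by omega) hJ
      | succ k hk ih =>
        intro hkm
        exact crit_step hJ rfl (by omega) hk (by omega) (ih (by omega))
    exact h3 _ h1 (by omega)
  | succ d ih =>
    haveI := hp.toIsPretransitive
    have hne : Γ ≠ Set.univ := by
      rintro rfl
      rw [Set.ncard_univ] at h1 h2
      omega
    obtain ⟨x, hx⟩ : Γ.Nonempty := (Set.ncard_pos (Set.toFinite _)).1 (by omega)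
    obtain ⟨g, hg⟩ := exists_translate_avoid hp.toIsPretransitive hne x
    have hprim := stab_primitive hp h1 (by omega) hJ x
    have h3 := JSet.ofStabilizer (hJ.translate g) hg
    have hc := card_ofStabilizer (G := G) x
    have hnc : ({y : SubMulAction.ofStabilizer G x | (y : Ω) ∈ g • Γ}).ncard = Γ.ncard := by
      rw [ncard_preimage_ofStabilizer hg, Set.ncard_smul_set]
    have h4 := ih hprim h3 (by rw [hnc]; exact h1) (by rw [hnc]; omega) (by rw [hnc]; omega)
    rw [hnc] at h4
    haveI h5 := (SubMulAction.ofStabilizer.isMultiplyPretransitive (n := Γ.ncard)).2 h4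
    exact isMultiplyPretransitive_of_le (n := Γ.ncard + 1) (by omega) (by omega)

/-- moving a Jordan set off itself, keeping one point -/
theorem exists_meet_one [Finite G] [Finite Ω] {Γ : Set Ω} (ht : IsMultiplyPretransitive G Ω Γ.ncard)
    (h1 : 1 < Γ.ncard) (h2 : 2 * Γ.ncard < Nat.card Ω) {C : Ω} (hC : C ∈ Γ) :
    ∃ x : G, x • C = C ∧ ∀ D ∈ Γ, D ≠ C → x • D ∉ Γ := by
  classical
  haveI : Fintype Ω := Fintype.ofFinite Ω
  have hc := Set.ncard_add_ncard_compl Γ (Set.toFinite _) (Set.toFinite _)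
  let Γf := Γ.toFinite.toFinset
  have hΓf : Γf.card = Γ.ncard := (Set.ncard_eq_toFinset_card Γ).symm
  obtain ⟨J, hJs, hJc⟩ := Finset.exists_subset_card_eq (s := (Γᶜ).toFinite.toFinset) (n := Γ.ncard - 1) (by
    rw [← Set.ncard_eq_toFinset_card]; omega)
  have hCf : C ∈ Γf := by simpa [Γf] using hC
  have hJn : ∀ z ∈ J, z ∉ Γ := fun z hz => by
    have := hJs hz
    simpa using this
  obtain ⟨g, hg1, hg2⟩ := exists_smul_finset ht (by omega) {C} (Γf.erase C) {C} J
    (by rw [Finset.disjoint_singleton_left]; simp)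
    (by rw [Finset.disjoint_singleton_left]; exact fun h => hJn C h hC) rfl
    (by rw [Finset.card_erase_of_mem hCf, hΓf, hJc])
    (by rw [Finset.card_singleton, Finset.card_erase_of_mem hCf, hΓf]; omega)
  refine ⟨g, ?_, ?_⟩
  · have := (hg1 C).2 (Finset.mem_singleton_self C)
    simpa using this
  · intro D hD hDC
    apply hJn
    rw [hg2]
    rw [Finset.mem_erase]
    exact ⟨hDC, by simpa [Γf] using hD⟩

/-- Marggraf's theorem -/
theorem marggraf [Finite G] [Fintype Ω] [DecidableEq Ω] (hp : IsPreprimitive G Ω) {Γ : Set Ω} (hJ : JSet G Γ)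
    (h1 : 1 < Γ.ncard) (h2 : 2 * Γ.ncard < Nat.card Ω) : alternatingGroup Ω ≤ (toPermHom G Ω).range := by
  obtain ⟨C, hC, D, hD, hCD⟩ := (Set.one_lt_ncard (Set.toFinite _)).1 h1
  obtain ⟨x, hxC, hx⟩ := exists_meet_one (marggraf_trans hp hJ h1 h2) h1 h2 hC
  obtain ⟨k, hk, hkC⟩ := hJ C hC D hD
  have hxC' : x⁻¹ • C = C := by rw [inv_smul_eq_iff, hxC]
  apply alternatingGroup_le_of_supports _ (isPreprimitive_range hp) (g := toPermHom G Ω k)
    (h := toPermHom G Ω (x * k * x⁻¹)) ⟨k, rfl⟩ ⟨_, rfl⟩ C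
  · show k • C ≠ C
    rw [hkC]; exact hCD.symm
  · show (x * k * x⁻¹) • C ≠ C
    rw [mul_smul, mul_smul, hxC', hkC]
    intro h
    apply hCD
    rw [← hxC'] 
    rw [← h, inv_smul_smul]
  · intro z hz1 hz2
    by_contra hzC
    have hz1' : k • z ≠ z := hz1
    have hz2' : (x * k * x⁻¹) • z ≠ z := hz2
    have hzΓ : z ∈ Γ := by
      by_contra h
      exact hz1' (hk z h)
    apply hz2'
    rw [mul_smul, mul_smul]
    have h3 : x⁻¹ • z ∉ Γ := by
      intro h
      have h4 : x⁻¹ • z ≠ C := by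
        intro h5
        apply hzC
        rw [inv_smul_eq_iff, hxC] at h5
        exact h5
      exact hx _ h h4 (by rw [smul_inv_smul]; exact hzΓ)
    rw [hk _ h3, smul_inv_smul]

end

end Cfsg.Agent.H22
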