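import Mathlib
import Cfsg.Agent.H22.Dihedral
import Cfsg.Agent.H24.Quat

set_option autoImplicit false
set_option linter.all false

/-! Groups of order 64 with a fixed-point-free automorphism of order three. -/

namespace Cfsg.Agent.H22.O64

open Subgroup
open scoped commutatorElement

section gen
variable {G : Type*} [Group G] [Finite G]

theorem gen8 (hc : Nat.card G = 8) {a b : G} (hab : a * b ≠ b * a) : closure ({a, b} : Set G) = ⊤ := by
  by_contra hne
  have h1 : Nat.card (closure ({a, b} : Set G)) ∣ 8 := hc ▸ Subgroup.card_subgroup_dvd_card _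
  have h2 : Nat.card (closure ({a, b} : Set G)) ≠ 8 := fun h => hne (Subgroup.eq_top_of_card_eq _ (h.trans hc.symm))
  have ha : a ∈ closure ({a, b} : Set G) := subset_closure (by simp)
  have hb : b ∈ closure ({a, b} : Set G) := subset_closure (by simp)
  have h3 : Nat.card (closure ({a, b} : Set G)) = 1 ∨ Nat.card (closure ({a, b} : Set G)) = 2 ∨ Nat.card (closure ({a, b} : Set G)) = 4 := by
    have := Nat.le_of_dvd (by norm_num) h1
    generalize Nat.card (closure ({a, b} : Set G)) = n at *
    interval_cases n <;> simp_all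
  have h4 : ∀ u v : closure ({a, b} : Set G), u * v = v * u := by
    rcases h3 with h3 | h3 | h3
    · intro u v
      haveI := (Nat.card_eq_one_iff_unique.1 h3).1
      exact Subsingleton.elim _ _
    · haveI : Fact (Nat.Prime 2) := ⟨Nat.prime_two⟩
      haveI := isCyclic_of_prime_card h3
      intro u v
      exact (IsCyclic.commGroup (α := closure ({a, b} : Set G))).mul_comm u v
    · haveI : Fact (Nat.Prime 2) := ⟨Nat.prime_two⟩
      have h5 := IsPGroup.isMulCommutative_of_card_eq_prime_sq (p := 2) (G := closure ({a, b} : Set G)) (by rw [h3]; norm_num)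
      intro u v
      exact h5.is_comm.comm u v
  exact hab (congrArg Subtype.val (h4 ⟨a, ha⟩ ⟨b, hb⟩))

theorem ord8 (hc : Nat.card G = 8) {a b c : G} (hc2 : c * c = 1) (hc1 : c ≠ 1) (hcc : ∀ g : G, g * c = c * g)
    (ha : a * a = 1 ∨ a * a = c) (hb : b * b = 1 ∨ b * b = c) (hab : b * a = a * b * c) :
    Nonempty (G ≃* DihedralGroup 4) ∨ Nonempty (G ≃* QuaternionGroup 2) := by
  have hne : a * b ≠ b * a := by
    intro h
    rw [hab] at h
    exact hc1 (left_eq_mul.1 h)
  -- the dihedral criterion
  have hD : ∀ s t : G, s * s = c → t * t = 1 → t * s = s * t * c → Nonempty (G ≃* DihedralGroup 4) := by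
    intro s t hs ht hst
    have hst' : s * t ≠ t * s := by
      intro h
      rw [hst] at h
      exact hc1 (left_eq_mul.1 h)
    have hsi : s⁻¹ = s * c := by
      rw [inv_eq_iff_mul_eq_one, ← mul_assoc, hs, hc2]
    apply nonempty_mulEquiv_dihedralGroup 4 s t ht
    · rw [hst, hsi, mul_assoc, ← hcc t, ← mul_assoc, mul_assoc s t t, ht, mul_one]
    · have := orderOf_eq_prime_pow (x := s) (p := 2) (n := 1) (by rw [pow_one, pow_two, hs]; exact hc1) (by
        norm_num
        rw [show s ^ 4 = (s * s) * (s * s) by simp only [pow_succ, pow_zero, one_mul, mul_assoc], hs, hc2])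
      rw [this]; norm_num
    · intro h
      obtain ⟨k, hk⟩ := Subgroup.mem_zpowers_iff.1 h
      apply hst'
      rw [← hk]
      exact ((Commute.refl s).zpow_right k).eq
    · exact gen8 hc hst'
  rcases ha with ha | ha
  · rcases hb with hb | hb
    · left
      apply hD (a * b) b
      · have : a * b * (a * b) = a * (b * a) * b := by group
        rw [this, hab]
        have : a * (a * b * c) * b = (a * a) * b * (c * b) := by group
        rw [this, ha, ← hcc b]
        have : (1 : G) * b * (b * c) = (b * b) * c := by group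
        rw [this, hb, one_mul]
      · exact hb
      · have : b * (a * b) = b * a * b := by group
        rw [this, hab, mul_assoc (a * b) c b, ← hcc b, ← mul_assoc]
    · left
      apply hD b a hb ha
      rw [hab, mul_assoc, hc2, mul_one]
  · rcases hb with hb | hb
    · left
      exact hD a b ha hb hab
    · right
      have hai : a⁻¹ = a * c := by
        rw [inv_eq_iff_mul_eq_one, ← mul_assoc, ha, hc2]
      apply H24.nonempty_mulEquiv_quaternion 2 a b
      · rw [show a ^ (2 * 2) = (a * a) * (a * a) by simp only [show 2 * 2 = 4 from rfl, pow_succ, pow_zero, one_mul, mul_assoc], ha, hc2]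
      · rw [hb, pow_two, ha]
      · rw [hab, hai, mul_assoc (a * b) c, ← hcc b⁻¹]
        group
      · exact gen8 hc hne
      · rw [hc]

end gen

section fpf
variable {G : Type*} [Group G] [Finite G] (ρ : MulAut G)

theorem sub_mod (h3 : ∀ y, ρ (ρ (ρ y)) = y) (hfp : ∀ y, ρ y = y → y = 1) (S : Subgroup G) (hS : ∀ s ∈ S, ρ s ∈ S) :
    Nat.card S % 3 = 1 := by
  classical
  haveI := Fintype.ofFinite G
  let f : Function.End S := fun s => ⟨ρ s.1, hS s.1 s.2⟩
  have hf : f ^ 3 ^ 1 = 1 := by
    funext s
    apply Subtype.ext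
    exact h3 s.1
  haveI : Fact (Nat.Prime 3) := ⟨Nat.prime_three⟩
  have h1 := Equiv.Perm.card_fixedPoints_modEq hf
  have h2 : Fintype.card f.fixedPoints = 1 := by
    rw [Fintype.card_eq_one_iff]
    refine ⟨⟨1, by
      show f 1 = 1
      apply Subtype.ext
      exact map_one ρ⟩, ?_⟩
    rintro ⟨s, hs⟩
    apply Subtype.ext
    apply Subtype.ext
    exact hfp s.1 (congrArg Subtype.val hs)
  rw [h2] at h1
  rw [Nat.card_eq_fintype_card]
  exact h1

theorem surj_sub (hfp : ∀ y, ρ y = y → y = 1) (S : Subgroup G) (hS : ∀ s ∈ S, ρ s ∈ S) (z : G) (hz : z ∈ S) :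
    ∃ w ∈ S, z = w⁻¹ * ρ w := by
  have hinj : Function.Injective (fun s : S => (⟨s.1⁻¹ * ρ s.1, S.mul_mem (S.inv_mem s.2) (hS _ s.2)⟩ : S)) := by
    intro s t hst
    have h1 : s.1⁻¹ * ρ s.1 = t.1⁻¹ * ρ t.1 := congrArg Subtype.val hst
    have h2 : ρ (t.1 * s.1⁻¹) = t.1 * s.1⁻¹ := by
      rw [map_mul, map_inv]
      have : ρ t.1 = t.1 * (s.1⁻¹ * ρ s.1) := by rw [h1]; group
      rw [this]; group
    have h3 := hfp _ h2
    exact Subtype.ext (mul_inv_eq_one.1 h3).symm
  obtain ⟨w, hw⟩ := (Finite.injective_iff_surjective.1 hinj) ⟨z, hz⟩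
  exact ⟨w.1, w.2, (congrArg Subtype.val hw).symm⟩

theorem triple (h3 : ∀ y, ρ (ρ (ρ y)) = y) (hfp : ∀ y, ρ y = y → y = 1) (y : G) : y * ρ y * ρ (ρ y) = 1 := by
  obtain ⟨w, -, hw⟩ := surj_sub ρ hfp ⊤ (fun _ _ => mem_top _) y (mem_top _)
  rw [hw]
  simp only [map_mul, map_inv, h3]
  group

theorem comm_rho (h3 : ∀ y, ρ (ρ (ρ y)) = y) (hfp : ∀ y, ρ y = y → y = 1) (y : G) : y * ρ y = ρ y * y := by
  have h1 := triple ρ h3 hfp y
  have h2 := triple ρ h3 hfp y⁻¹
  rw [map_inv, map_inv] at h2
  have e1 : ρ (ρ y) = (y * ρ y)⁻¹ := (inv_eq_of_mul_eq_one_right h1).symm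
  rw [e1] at h2
  have : y⁻¹ * (ρ y)⁻¹ * (y * ρ y)⁻¹⁻¹ = (ρ y * y)⁻¹ * (y * ρ y) := by group
  rw [this] at h2
  exact (inv_mul_eq_one.1 h2).symm

theorem center_rho (s : G) (hs : s ∈ center G) : ρ s ∈ center G := by
  rw [mem_center_iff] at hs ⊢
  intro g
  have := congrArg ρ (hs (ρ⁻¹ g))
  rw [map_mul, map_mul] at this
  have e : ρ (ρ⁻¹ g) = g := ρ.apply_symm_apply g
  rwa [e] at this

theorem small (h3 : ∀ y, ρ (ρ (ρ y)) = y) (hfp : ∀ y, ρ y = y → y = 1) (hle : Nat.card G ≤ 4 * Nat.card (center G)) :
    ∀ a b : G, a * b = b * a := by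
  by_contra hcon
  push Not at hcon
  obtain ⟨y, b, hyb⟩ := hcon
  have hy : y ∉ center G := fun h => hyb ((mem_center_iff.1 h b).symm)
  have hρy : ρ y ∉ center G := by
    intro h
    have h1 := center_rho ρ _ (center_rho ρ _ h)
    rw [h3] at h1
    exact hy h1
  have hyy : y⁻¹ * ρ y ∉ center G := by
    intro h
    obtain ⟨w, hw, hw2⟩ := surj_sub ρ hfp (center G) (center_rho ρ) _ h
    apply hy
    have h1 : ρ (y * w⁻¹) = y * w⁻¹ := by
      rw [map_mul, map_inv]
      have e1 : ρ y = y * (w⁻¹ * ρ w) := by rw [← hw2]; group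
      rw [e1]; group
    have h2 := hfp _ h1
    rw [mul_inv_eq_one] at h2
    rw [h2]; exact hw
  let f : Fin 3 × center G → centralizer ({y} : Set G) := fun p =>
    ⟨(![1, y, ρ y] p.1) * p.2.1, by
      rw [mem_centralizer_singleton_iff]
      have hz := mem_center_iff.1 p.2.2 y
      have h1 : y * (![1, y, ρ y] p.1) = (![1, y, ρ y] p.1) * y := by
        obtain ⟨i, z⟩ := p
        fin_cases i
        · simp
        · simp
        · exact comm_rho ρ h3 hfp y
      rw [mul_assoc, ← hz, ← mul_assoc, ← h1, mul_assoc]⟩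
  have hf : Function.Injective f := by
    rintro ⟨i, z⟩ ⟨j, w⟩ hij
    have h1 : (![1, y, ρ y] i) * z.1 = (![1, y, ρ y] j) * w.1 := congrArg Subtype.val hij
    have h2 : (![1, y, ρ y] j)⁻¹ * (![1, y, ρ y] i) ∈ center G := by
      have : (![1, y, ρ y] j)⁻¹ * (![1, y, ρ y] i) = w.1 * z.1⁻¹ := by
        have e1 : ![1, y, ρ y] i = (![1, y, ρ y] j) * w.1 * z.1⁻¹ := by rw [← h1]; group
        rw [e1]; group
      rw [this]
      exact (center G).mul_mem w.2 ((center G).inv_mem z.2)
    have hij' : i = j := by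
      fin_cases i <;> fin_cases j
      · rfl
      · exfalso
        apply hy
        have : y⁻¹ * 1 ∈ center G := h2
        rw [mul_one] at this
        simpa using (center G).inv_mem this
      · exfalso
        apply hρy
        have : (ρ y)⁻¹ * 1 ∈ center G := h2
        rw [mul_one] at this
        simpa using (center G).inv_mem this
      · exfalso
        apply hy
        have : (1 : G)⁻¹ * y ∈ center G := h2
        simpa using this
      · rfl
      · exfalso
        apply hyy
        have : (ρ y)⁻¹ * y ∈ center G := h2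
        have := (center G).inv_mem this
        simpa using this
      · exfalso
        apply hρy
        have : (1 : G)⁻¹ * ρ y ∈ center G := h2
        simpa using this
      · exfalso
        apply hyy
        exact h2
      · rfl
    subst hij'
    have h4 : z = w := Subtype.ext (mul_left_cancel h1)
    rw [h4]
  have hcard := Nat.card_le_card_of_injective f hf
  rw [Nat.card_prod, Nat.card_fin] at hcard
  have hpos : 0 < Nat.card (center G) := Nat.card_pos
  have hidx := card_mul_index (centralizer ({y} : Set G))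
  have : (centralizer ({y} : Set G)).index = 1 := by
    have h0 : (centralizer ({y} : Set G)).index ≠ 0 := index_ne_zero_of_finite
    by_contra hne
    have h2 : 2 ≤ (centralizer ({y} : Set G)).index := by omega
    have h4 : Nat.card (centralizer ({y} : Set G)) * 2 ≤ Nat.card G := by
      rw [← hidx]; exact Nat.mul_le_mul_left _ h2
    omega
  rw [index_eq_one] at this
  apply hy
  rw [mem_center_iff]
  intro g
  have hg : g ∈ centralizer ({y} : Set G) := by rw [this]; exact mem_top _
  rw [mem_centralizer_singleton_iff] at hg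
  exact hg

theorem ord16 (h3 : ∀ y, ρ (ρ (ρ y)) = y) (hfp : ∀ y, ρ y = y → y = 1) (hc : Nat.card G = 16) : ∀ a b : G, a * b = b * a := by
  apply small ρ h3 hfp
  have h1 := sub_mod ρ h3 hfp (center G) (center_rho ρ)
  have h2 : Nat.card (center G) ∣ 16 := hc ▸ card_subgroup_dvd_card _
  haveI : Fact (Nat.Prime 2) := ⟨Nat.prime_two⟩
  haveI : Nontrivial G := by
    apply Finite.one_lt_card_iff_nontrivial.1
    rw [hc]; norm_num
  haveI := IsPGroup.center_nontrivial (IsPGroup.of_card (p := 2) (n := 4) (by rw [hc]; norm_num))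
  have h4 : 1 < Nat.card (center G) := Finite.one_lt_card
  rw [hc]
  have h5 := Nat.le_of_dvd (by norm_num) h2
  generalize Nat.card (center G) = n at *
  interval_cases n <;> omega

end fpf

end Cfsg.Agent.H22.O64
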