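import Cfsg.Agent.H22.Ord64

set_option autoImplicit false
set_option linter.all false

/-! Groups of order 64 with a fixed-point-free automorphism of order three: class two structure. -/

namespace Cfsg.Agent.H22.O64

open Subgroup
open scoped commutatorElement

structure Dat (G : Type*) [Group G] [Finite G] (ρ : MulAut G) : Prop where
  r3 : ∀ y, ρ (ρ (ρ y)) = y
  fp : ∀ y, ρ y = y → y = 1
  card : Nat.card G = 64
  cardZ : Nat.card (center G) = 4
  cen : ∀ a b : G, ⁅a, b⁆ ∈ center G
  two : ∀ z ∈ center G, z * z = 1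

section
variable {G : Type*} [Group G] [Finite G] {ρ : MulAut G}

theorem dat_of (r3 : ∀ y, ρ (ρ (ρ y)) = y) (fp : ∀ y, ρ y = y → y = 1) (card : Nat.card G = 64)
    (hna : ¬ ∀ a b : G, a * b = b * a) : Dat G ρ := by
  haveI : Fact (Nat.Prime 2) := ⟨Nat.prime_two⟩
  have hZ : Nat.card (center G) = 4 := by
    have h1 := sub_mod ρ r3 fp (center G) (center_rho ρ)
    have h2 : Nat.card (center G) ∣ 2 ^ 6 := by
      have := card_subgroup_dvd_card (center G)
      rw [card] at this
      norm_num
      exact this
    haveI : Nontrivial G := by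
      apply Finite.one_lt_card_iff_nontrivial.1
      rw [card]; norm_num
    haveI := IsPGroup.center_nontrivial (IsPGroup.of_card (p := 2) (n := 6) (by rw [card]; norm_num))
    have h4 : 1 < Nat.card (center G) := Finite.one_lt_card
    have h5 : Nat.card (center G) < 16 := by
      by_contra hh
      apply hna
      apply small ρ r3 fp
      rw [card]; omega
    obtain ⟨k, hk, hk2⟩ := (Nat.dvd_prime_pow Nat.prime_two).1 h2
    rw [hk2] at h1 h4 h5 ⊢
    interval_cases k <;> simp_all
  have hchar : (center G).map (ρ : G →* G) = center G := (inferInstance : (center G).Characteristic) |> fun _ => Subgroup.characteristic_iff_map_eq.1 inferInstance ρ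
  let σ : MulAut (G ⧸ center G) := QuotientGroup.congr (center G) (center G) ρ hchar
  have hσ : ∀ y : G, σ (QuotientGroup.mk y) = QuotientGroup.mk (ρ y) := fun y => rfl
  have hab : ∀ a b : G ⧸ center G, a * b = b * a := by
    apply ord16 σ
    · intro y
      obtain ⟨y, rfl⟩ := QuotientGroup.mk_surjective y
      rw [hσ, hσ, hσ, r3]
    · intro y hy
      obtain ⟨y, rfl⟩ := QuotientGroup.mk_surjective y
      rw [hσ] at hy
      have h1 : y⁻¹ * ρ y ∈ center G := QuotientGroup.eq.1 hy.symm
      obtain ⟨w, hw, hw2⟩ := surj_sub ρ fp (center G) (center_rho ρ) _ h1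
      have h2 : ρ (y * w⁻¹) = y * w⁻¹ := by
        rw [map_mul, map_inv]
        have e1 : ρ y = y * (w⁻¹ * ρ w) := by rw [← hw2]; group
        rw [e1]; group
      have h3 := fp _ h2
      rw [mul_inv_eq_one] at h3
      rw [h3]
      exact (QuotientGroup.eq_one_iff w).2 hw
    · have := card_eq_card_quotient_mul_card_subgroup (center G)
      rw [card, hZ] at this
      omega
  refine ⟨r3, fp, card, hZ, ?_, ?_⟩
  · intro a b
    have h1 := hab (QuotientGroup.mk a) (QuotientGroup.mk b)
    have h2 : (QuotientGroup.mk ⁅a, b⁆ : G ⧸ center G) = 1 := by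
      rw [commutatorElement_def, QuotientGroup.mk_mul, QuotientGroup.mk_mul, QuotientGroup.mk_mul, h1, QuotientGroup.mk_inv, QuotientGroup.mk_inv]
      group
    exact (QuotientGroup.eq_one_iff _).1 h2
  · intro z hz
    by_cases hz1 : z = 1
    · rw [hz1, one_mul]
    have hρ1 := center_rho ρ z hz
    have hρ2 := center_rho ρ _ hρ1
    have t1 := triple ρ r3 fp z
    have n1 : ρ z ≠ z := fun h => hz1 (fp z h)
    have n2 : ρ (ρ z) ≠ ρ z := fun h => n1 (ρ.injective h)
    have n3 : ρ (ρ z) ≠ z := fun h => n1 (by have h' := r3 z; rw [h] at h'; exact h')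
    have m1 : ρ z ≠ 1 := fun h => hz1 (ρ.injective (h.trans (map_one ρ).symm))
    have m2 : ρ (ρ z) ≠ 1 := fun h => m1 (ρ.injective (h.trans (map_one ρ).symm))
    by_contra hzz
    let f : Fin 5 → center G := ![1, ⟨z, hz⟩, ⟨ρ z, hρ1⟩, ⟨ρ (ρ z), hρ2⟩, ⟨z⁻¹, (center G).inv_mem hz⟩]
    have hinj : Function.Injective f := by
      have k1 : z ≠ z⁻¹ := fun h => hzz (mul_eq_one_iff_eq_inv.2 h)
      have k2 : ρ z ≠ z⁻¹ := by
        intro h
        rw [h, mul_inv_cancel, one_mul] at t1
        rw [h] at m2
        exact m2 t1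
      have k3 : ρ (ρ z) ≠ z⁻¹ := by
        intro h
        apply m1
        rw [h] at t1
        have := mem_center_iff.1 hz (ρ z)
        rw [← this, mul_inv_cancel_right] at t1
        exact t1
      intro i j hij
      have hij' := congrArg Subtype.val hij
      fin_cases i <;> fin_cases j <;> first | rfl | (exfalso; simp [f] at hij'; first | exact hz1 hij' | exact hz1 hij'.symm | exact n1 hij' | exact n1 hij'.symm | exact n2 hij' | exact n2 hij'.symm | exact n3 hij' | exact n3 hij'.symm | exact m1 hij' | exact m1 hij'.symm | exact m2 hij' | exact m2 hij'.symm | exact k1 hij' | exact k1 hij'.symm | exact k2 hij' | exact k2 hij'.symm | exact k3 hij' | exact k3 hij'.symm | exact n1 (ρ.injective hij') )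
    have := Nat.card_le_card_of_injective f hinj
    rw [Nat.card_fin, hZ] at this
    omega

end

end Cfsg.Agent.H22.O64
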