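import Cfsg.Agent.H22.Ord64b

set_option autoImplicit false
set_option linter.all false

/-! Groups of order 64 with a fixed-point-free automorphism of order three: the commutator form. -/

namespace Cfsg.Agent.H22.O64

open Subgroup
open scoped commutatorElement

namespace Dat
variable {G : Type*} [Group G] [Finite G] {ρ : MulAut G}

theorem cc (z : G) (hz : z ∈ center G) (g : G) : g * z = z * g := mem_center_iff.1 hz g

theorem bl (D : Dat G ρ) (a b c : G) : ⁅a * b, c⁆ = ⁅a, c⁆ * ⁅b, c⁆ := by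
  have h := cc _ (D.cen b c)
  have e : ⁅a * b, c⁆ = a * ⁅b, c⁆ * (c * a⁻¹ * c⁻¹) := by
    simp only [commutatorElement_def]; group
  rw [e, h a, h ⁅a, c⁆]
  simp only [commutatorElement_def]; group

theorem bs (D : Dat G ρ) (a b : G) : ⁅a, b⁆ = ⁅b, a⁆ := by
  rw [← commutatorElement_inv b a]
  exact inv_eq_of_mul_eq_one_left (D.two _ (D.cen b a))

theorem br (D : Dat G ρ) (a b c : G) : ⁅a, b * c⁆ = ⁅a, b⁆ * ⁅a, c⁆ := by
  rw [D.bs, D.bl, D.bs b a, D.bs c a]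

theorem bz (D : Dat G ρ) (z : G) (hz : z ∈ center G) (a : G) : ⁅z, a⁆ = 1 := by
  rw [commutatorElement_eq_one_iff_mul_comm]
  exact (cc z hz a).symm

theorem bz' (D : Dat G ρ) (z : G) (hz : z ∈ center G) (a : G) : ⁅a, z⁆ = 1 := by
  rw [D.bs, D.bz z hz]

theorem sw (D : Dat G ρ) (a b : G) : b * a = a * b * ⁅a, b⁆ := by
  rw [D.bs, cc _ (D.cen b a)]
  simp only [commutatorElement_def]; group

theorem sq (D : Dat G ρ) (a : G) : a * a ∈ center G := by
  rw [mem_center_iff]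
  intro g
  have : ⁅a * a, g⁆ = 1 := by rw [D.bl, D.two _ (D.cen a g)]
  exact (commutatorElement_eq_one_iff_mul_comm.1 this).symm

theorem sqm (D : Dat G ρ) (a b : G) : (a * b) * (a * b) = (a * a) * (b * b) * ⁅a, b⁆ := by
  have e : (a * b) * (a * b) = a * (b * a) * b := by group
  rw [e, D.sw a b]
  have e2 : a * (a * b * ⁅a, b⁆) * b = (a * a) * b * (⁅a, b⁆ * b) := by group
  rw [e2, ← cc _ (D.cen a b) b]
  group

theorem b1 (D : Dat G ρ) (a : G) : ⁅a, ρ a⁆ = 1 :=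
  commutatorElement_eq_one_iff_mul_comm.2 (comm_rho ρ D.r3 D.fp a)

theorem rc (D : Dat G ρ) (a b : G) : ρ ⁅a, b⁆ = ⁅ρ a, ρ b⁆ := map_commutatorElement ρ a b

/-- on the centre -/
theorem tz (D : Dat G ρ) (z : G) (hz : z ∈ center G) : z * ρ z = ρ (ρ z) := by
  have h := triple ρ D.r3 D.fp z
  have h2 := D.two _ (center_rho ρ _ (center_rho ρ z hz))
  exact mul_right_cancel (h.trans h2.symm)

theorem key1 (D : Dat G ρ) (a b : G) : ⁅a, ρ b⁆ = ⁅ρ a, b⁆ := by
  have h := D.b1 (a * b)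
  rw [map_mul, D.bl, D.br, D.br, D.b1, D.b1, one_mul, mul_one] at h
  rw [D.bs (ρ a) b]
  have h2 := D.two _ (D.cen b (ρ a))
  exact mul_right_cancel (h.trans h2.symm)

theorem key2 (D : Dat G ρ) (a b : G) : ⁅a, ρ b⁆ = ρ (ρ ⁅a, b⁆) := by
  have h1 : ρ ⁅a, b⁆ = ⁅a, ρ (ρ b)⁆ := by
    rw [D.rc, D.key1 a (ρ b)]
  have h2 : ρ (ρ b) = (b * ρ b)⁻¹ := (inv_eq_of_mul_eq_one_right (triple ρ D.r3 D.fp b)).symm
  have h3 : ⁅a, ρ (ρ b)⁆ * (⁅a, b⁆ * ⁅a, ρ b⁆) = 1 := by
    rw [← D.br, ← D.br, h2, inv_mul_cancel, commutatorElement_one_right]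
  rw [← h1] at h3
  rw [← D.tz _ (D.cen a b)]
  have h4 := D.two _ (D.cen a (ρ b))
  have h5 : ρ ⁅a, b⁆ * ⁅a, b⁆ * ⁅a, ρ b⁆ = 1 := by rw [mul_assoc]; exact h3
  rw [cc _ (D.cen a b) (ρ ⁅a, b⁆)] at h5
  exact (mul_right_cancel (h5.trans h4.symm)).symm

theorem key3 (D : Dat G ρ) (a b : G) : ⁅ρ a, b⁆ = ρ (ρ ⁅a, b⁆) := by rw [← D.key1, D.key2]

theorem rne (D : Dat G ρ) {z : G} (hz : z ≠ 1) : ρ z ≠ 1 := fun h => hz (ρ.injective (h.trans (map_one ρ).symm))

theorem rne1 (D : Dat G ρ) {z : G} (hz : z ≠ 1) : ρ z ≠ z := fun h => hz (D.fp z h)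

theorem rne2 (D : Dat G ρ) {z : G} (hz : z ≠ 1) : ρ (ρ z) ≠ ρ z := D.rne1 (D.rne hz)

theorem rne3 (D : Dat G ρ) {z : G} (hz : z ≠ 1) : ρ (ρ z) ≠ z := fun h => D.rne1 hz (by
  have h' := D.r3 z; rw [h] at h'; exact h')

/-- the elements of the centre -/
theorem elts (D : Dat G ρ) {z : G} (hz : z ∈ center G) (hz1 : z ≠ 1) {w : G} (hw : w ∈ center G) :
    w = 1 ∨ w = z ∨ w = ρ z ∨ w = ρ (ρ z) := by
  by_contra hcon
  push Not at hcon
  obtain ⟨c1, c2, c3, c4⟩ := hcon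
  have n1 := D.rne1 hz1
  have n2 := D.rne2 hz1
  have n3 := D.rne3 hz1
  have m1 := D.rne hz1
  have m2 := D.rne m1
  have hρ1 := center_rho ρ z hz
  have hρ2 := center_rho ρ _ hρ1
  let f : Fin 5 → center G := ![1, ⟨z, hz⟩, ⟨ρ z, hρ1⟩, ⟨ρ (ρ z), hρ2⟩, ⟨w, hw⟩]
  have hinj : Function.Injective f := by
    intro i j hij
    have hij' := congrArg Subtype.val hij
    fin_cases i <;> fin_cases j <;> first | rfl | (exfalso; simp [f] at hij'; first | exact hz1 hij' | exact hz1 hij'.symm | exact n1 hij' | exact n1 hij'.symm | exact n2 hij' | exact n2 hij'.symm | exact n3 hij' | exact n3 hij'.symm | exact m1 hij' | exact m1 hij'.symm | exact m2 hij' | exact m2 hij'.symm | exact c1 hij' | exact c1 hij'.symm | exact c2 hij' | exact c2 hij'.symm | exact c3 hij' | exact c3 hij'.symm | exact c4 hij' | exact c4 hij'.symm | exact n1 (ρ.injective hij') )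
  have := Nat.card_le_card_of_injective f hinj
  rw [Nat.card_fin, D.cardZ] at this
  omega

/-- the joint centralizer of two non-commuting elements -/
theorem joint (D : Dat G ρ) {v w : G} (hvw : ⁅v, w⁆ ≠ 1) {g : G} (h1 : ⁅g, v⁆ = 1) (h2 : ⁅g, w⁆ = 1) : g ∈ center G := by
  classical
  let β : G → G →* center G := fun u => MonoidHom.mk' (fun g => (⟨⁅g, u⁆, D.cen g u⟩ : center G)) (fun a b => Subtype.ext (D.bl a b u))
  let f : G →* center G × center G := (β v).prod (β w)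
  have hf : ∀ g, f g = (⟨⁅g, v⁆, D.cen g v⟩, ⟨⁅g, w⁆, D.cen g w⟩) := fun g => rfl
  have hvw' : ⁅w, v⁆ ≠ 1 := by rw [D.bs]; exact hvw
  have hs : Function.Surjective f := by
    have s1 : ∀ z ∈ center G, ∃ g : G, ⁅g, v⁆ = z ∧ ⁅g, w⁆ = 1 := by
      intro z hz
      rcases D.elts (D.cen w v) hvw' hz with h | h | h | h
      · exact ⟨1, by rw [commutatorElement_one_left, h], commutatorElement_one_left _⟩
      · exact ⟨w, h.symm, commutatorElement_self w⟩
      · refine ⟨ρ (ρ w), ?_, ?_⟩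
        · rw [D.key3, D.key3, D.r3, h]
        · rw [D.key3, D.key3, commutatorElement_self]; simp
      · refine ⟨ρ w, ?_, ?_⟩
        · rw [D.key3, h]
        · rw [D.key3, commutatorElement_self]; simp
    have s2 : ∀ z ∈ center G, ∃ g : G, ⁅g, v⁆ = 1 ∧ ⁅g, w⁆ = z := by
      intro z hz
      rcases D.elts (D.cen v w) hvw hz with h | h | h | h
      · exact ⟨1, commutatorElement_one_left _, by rw [commutatorElement_one_left, h]⟩
      · exact ⟨v, commutatorElement_self v, h.symm⟩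
      · refine ⟨ρ (ρ v), ?_, ?_⟩
        · rw [D.key3, D.key3, commutatorElement_self]; simp
        · rw [D.key3, D.key3, D.r3, h]
      · refine ⟨ρ v, ?_, ?_⟩
        · rw [D.key3, commutatorElement_self]; simp
        · rw [D.key3, h]
    rintro ⟨⟨z1, hz1⟩, ⟨z2, hz2⟩⟩
    obtain ⟨g1, e1, e2⟩ := s1 z1 hz1
    obtain ⟨g2, e3, e4⟩ := s2 z2 hz2
    refine ⟨g1 * g2, ?_⟩
    rw [hf]
    refine Prod.ext (Subtype.ext ?_) (Subtype.ext ?_)
    · show ⁅g1 * g2, v⁆ = z1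
      rw [D.bl, e1, e3, mul_one]
    · show ⁅g1 * g2, w⁆ = z2
      rw [D.bl, e2, e4, one_mul]
  have hk : center G ≤ f.ker := by
    intro z hz
    rw [MonoidHom.mem_ker, hf]
    refine Prod.ext (Subtype.ext ?_) (Subtype.ext ?_)
    · exact D.bz z hz v
    · exact D.bz z hz w
  have hcard : Nat.card f.ker = 4 := by
    have e1 := card_eq_card_quotient_mul_card_subgroup f.ker
    rw [Nat.card_congr (QuotientGroup.quotientKerEquivOfSurjective f hs).toEquiv, Nat.card_prod, D.cardZ, D.card] at e1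
    omega
  have heq : center G = f.ker := by
    apply Subgroup.eq_of_le_of_card_ge hk
    rw [hcard, D.cardZ]
  rw [heq, MonoidHom.mem_ker, hf]
  exact Prod.ext (Subtype.ext h1) (Subtype.ext h2)

end Dat

end Cfsg.Agent.H22.O64
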