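import Mathlib
import Cfsg.Agent.H5.LinBasic

set_option autoImplicit false
set_option linter.all false

/-! The upper unitriangular group of degree three over a finite field, as a Sylow subgroup of PSL. -/

namespace Cfsg.Agent.H22.O64

open Subgroup Matrix
open scoped MatrixGroups

variable {F : Type} [Field F] [Fintype F] [DecidableEq F]

def uni (F : Type) [Field F] [Fintype F] [DecidableEq F] : Subgroup (SpecialLinearGroup (Fin 3) F) :=
  let S : Submonoid (SpecialLinearGroup (Fin 3) F) :=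
    { carrier := {M | M.1 1 0 = 0 ∧ M.1 2 0 = 0 ∧ M.1 2 1 = 0 ∧ M.1 0 0 = 1 ∧ M.1 1 1 = 1 ∧ M.1 2 2 = 1}
      mul_mem' := by
        rintro A B ⟨h1, h2, h3, h4, h5, h6⟩ ⟨g1, g2, g3, g4, g5, g6⟩
        have e : (A * B).1 = A.1 * B.1 := rfl
        simp only [Set.mem_ofPred_eq, e, Matrix.mul_apply, Fin.sum_univ_three, h1, h2, h3, h4, h5, h6, g1, g2, g3,
          g4, g5, g6]
        simp
      one_mem' := by
        have e : (1 : SpecialLinearGroup (Fin 3) F).1 = 1 := rfl
        simp only [Set.mem_ofPred_eq, e]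
        simp }
  { S with
    inv_mem' := by
      intro x hx
      have h1 : x⁻¹ = x ^ (orderOf x - 1) := by
        rw [inv_eq_iff_mul_eq_one, ← pow_succ']
        rw [Nat.sub_add_cancel (orderOf_pos x), pow_orderOf_eq_one]
      show x⁻¹ ∈ S
      rw [h1]
      exact S.pow_mem hx _ }

theorem mem_uni {M : SpecialLinearGroup (Fin 3) F} : M ∈ uni F ↔
    M.1 1 0 = 0 ∧ M.1 2 0 = 0 ∧ M.1 2 1 = 0 ∧ M.1 0 0 = 1 ∧ M.1 1 1 = 1 ∧ M.1 2 2 = 1 := Iff.rfl

def uM (a b c : F) : Matrix (Fin 3) (Fin 3) F := !![1, b, c; 0, 1, a; 0, 0, 1]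

theorem det_uM (a b c : F) : (uM a b c).det = 1 := by
  rw [uM, Matrix.det_fin_three]
  simp

def uS (a b c : F) : SpecialLinearGroup (Fin 3) F := ⟨uM a b c, det_uM a b c⟩

theorem uS_mem (a b c : F) : uS a b c ∈ uni F := by
  rw [mem_uni]
  simp [uS, uM]

theorem card_uni : Nat.card (uni F) = Fintype.card F ^ 3 := by
  have e : (uni F) ≃ (F × F × F) :=
    { toFun := fun M => (M.1.1 1 2, M.1.1 0 1, M.1.1 0 2)
      invFun := fun t => ⟨uS t.1 t.2.1 t.2.2, uS_mem _ _ _⟩
      left_inv := by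
        rintro ⟨M, h1, h2, h3, h4, h5, h6⟩
        apply Subtype.ext
        apply Subtype.ext
        ext i j
        fin_cases i <;> fin_cases j <;> simp [uS, uM, h1, h2, h3, h4, h5, h6]
      right_inv := by
        rintro ⟨a, b, c⟩
        simp [uS, uM] }
  rw [Nat.card_congr e, Nat.card_prod, Nat.card_prod, Nat.card_eq_fintype_card]
  ring

theorem uni_inj : Function.Injective ((QuotientGroup.mk' (center (SpecialLinearGroup (Fin 3) F))).comp (uni F).subtype) := by
  rw [← MonoidHom.ker_eq_bot_iff, eq_bot_iff]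
  rintro ⟨M, h1, h2, h3, h4, h5, h6⟩ hM
  have hM' : M ∈ center (SpecialLinearGroup (Fin 3) F) := by
    rw [MonoidHom.mem_ker] at hM
    exact (QuotientGroup.eq_one_iff M).1 hM
  rw [Matrix.SpecialLinearGroup.mem_center_iff] at hM'
  obtain ⟨r, hr, hr2⟩ := hM'
  rw [Subgroup.mem_bot]
  apply Subtype.ext
  apply Subtype.ext
  show M.1 = 1
  have e := congrFun (congrFun hr2 0) 0
  have e1 : M.1 = Matrix.scalar (Fin 3) r := hr2.symm
  rw [e1] at h4 ⊢
  simp at h4
  rw [h4]
  simp

theorem exists_sylow (hF : Fintype.card F = 4) :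
    ∃ S : Sylow 2 (Matrix.ProjectiveSpecialLinearGroup (Fin 3) F), Nonempty (uni F ≃* ↥(S : Subgroup (Matrix.ProjectiveSpecialLinearGroup (Fin 3) F))) := by
  haveI : Fact (Nat.Prime 2) := ⟨Nat.prime_two⟩
  let f := (QuotientGroup.mk' (center (SpecialLinearGroup (Fin 3) F))).comp (uni F).subtype
  have hf : Function.Injective f := uni_inj
  have hcard : Nat.card f.range = 64 := by
    rw [← Nat.card_congr (MonoidHom.ofInjective hf).toEquiv, card_uni, hF]
    norm_num
  have hP : Nat.card (Matrix.ProjectiveSpecialLinearGroup (Fin 3) F) = 20160 := by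
    have h1 := H5.card_PSL_mul hF 3 (by norm_num)
    rw [Fin.prod_univ_three] at h1
    have h2 : Nat.gcd 3 (4 - 1) = 3 := by norm_num
    rw [h2] at h1
    have h3 : (4 ^ 3 - 4 ^ ((0 : Fin 3) : ℕ)) * (4 ^ 3 - 4 ^ ((1 : Fin 3) : ℕ)) * (4 ^ 3 - 4 ^ ((2 : Fin 3) : ℕ)) = 181440 := by
      norm_num
    rw [h3] at h1
    omega
  let S : Sylow 2 (Matrix.ProjectiveSpecialLinearGroup (Fin 3) F) := Sylow.ofCard f.range (by
    rw [hP, hcard]
    have : Nat.factorization 20160 2 = 6 := by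
      rw [show 20160 = 2 ^ 6 * 315 by norm_num, Nat.factorization_mul (by norm_num) (by norm_num), Nat.factorization_pow]
      rw [Finsupp.add_apply, Finsupp.smul_apply, Nat.Prime.factorization_self Nat.prime_two, Nat.factorization_eq_zero_of_not_dvd (by norm_num)]
      rfl
    rw [this]
    norm_num)
  exact ⟨S, ⟨MonoidHom.ofInjective hf⟩⟩

end Cfsg.Agent.H22.O64
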