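import Cfsg.Agent.H22.Ord64c
import Cfsg.Agent.H22.Ord64d

set_option autoImplicit false
set_option linter.all false

/-! Groups of order 64 with a fixed-point-free automorphism of order three: identification. -/

namespace Cfsg.Agent.H22.O64

open Subgroup
open scoped commutatorElement

abbrev K4 := QuadraticAlgebra (ZMod 2) 1 1

instance factK4 : Fact (∀ r : ZMod 2, r ^ 2 ≠ 1 + 1 * r) := ⟨by decide⟩

instance ftK4 : Fintype K4 := Fintype.ofEquiv (ZMod 2 × ZMod 2) (QuadraticAlgebra.equivProd (R := ZMod 2) 1 1).symm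

theorem card_K4 : Fintype.card K4 = 4 := by
  rw [Fintype.card_congr (QuadraticAlgebra.equivProd (R := ZMod 2) 1 1)]
  rfl

def om : K4 := ⟨0, 1⟩

theorem casesK (a : K4) : a = 0 ∨ a = 1 ∨ a = om ∨ a = 1 + om := by
  obtain ⟨i, j⟩ := a
  fin_cases i <;> fin_cases j
  · left; rfl
  · right; right; left; rfl
  · right; left; rfl
  · right; right; right; rfl

section E
variable {G : Type*} [Group G]

def E (p q : G) (a : K4) : G := p ^ a.re.val * q ^ a.im.val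

theorem E_zero (p q : G) : E p q 0 = 1 := by
  show p ^ 0 * q ^ 0 = 1
  simp

theorem E_one (p q : G) : E p q 1 = p := by
  show p ^ 1 * q ^ 0 = p
  simp

theorem E_om (p q : G) : E p q om = q := by
  show p ^ 0 * q ^ 1 = q
  simp

theorem pow_val_add {p : G} (hp : p * p = 1) (i j : ZMod 2) : p ^ (i + j).val = p ^ i.val * p ^ j.val := by
  fin_cases i <;> fin_cases j
  · show p ^ 0 = p ^ 0 * p ^ 0; simp
  · show p ^ 1 = p ^ 0 * p ^ 1; simp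
  · show p ^ 1 = p ^ 1 * p ^ 0; simp
  · show p ^ 0 = p ^ 1 * p ^ 1; simp [hp]

theorem E_add {p q : G} (hp : p * p = 1) (hq : q * q = 1) (hpq : p * q = q * p) (a b : K4) :
    E p q (a + b) = E p q a * E p q b := by
  have h : Commute p q := hpq
  show p ^ (a.re + b.re).val * q ^ (a.im + b.im).val = p ^ a.re.val * q ^ a.im.val * (p ^ b.re.val * q ^ b.im.val)
  rw [pow_val_add hp, pow_val_add hq, mul_assoc, mul_assoc, ← mul_assoc (p ^ b.re.val), ← mul_assoc (q ^ a.im.val),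
    (h.pow_pow b.re.val a.im.val).eq]

theorem E_eq_one {p q : G} (hp : p * p = 1) (hq : q * q = 1) (hpq : p * q = q * p) (h1 : p ≠ 1) (h2 : q ≠ 1) (h3 : p * q ≠ 1)
    {a : K4} (h : E p q a = 1) : a = 0 := by
  rcases casesK a with e | e | e | e
  · exact e
  · rw [e, E_one] at h; exact absurd h h1
  · rw [e, E_om] at h; exact absurd h h2
  · rw [e, E_add hp hq hpq, E_one, E_om] at h; exact absurd h h3

end E

namespace Dat
variable {G : Type*} [Group G] [Finite G] {ρ : MulAut G}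

theorem rsq (D : Dat G ρ) {v : G} (hv : v * v = 1) : ρ v * ρ v = 1 := by rw [← map_mul, hv, map_one]

theorem tz2 (D : Dat G ρ) (z : G) (hz : z ∈ center G) : z * ρ (ρ z) = ρ z := by
  rw [← D.tz z hz, ← mul_assoc, D.two z hz, one_mul]

theorem bilin (D : Dat G ρ) {v w : G} (hv : v * v = 1) (hw : w * w = 1) (b a : K4) :
    ⁅E w (ρ w) b, E v (ρ v) a⁆ = E ⁅w, v⁆ (ρ (ρ ⁅w, v⁆)) (b * a) := by
  have cv := comm_rho ρ D.r3 D.fp v
  have cw := comm_rho ρ D.r3 D.fp w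
  have hz := D.cen w v
  have hz2 := D.two _ hz
  have hρz := center_rho ρ _ hz
  have hρρz := center_rho ρ _ hρz
  have hzz : ⁅w, v⁆ * ρ (ρ ⁅w, v⁆) = ρ (ρ ⁅w, v⁆) * ⁅w, v⁆ := cc _ hρρz _
  have aV := E_add hv (D.rsq hv) cv
  have aW := E_add hw (D.rsq hw) cw
  have aZ := E_add hz2 (D.rsq (D.rsq hz2)) hzz
  have L : ∀ b b' a : K4, ⁅E w (ρ w) b, E v (ρ v) a⁆ = E ⁅w, v⁆ (ρ (ρ ⁅w, v⁆)) (b * a) →
      ⁅E w (ρ w) b', E v (ρ v) a⁆ = E ⁅w, v⁆ (ρ (ρ ⁅w, v⁆)) (b' * a) →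
      ⁅E w (ρ w) (b + b'), E v (ρ v) a⁆ = E ⁅w, v⁆ (ρ (ρ ⁅w, v⁆)) ((b + b') * a) := by
    intro b b' a h h'
    rw [aW, D.bl, add_mul, aZ, h, h']
  have R : ∀ b a a' : K4, ⁅E w (ρ w) b, E v (ρ v) a⁆ = E ⁅w, v⁆ (ρ (ρ ⁅w, v⁆)) (b * a) →
      ⁅E w (ρ w) b, E v (ρ v) a'⁆ = E ⁅w, v⁆ (ρ (ρ ⁅w, v⁆)) (b * a') →
      ⁅E w (ρ w) b, E v (ρ v) (a + a')⁆ = E ⁅w, v⁆ (ρ (ρ ⁅w, v⁆)) (b * (a + a')) := by
    intro b a a' h h'
    rw [aV, D.br, mul_add, aZ, h, h']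
  have p11 : ⁅E w (ρ w) 1, E v (ρ v) 1⁆ = E ⁅w, v⁆ (ρ (ρ ⁅w, v⁆)) (1 * 1) := by
    rw [E_one, E_one, mul_one, E_one]
  have p1o : ⁅E w (ρ w) 1, E v (ρ v) om⁆ = E ⁅w, v⁆ (ρ (ρ ⁅w, v⁆)) (1 * om) := by
    rw [E_one, E_om, one_mul, E_om, D.key2]
  have po1 : ⁅E w (ρ w) om, E v (ρ v) 1⁆ = E ⁅w, v⁆ (ρ (ρ ⁅w, v⁆)) (om * 1) := by
    rw [E_one, E_om, mul_one, E_om, D.key3]
  have poo : ⁅E w (ρ w) om, E v (ρ v) om⁆ = E ⁅w, v⁆ (ρ (ρ ⁅w, v⁆)) (om * om) := by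
    have e : om * om = 1 + om := by rfl
    rw [e, aZ, E_one, E_om, E_om, E_om, ← D.rc, D.tz2 _ hz]
  rcases casesK b with rfl | rfl | rfl | rfl
  · rw [E_zero, zero_mul, E_zero, commutatorElement_one_left]
  · rcases casesK a with rfl | rfl | rfl | rfl
    · rw [E_zero, mul_zero, E_zero, commutatorElement_one_right]
    · exact p11
    · exact p1o
    · exact R _ _ _ p11 p1o
  · rcases casesK a with rfl | rfl | rfl | rfl
    · rw [E_zero, mul_zero, E_zero, commutatorElement_one_right]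
    · exact po1
    · exact poo
    · exact R _ _ _ po1 poo
  · rcases casesK a with rfl | rfl | rfl | rfl
    · rw [E_zero, mul_zero, E_zero, commutatorElement_one_right]
    · exact L _ _ _ p11 po1
    · exact L _ _ _ p1o poo
    · exact L _ _ _ (R _ _ _ p11 p1o) (R _ _ _ po1 poo)

theorem identify (D : Dat G ρ) {v w : G} (hv : v * v = 1) (hw : w * w = 1) (hvw : ⁅w, v⁆ ≠ 1) :
    Nonempty (G ≃* uni K4) := by
  have cv := comm_rho ρ D.r3 D.fp v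
  have cw := comm_rho ρ D.r3 D.fp w
  have hz := D.cen w v
  have hz2 := D.two _ hz
  have hρz := center_rho ρ _ hz
  have hρρz := center_rho ρ _ hρz
  have hzz : ⁅w, v⁆ * ρ (ρ ⁅w, v⁆) = ρ (ρ ⁅w, v⁆) * ⁅w, v⁆ := cc _ hρρz _
  have aV := E_add hv (D.rsq hv) cv
  have aW := E_add hw (D.rsq hw) cw
  have aZ := E_add hz2 (D.rsq (D.rsq hz2)) hzz
  have cZ : ∀ c : K4, E ⁅w, v⁆ (ρ (ρ ⁅w, v⁆)) c ∈ center G := fun c =>
    (center G).mul_mem ((center G).pow_mem hz _) ((center G).pow_mem hρρz _)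
  have iZ : ∀ c : K4, E ⁅w, v⁆ (ρ (ρ ⁅w, v⁆)) c = 1 → c = 0 := fun c h =>
    E_eq_one hz2 (D.rsq (D.rsq hz2)) hzz hvw (D.rne (D.rne hvw)) (by rw [D.tz2 _ hz]; exact D.rne hvw) h
  let φ : uni K4 →* G := MonoidHom.mk' (fun M => E v (ρ v) (M.1.1 1 2) * E w (ρ w) (M.1.1 0 1) * E ⁅w, v⁆ (ρ (ρ ⁅w, v⁆)) (M.1.1 0 2)) (by
    rintro ⟨M, m1, m2, m3, m4, m5, m6⟩ ⟨N, n1, n2, n3, n4, n5, n6⟩
    have e : (M * N).1 = M.1 * N.1 := rfl
    have e12 : (M * N).1 1 2 = M.1 1 2 + N.1 1 2 := by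
      rw [e, Matrix.mul_apply, Fin.sum_univ_three, m1, m5, n6]; ring
    have e01 : (M * N).1 0 1 = M.1 0 1 + N.1 0 1 := by
      rw [e, Matrix.mul_apply, Fin.sum_univ_three, m4, n5, n3]; ring
    have e02 : (M * N).1 0 2 = M.1 0 2 + N.1 0 2 + M.1 0 1 * N.1 1 2 := by
      rw [e, Matrix.mul_apply, Fin.sum_univ_three, m4, n6]; ring
    show E v (ρ v) ((M * N).1 1 2) * E w (ρ w) ((M * N).1 0 1) * E ⁅w, v⁆ (ρ (ρ ⁅w, v⁆)) ((M * N).1 0 2) =
      (E v (ρ v) (M.1 1 2) * E w (ρ w) (M.1 0 1) * E ⁅w, v⁆ (ρ (ρ ⁅w, v⁆)) (M.1 0 2)) *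
      (E v (ρ v) (N.1 1 2) * E w (ρ w) (N.1 0 1) * E ⁅w, v⁆ (ρ (ρ ⁅w, v⁆)) (N.1 0 2))
    rw [e12, e01, e02, aV, aW, aZ, aZ, ← D.bilin hv hw]
    have s1 := D.sw (E v (ρ v) (N.1 1 2)) (E w (ρ w) (M.1 0 1))
    rw [D.bs] at s1
    have c1 := cc _ (cZ (M.1 0 2))
    have c2 := cc _ (D.cen (E w (ρ w) (M.1 0 1)) (E v (ρ v) (N.1 1 2)))
    have c3 := cc _ (cZ (N.1 0 2))
    generalize E ⁅w, v⁆ (ρ (ρ ⁅w, v⁆)) (M.1 0 2) = x3 at *
    generalize E ⁅w, v⁆ (ρ (ρ ⁅w, v⁆)) (N.1 0 2) = y3 at *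
    generalize ⁅E w (ρ w) (M.1 0 1), E v (ρ v) (N.1 1 2)⁆ = k at *
    generalize E v (ρ v) (M.1 1 2) = x1 at *
    generalize E w (ρ w) (M.1 0 1) = x2 at *
    generalize E v (ρ v) (N.1 1 2) = y1 at *
    generalize E w (ρ w) (N.1 0 1) = y2 at *
    have t1 : x1 * x2 * x3 * (y1 * y2 * y3) = x1 * (x2 * (x3 * y1)) * y2 * y3 := by group
    rw [t1, ← c1 y1]
    have t2 : x1 * (x2 * (y1 * x3)) * y2 * y3 = x1 * ((x2 * y1) * (x3 * y2)) * y3 := by group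
    rw [t2, ← c1 y2, s1]
    have t3 : x1 * (y1 * x2 * k * (y2 * x3)) * y3 = x1 * (y1 * x2 * (k * (y2 * x3 * y3))) := by group
    rw [t3, ← c2 (y2 * x3 * y3)]
    group)
  have hφ : ∀ M : uni K4, φ M = E v (ρ v) (M.1.1 1 2) * E w (ρ w) (M.1.1 0 1) * E ⁅w, v⁆ (ρ (ρ ⁅w, v⁆)) (M.1.1 0 2) := fun _ => rfl
  have hinj : Function.Injective φ := by
    rw [← MonoidHom.ker_eq_bot_iff, eq_bot_iff]
    rintro M hM
    rw [MonoidHom.mem_ker, hφ] at hM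
    have k1 : ⁅E v (ρ v) (M.1.1 1 2), v⁆ = 1 := by
      rw [commutatorElement_eq_one_iff_mul_comm]
      have e1 := aV (M.1.1 1 2) 1
      have e2 := aV 1 (M.1.1 1 2)
      rw [E_one] at e1 e2
      rw [← e1, ← e2, add_comm]
    have k2 : ⁅E w (ρ w) (M.1.1 0 1), w⁆ = 1 := by
      rw [commutatorElement_eq_one_iff_mul_comm]
      have e1 := aW (M.1.1 0 1) 1
      have e2 := aW 1 (M.1.1 0 1)
      rw [E_one] at e1 e2
      rw [← e1, ← e2, add_comm]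
    have k3 : ⁅E w (ρ w) (M.1.1 0 1), v⁆ = E ⁅w, v⁆ (ρ (ρ ⁅w, v⁆)) (M.1.1 0 1) := by
      have := D.bilin hv hw (M.1.1 0 1) 1
      rwa [E_one, mul_one] at this
    have k4 : ⁅E v (ρ v) (M.1.1 1 2), w⁆ = E ⁅w, v⁆ (ρ (ρ ⁅w, v⁆)) (M.1.1 1 2) := by
      have := D.bilin hv hw 1 (M.1.1 1 2)
      rw [E_one, one_mul] at this
      rw [D.bs]; exact this
    have k5 := congrArg (fun g => ⁅g, v⁆) hM
    simp only [D.bl, commutatorElement_one_left, k1, k3, D.bz _ (cZ _), one_mul, mul_one] at k5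
    have k6 := congrArg (fun g => ⁅g, w⁆) hM
    simp only [D.bl, commutatorElement_one_left, k2, k4, D.bz _ (cZ _), one_mul, mul_one] at k6
    have a0 := iZ _ k6
    have b0 := iZ _ k5
    rw [a0, b0, E_zero, E_zero, one_mul, one_mul] at hM
    have c0 := iZ _ hM
    obtain ⟨M, m1, m2, m3, m4, m5, m6⟩ := M
    rw [Subgroup.mem_bot]
    apply Subtype.ext
    apply Subtype.ext
    show M.1 = 1
    refine Matrix.ext fun i j => ?_
    fin_cases i <;> fin_cases j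
    · simpa using m4
    · simpa using b0
    · simpa using c0
    · simpa using m1
    · simpa using m5
    · simpa using a0
    · simpa using m2
    · simpa using m3
    · simpa using m6
  have hbij : Function.Bijective φ := by
    rw [Nat.bijective_iff_injective_and_card]
    refine ⟨hinj, ?_⟩
    rw [card_uni, card_K4, D.card]
    norm_num
  exact ⟨(MulEquiv.ofBijective φ hbij).symm⟩

end Dat

end Cfsg.Agent.H22.O64
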