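import Cfsg.Agent.H22.Ord64c

set_option autoImplicit false
set_option linter.all false

/-! Groups of order 64 with a fixed-point-free automorphism of order three: the symmetric case. -/

namespace Cfsg.Agent.H22.O64

open Subgroup
open scoped commutatorElement

namespace Dat
variable {G : Type*} [Group G] [Finite G] {ρ : MulAut G}

theorem center_x (x : MulAut G) (s : G) (hs : s ∈ center G) : x s ∈ center G := center_rho x s hs

theorem exc (D : Dat G ρ) (x : MulAut G) (hxr : ∀ y, x (ρ y) = ρ (ρ (x y))) :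
    ∃ c ∈ center G, c ≠ 1 ∧ x c = c := by
  have h1 : 1 < Nat.card (center G) := by rw [D.cardZ]; norm_num
  haveI : Nontrivial (center G) := Finite.one_lt_card_iff_nontrivial.1 h1
  obtain ⟨⟨z, hz⟩, hz1⟩ := exists_ne (1 : center G)
  have hz1' : z ≠ 1 := fun h => hz1 (Subtype.ext h)
  rcases D.elts hz hz1' (center_x x z hz) with h | h | h | h
  · exact absurd (x.injective (h.trans (map_one x).symm)) hz1'
  · exact ⟨z, hz, hz1', h⟩
  · refine ⟨ρ (ρ z), center_rho ρ _ (center_rho ρ _ hz), D.rne (D.rne hz1'), ?_⟩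
    rw [hxr, hxr, h, D.r3]
  · refine ⟨ρ z, center_rho ρ _ hz, D.rne hz1', ?_⟩
    rw [hxr, h, D.r3]

theorem main (D : Dat G ρ) (x : MulAut G) (hx2 : ∀ y, x (x y) = y) (hxr : ∀ y, x (ρ y) = ρ (ρ (x y))) :
    ∃ c ∈ center G, c ≠ 1 ∧ x c = c ∧ (∀ z ∈ center G, x z = z → z = 1 ∨ z = c) ∧
      ∃ t1 t2 : G, x t1 = t1 ∧ x t2 = t2 ∧ ⁅t1, t2⁆ = c := by
  obtain ⟨c, hc, hc1, hxc⟩ := D.exc x hxr
  have hfix : ∀ z ∈ center G, x z = z → z = 1 ∨ z = c := by
    intro z hz hxz
    rcases D.elts hc hc1 hz with h | h | h | h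
    · exact Or.inl h
    · exact Or.inr h
    · exfalso
      rw [h, hxr, hxc] at hxz
      exact D.rne2 hc1 hxz
    · exfalso
      rw [h, hxr, hxr, hxc, D.r3] at hxz
      exact D.rne2 hc1 hxz.symm
  have hadj : ∀ t : G, t⁻¹ * x t ∈ center G → ∃ z ∈ center G, x (t * z) = t * z := by
    intro t ht
    have h1 : x (t⁻¹ * x t) = t⁻¹ * x t := by
      rw [map_mul, map_inv, hx2]
      have h2 := D.two _ ht
      have h3 : (x t)⁻¹ * t = (t⁻¹ * x t)⁻¹ := by group
      rw [h3]
      exact inv_eq_of_mul_eq_one_left h2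
    rcases hfix _ ht h1 with h | h
    · refine ⟨1, (center G).one_mem, ?_⟩
      rw [mul_one]
      exact (inv_mul_eq_one.1 h).symm
    · refine ⟨ρ c, center_rho ρ _ hc, ?_⟩
      have h2 : x t = t * c := by rw [← h]; group
      rw [map_mul, h2, hxr, hxc, mul_assoc]
      have h3 : c * ρ (ρ c) = ρ c := by
        rw [← D.tz c hc, ← mul_assoc, D.two c hc, one_mul]
      rw [h3]
  have hU : ∀ t : G, ∃ z ∈ center G, x ((t * x t) * z) = (t * x t) * z := by
    intro t
    apply hadj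
    rw [map_mul, hx2]
    have : (t * x t)⁻¹ * (x t * t) = ⁅(x t)⁻¹, t⁻¹⁆ := by
      rw [commutatorElement_def]; group
    rw [this]
    exact D.cen _ _
  have hdec : ∀ t : G, ∃ a b z : G, x a = a ∧ x b = b ∧ z ∈ center G ∧ t = a * ρ b * z := by
    intro t
    obtain ⟨z1, hz1, h1⟩ := hU t
    obtain ⟨z2, hz2, h2⟩ := hU (ρ t)
    set u := t * x t with hu
    set v := ρ t * x (ρ t) with hv
    have e1 : v * u * ρ u = t * (ρ t * ρ t) := by
      have f1 : x t = t⁻¹ * u := by rw [hu]; group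
      have f2 : ρ (ρ t) = (t * ρ t)⁻¹ := (inv_eq_of_mul_eq_one_right (triple ρ D.r3 D.fp t)).symm
      have f3 : ρ (ρ u) = (u * ρ u)⁻¹ := (inv_eq_of_mul_eq_one_right (triple ρ D.r3 D.fp u)).symm
      rw [hv, hxr, f1, map_mul, map_mul, map_inv, map_inv, f2, f3]
      have f4 := comm_rho ρ D.r3 D.fp t
      have : ρ t * ((t * ρ t)⁻¹⁻¹ * (u * ρ u)⁻¹) * u * ρ u = (ρ t * t) * ρ t := by group
      rw [this, ← f4]; group
    refine ⟨(v * z2) * (u * z1), u * z1, (((v * z2) * (u * z1)) * ρ (u * z1))⁻¹ * t, ?_, h1, ?_, by group⟩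
    · rw [map_mul, h1, h2]
    · have g1 := cc _ hz1
      have g2 := cc _ hz2
      have g3 := cc _ (center_rho ρ _ hz1)
      have e2 : ((v * z2) * (u * z1)) * ρ (u * z1) = t * (ρ t * ρ t) * (z2 * z1 * ρ z1) := by
        rw [← e1, map_mul]
        have k1 : v * z2 * (u * z1) * (ρ u * ρ z1) = v * (z2 * u) * (z1 * ρ u) * ρ z1 := by group
        rw [k1, ← g1 (ρ u), ← g2 u]
        have k2 : v * (u * z2) * (ρ u * z1) * ρ z1 = v * u * (z2 * ρ u) * z1 * ρ z1 := by group
        rw [k2, ← g2 (ρ u)]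
        group
      rw [e2]
      have hc1 : z2 * z1 * ρ z1 ∈ center G := (center G).mul_mem ((center G).mul_mem hz2 hz1) (center_rho ρ _ hz1)
      have hc2 := D.sq (ρ t)
      have e3 : (t * (ρ t * ρ t) * (z2 * z1 * ρ z1))⁻¹ * t = ((z2 * z1 * ρ z1)⁻¹ * (ρ t * ρ t)⁻¹) := by
        group
      rw [e3]
      exact (center G).mul_mem ((center G).inv_mem hc1) ((center G).inv_mem hc2)
  refine ⟨c, hc, hc1, hxc, hfix, ?_⟩
  by_contra hcon
  push Not at hcon
  have hC : ∀ a b : G, x a = a → x b = b → ⁅a, b⁆ = 1 := by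
    intro a b ha hb
    have h1 : x ⁅a, b⁆ = ⁅a, b⁆ := by rw [map_commutatorElement, ha, hb]
    rcases hfix _ (D.cen a b) h1 with h | h
    · exact h
    · exact absurd h (hcon a b ha hb)
  have hall : ∀ a b : G, a * b = b * a := by
    intro a b
    rw [← commutatorElement_eq_one_iff_mul_comm]
    obtain ⟨a1, a2, z, ha1, ha2, hz, rfl⟩ := hdec a
    obtain ⟨b1, b2, z', hb1, hb2, hz', rfl⟩ := hdec b
    simp only [D.bl, D.br, D.bz z hz, D.bz' z' hz', D.key2, D.key3, hC a1 b1 ha1 hb1, hC a1 b2 ha1 hb2, hC a2 b1 ha2 hb1, hC a2 b2 ha2 hb2, map_one, mul_one]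
  have htop : center G = ⊤ := by
    rw [eq_top_iff]
    intro g _
    rw [mem_center_iff]
    intro h
    exact hall h g
  have h1 := D.cardZ
  rw [htop, Subgroup.card_top, D.card] at h1
  omega

theorem fin (D : Dat G ρ) (x : MulAut G) (hx2 : ∀ y, x (x y) = y) (hxr : ∀ y, x (ρ y) = ρ (ρ (x y)))
    (C : Subgroup G) (hC : ∀ y : G, y ∈ C ↔ x y = y) :
    (∃ v w : G, v * v = 1 ∧ w * w = 1 ∧ ⁅w, v⁆ ≠ 1) ∧
    (Nonempty (↥C ≃* DihedralGroup 4) ∨ Nonempty (↥C ≃* QuaternionGroup 2)) := by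
  classical
  obtain ⟨c, hc, hc1, hxc, hfix, t1, t2, h1, h2, h12⟩ := D.main x hx2 hxr
  have hq : ∀ t : G, x t = t → t * t = 1 ∨ t * t = c := by
    intro t ht
    apply hfix _ (D.sq t)
    rw [map_mul, ht]
  have h21 : ⁅t2, t1⁆ = c := by rw [D.bs, h12]
  have hcc := D.two c hc
  have hρcc : ρ c * ρ c = 1 := by rw [← map_mul, hcc, map_one]
  constructor
  · rcases hq t1 h1 with q1 | q1
    · rcases hq t2 h2 with q2 | q2
      · exact ⟨t1, t2, q1, q2, by rw [h21]; exact hc1⟩
      · refine ⟨t1, t1 * t2, q1, ?_, ?_⟩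
        · rw [D.sqm, q1, q2, h12, one_mul, hcc]
        · rw [D.bl, commutatorElement_self, h21, one_mul]; exact hc1
    · rcases hq t2 h2 with q2 | q2
      · refine ⟨t2, t1 * t2, q2, ?_, ?_⟩
        · rw [D.sqm, q1, q2, h12, mul_one, hcc]
        · rw [D.bl, commutatorElement_self, h12, mul_one]; exact hc1
      · refine ⟨t1 * ρ t2, ρ t1 * t2, ?_, ?_, ?_⟩
        · rw [D.sqm, D.key2, h12, ← map_mul, q1, q2]
          exact triple ρ D.r3 D.fp c
        · rw [D.sqm, D.key3, h12, ← map_mul, q1, q2, ← comm_rho ρ D.r3 D.fp c]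
          exact triple ρ D.r3 D.fp c
        · have e1 := D.b1 t1
          have e2 := D.b1 t2
          rw [D.bl, D.br, D.br, D.bs (ρ t1) t1, e1, e2, one_mul, mul_one, ← D.rc, h12, h21,
            ← comm_rho ρ D.r3 D.fp c, D.tz c hc]
          exact D.rne (D.rne hc1)
  · have ht1 : t1 ∈ C := (hC t1).2 h1
    have ht2 : t2 ∈ C := (hC t2).2 h2
    have hcC : c ∈ C := (hC c).2 hxc
    have hmem : ∀ z, z ∈ zpowers c ↔ z = 1 ∨ z = c := by
      intro z
      constructor
      · rintro hz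
        obtain ⟨k, rfl⟩ := Subgroup.mem_zpowers_iff.1 hz
        have hc' : c ^ (2 : ℤ) = 1 := by rw [zpow_two]; exact hcc
        rcases Int.even_or_odd' k with ⟨m, rfl | rfl⟩
        · left; rw [zpow_mul, hc', one_zpow]
        · right; rw [zpow_add, zpow_mul, hc', one_zpow, one_mul, zpow_one]
      · rintro (rfl | rfl)
        · exact one_mem _
        · exact mem_zpowers _
    have hcK : Nat.card (zpowers c) = 2 := by
      rw [Nat.card_zpowers]
      exact orderOf_eq_prime (by rw [pow_two, hcc]) hc1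
    have hβ : ∀ g t : G, x g = g → x t = t → ⁅g, t⁆ ∈ zpowers c := by
      intro g t hg ht
      rw [hmem]
      apply hfix _ (D.cen g t)
      rw [map_commutatorElement, hg, ht]
    let β : ∀ t : G, x t = t → (C →* zpowers c) := fun t ht =>
      MonoidHom.mk' (fun g : C => (⟨⁅g.1, t⁆, hβ g.1 t ((hC _).1 g.2) ht⟩ : zpowers c)) (fun a b => Subtype.ext (D.bl a.1 b.1 t))
    let f : C →* zpowers c × zpowers c := (β t1 h1).prod (β t2 h2)
    have hf : ∀ g : C, f g = (⟨⁅g.1, t1⁆, hβ g.1 t1 ((hC _).1 g.2) h1⟩, ⟨⁅g.1, t2⁆, hβ g.1 t2 ((hC _).1 g.2) h2⟩) := fun _ => rfl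
    have hs : Function.Surjective f := by
      rintro ⟨⟨z1, hz1⟩, ⟨z2, hz2⟩⟩
      rcases (hmem _).1 hz1 with e1 | e1 <;> rcases (hmem _).1 hz2 with e2 | e2
      · refine ⟨1, ?_⟩
        rw [hf]
        refine Prod.ext (Subtype.ext ?_) (Subtype.ext ?_)
        · show ⁅(1 : G), t1⁆ = z1
          rw [e1, commutatorElement_one_left]
        · show ⁅(1 : G), t2⁆ = z2
          rw [e2, commutatorElement_one_left]
      · refine ⟨⟨t1, ht1⟩, ?_⟩
        rw [hf]
        refine Prod.ext (Subtype.ext ?_) (Subtype.ext ?_)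
        · show ⁅t1, t1⁆ = z1
          rw [e1, commutatorElement_self]
        · show ⁅t1, t2⁆ = z2
          rw [e2, h12]
      · refine ⟨⟨t2, ht2⟩, ?_⟩
        rw [hf]
        refine Prod.ext (Subtype.ext ?_) (Subtype.ext ?_)
        · show ⁅t2, t1⁆ = z1
          rw [e1, h21]
        · show ⁅t2, t2⁆ = z2
          rw [e2, commutatorElement_self]
      · refine ⟨⟨t1, ht1⟩ * ⟨t2, ht2⟩, ?_⟩
        rw [hf]
        refine Prod.ext (Subtype.ext ?_) (Subtype.ext ?_)
        · show ⁅t1 * t2, t1⁆ = z1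
          rw [e1, D.bl, commutatorElement_self, h21, one_mul]
        · show ⁅t1 * t2, t2⁆ = z2
          rw [e2, D.bl, commutatorElement_self, h12, mul_one]
    have hne : ⁅t1, t2⁆ ≠ 1 := by rw [h12]; exact hc1
    have hker : f.ker = (zpowers c).subgroupOf C := by
      ext g
      rw [MonoidHom.mem_ker, mem_subgroupOf, hf, hmem]
      constructor
      · intro h
        have k1 : ⁅g.1, t1⁆ = 1 := congrArg Subtype.val (congrArg Prod.fst h)
        have k2 : ⁅g.1, t2⁆ = 1 := congrArg Subtype.val (congrArg Prod.snd h)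
        exact hfix _ (D.joint hne k1 k2) ((hC _).1 g.2)
      · intro h
        have hgc : g.1 ∈ center G := by
          rcases h with h | h
          · rw [h]; exact one_mem _
          · rw [h]; exact hc
        refine Prod.ext (Subtype.ext ?_) (Subtype.ext ?_)
        · exact D.bz g.1 hgc t1
        · exact D.bz g.1 hgc t2
    have hCc : Nat.card C = 8 := by
      have e1 := card_eq_card_quotient_mul_card_subgroup f.ker
      have hle : zpowers c ≤ C := (zpowers_le).2 hcC
      rw [Nat.card_congr (QuotientGroup.quotientKerEquivOfSurjective f hs).toEquiv, Nat.card_prod, hcK, hker,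
        Nat.card_congr (subgroupOfEquivOfLe hle).toEquiv, hcK] at e1
      exact e1
    apply ord8 (G := C) hCc (a := ⟨t1, ht1⟩) (b := ⟨t2, ht2⟩) (c := ⟨c, hcC⟩)
    · exact Subtype.ext hcc
    · intro h; exact hc1 (congrArg Subtype.val h)
    · intro g; exact Subtype.ext (cc c hc g.1)
    · rcases hq t1 h1 with q | q
      · exact Or.inl (Subtype.ext q)
      · exact Or.inr (Subtype.ext q)
    · rcases hq t2 h2 with q | q
      · exact Or.inl (Subtype.ext q)
      · exact Or.inr (Subtype.ext q)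
    · apply Subtype.ext
      show t2 * t1 = t1 * t2 * c
      rw [D.sw t1 t2, h12]

end Dat

end Cfsg.Agent.H22.O64
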