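import Cfsg.Agent.H22.Perm

set_option autoImplicit false
set_option linter.all false

/-!
# Quasiprimitive groups with Jordan sets, seat helper22
-/

namespace Cfsg.Agent.H22

open MulAction
open scoped Pointwise

section
variable {G Ω : Type*} [Group G] [MulAction G Ω]

/-- elementwise form of transitivity on a Jordan set -/
theorem jordan_elim {Γ : Set Ω}
    (hJ : IsPretransitive ↥(fixingSubgroup G Γᶜ) ↥(SubMulAction.ofFixingSubgroup G Γᶜ)) :
    ∀ x ∈ Γ, ∀ y ∈ Γ, ∃ g : G, (∀ z ∉ Γ, g • z = z) ∧ g • x = y := by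
  intro x hx y hy
  have hx' : x ∈ SubMulAction.ofFixingSubgroup G Γᶜ := by
    rw [SubMulAction.mem_ofFixingSubgroup_iff]; simpa using hx
  have hy' : y ∈ SubMulAction.ofFixingSubgroup G Γᶜ := by
    rw [SubMulAction.mem_ofFixingSubgroup_iff]; simpa using hy
  obtain ⟨g, hg⟩ := hJ.exists_smul_eq ⟨x, hx'⟩ ⟨y, hy'⟩
  refine ⟨g, fun z hz => (mem_fixingSubgroup_iff G).1 g.2 z hz, ?_⟩
  exact congrArg Subtype.val hg

theorem jordan_intro {Γ : Set Ω}
    (h : ∀ x ∈ Γ, ∀ y ∈ Γ, ∃ g : G, (∀ z ∉ Γ, g • z = z) ∧ g • x = y) :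
    IsPretransitive ↥(fixingSubgroup G Γᶜ) ↥(SubMulAction.ofFixingSubgroup G Γᶜ) := by
  constructor
  rintro ⟨x, hx⟩ ⟨y, hy⟩
  rw [SubMulAction.mem_ofFixingSubgroup_iff] at hx hy
  obtain ⟨g, hg, hgx⟩ := h x (by simpa using hx) y (by simpa using hy)
  refine ⟨⟨g, (mem_fixingSubgroup_iff G).2 (fun z hz => hg z hz)⟩, ?_⟩
  exact Subtype.ext hgx

/-- a Jordan set contained in a proper block of a quasiprimitive group is impossible -/
theorem not_subset_block [FaithfulSMul G Ω]
    (hqp : ∀ N : Subgroup G, N.Normal → N ≠ ⊥ → IsPretransitive ↥N Ω)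
    {Γ : Set Ω} (hΓ : Γ.Nontrivial)
    (hJ : ∀ x ∈ Γ, ∀ y ∈ Γ, ∃ g : G, (∀ z ∉ Γ, g • z = z) ∧ g • x = y)
    {B : Set Ω} (hB : IsBlock G B) (hBu : B ≠ Set.univ) (hΓB : Γ ⊆ B) : False := by
  -- the normal closure of an element of the Jordan group fixes every translate of `B`
  obtain ⟨x, hx, y, hy, hxy⟩ := hΓ
  obtain ⟨g, hg, hgx⟩ := hJ x hx y hy
  have hg1 : g ≠ 1 := by
    rintro rfl
    exact hxy (by simpa using hgx)
  let N := Subgroup.normalClosure ({g} : Set G)
  have hN1 : N ≠ ⊥ := by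
    intro h
    have : g ∈ N := Subgroup.subset_normalClosure (Set.mem_singleton g)
    rw [h, Subgroup.mem_bot] at this
    exact hg1 this
  have hNt := hqp N inferInstance hN1
  -- every conjugate of g fixes every translate of B
  have hblk : ∀ u v : G, u • B = v • B ∨ Disjoint (u • B) (v • B) := fun u v => by
    rcases isBlock_iff_smul_eq_smul_or_disjoint.1 hB (g₁ := u) (g₂ := v) with h | h
    · exact Or.inl h
    · exact Or.inr h
  have hBne : B.Nonempty := ⟨x, hΓB hx⟩
  -- g fixes every translate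
  have hfix : ∀ u : G, g • (u • B) = u • B := by
    intro u
    rw [← mul_smul]
    rcases hblk (g * u) u with h | h
    · exact h
    · exfalso
      rcases hblk u 1 with h' | h'
      · -- u • B = B
        rw [one_smul] at h'
        rw [mul_smul, h'] at h
        rw [Set.disjoint_left] at h
        apply h (a := g • x) (Set.smul_mem_smul_set (hΓB hx))
        rw [hgx]; exact hΓB hy
      · rw [one_smul] at h'
        rw [Set.disjoint_left] at h h'
        obtain ⟨z, hz⟩ := hBne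
        have h1 : u • z ∉ Γ := fun hmem => h' (Set.smul_mem_smul_set hz) (hΓB hmem)
        apply h (a := (g * u) • z) (Set.smul_mem_smul_set hz)
        rw [mul_smul, hg _ h1]
        exact Set.smul_mem_smul_set hz
  have hNfix : N ≤ stabilizer G B := by
    show Subgroup.normalClosure ({g} : Set G) ≤ _
    rw [Subgroup.normalClosure, Subgroup.closure_le]
    intro c hc
    rw [Group.mem_conjugatesOfSet_iff] at hc
    obtain ⟨a, ha, hac⟩ := hc
    rw [Set.mem_singleton_iff] at ha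
    subst ha
    obtain ⟨c', rfl⟩ := isConj_iff.1 hac
    show (c' * a * c'⁻¹) • B = B
    rw [mul_smul, mul_smul, hfix, smul_inv_smul]
  apply hBu
  rw [Set.eq_univ_iff_forall]
  intro z
  obtain ⟨n, hn⟩ := hNt.exists_smul_eq x z
  have h1 : (n : G) • B = B := hNfix n.2
  have h2 : (n : G) • x = z := hn
  rw [← h2, ← h1]
  exact Set.smul_mem_smul_set (hΓB hx)

/-- dichotomy: a Jordan set is contained in a given block, or contains every block that it meets -/
theorem jordan_block_dichotomy {Γ : Set Ω}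
    (hJ : ∀ x ∈ Γ, ∀ y ∈ Γ, ∃ g : G, (∀ z ∉ Γ, g • z = z) ∧ g • x = y)
    {B : Set Ω} (hB : IsBlock G B) (hmeet : (B ∩ Γ).Nonempty) : Γ ⊆ B ∨ B ⊆ Γ := by
  by_cases h : B ⊆ Γ
  · exact Or.inr h
  left
  rw [Set.not_subset] at h
  obtain ⟨z, hzB, hzΓ⟩ := h
  obtain ⟨x, hxB, hxΓ⟩ := hmeet
  intro y hy
  obtain ⟨g, hg, hgx⟩ := hJ x hxΓ y hy
  have : g • B = B := by
    rcases isBlock_iff_smul_eq_or_disjoint.1 hB g with h' | h'
    · exact h'
    · exfalso
      rw [Set.disjoint_left] at h'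
      apply h' (Set.smul_mem_smul_set hzB)
      rw [hg z hzΓ]; exact hzB
  rw [← hgx, ← this]
  exact Set.smul_mem_smul_set hxB

end

end Cfsg.Agent.H22
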