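import Cfsg.Agent.H22.JanE
import Cfsg.Agent.H22.SemiDir

set_option autoImplicit false
set_option linter.all false

/-! The spectrum of `J1 x J1 x J1 x J1`. -/

namespace Cfsg.Agent.H22.J1

open Cfsg.Spor (jankoX jankoY)

theorem gcd_lcm' {d m n : ℕ} (h : m.Coprime n) : Nat.lcm (Nat.gcd d m) (Nat.gcd d n) = Nat.gcd d (m * n) := by
  rw [Nat.Coprime.gcd_mul d h, Nat.Coprime.lcm_eq_mul]
  exact Nat.Coprime.of_dvd (Nat.gcd_dvd_right _ _) (Nat.gcd_dvd_right _ _) h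

/-- a proper divisor of `43890 = 2 * 3 * 5 * 7 * 11 * 19` misses one of the primes -/
theorem proper_div {d : ℕ} (hd : d ∣ 43890) (hne : d ≠ 43890) : d ∣ 21945 ∨ d ∣ 14630 ∨ d ∣ 8778 ∨ d ∣ 6270 ∨ d ∣ 3990 ∨ d ∣ 2310 := by
  obtain ⟨k, hk⟩ := hd
  have hk1 : k ≠ 1 := by rintro rfl; rw [mul_one] at hk; exact hne hk.symm
  obtain ⟨q, hq, hqk⟩ := Nat.exists_prime_and_dvd hk1
  have hq2 : q ∣ 43890 := by rw [hk]; exact hqk.mul_left d
  have e : 43890 = 2 * 3 * 5 * 7 * 11 * 19 := by norm_num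
  obtain ⟨j, rfl⟩ := hqk
  have hdj : d ∣ d * j := Dvd.intro _ rfl
  have hk2 : 43890 = q * (d * j) := by rw [hk]; ring
  rw [e] at hq2
  simp only [hq.dvd_mul] at hq2
  have hcase : ∀ r : ℕ, r.Prime → q ∣ r → q = r := fun r hr h => (Nat.prime_dvd_prime_iff_eq hq hr).mp h
  rcases hq2 with ((((h | h) | h) | h) | h) | h
  · have := hcase 2 (by norm_num) h; subst this
    left; have : 21945 = d * j := by omega
    rw [this]; exact hdj
  · have := hcase 3 (by norm_num) h; subst this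
    right; left; have : 14630 = d * j := by omega
    rw [this]; exact hdj
  · have := hcase 5 (by norm_num) h; subst this
    right; right; left; have : 8778 = d * j := by omega
    rw [this]; exact hdj
  · have := hcase 7 (by norm_num) h; subst this
    right; right; right; left; have : 6270 = d * j := by omega
    rw [this]; exact hdj
  · have := hcase 11 (by norm_num) h; subst this
    right; right; right; right; left; have : 3990 = d * j := by omega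
    rw [this]; exact hdj
  · have := hcase 19 (by norm_num) h; subst this
    right; right; right; right; right; have : 2310 = d * j := by omega
    rw [this]; exact hdj

theorem lcmd {a b c d : ℕ} (h1 : a ∣ b) (h2 : c ∣ d) : Nat.lcm a c ∣ Nat.lcm b d :=
  Nat.lcm_dvd (h1.trans (Nat.dvd_lcm_left _ _)) (h2.trans (Nat.dvd_lcm_right _ _))

theorem orderOf_quad {A B C D : Type*} [Group A] [Group B] [Group C] [Group D] (x : A × B × C × D) :
    orderOf x = Nat.lcm (orderOf x.1) (Nat.lcm (orderOf x.2.1) (Nat.lcm (orderOf x.2.2.1) (orderOf x.2.2.2))) := by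
  rw [Prod.orderOf, Prod.orderOf, Prod.orderOf]

theorem w6_pow : wG w6 ^ 6 = 1 := eq_of_code (by rw [code_pow, code_w, code_one]; decide +kernel)

theorem orderOf_of {l : List Bool} {m : ℕ} (hm : 0 < m) (h1 : npw (wN l) m = cOne)
    (h2 : ∀ q : ℕ, q.Prime → q ∣ m → npw (wN l) (m / q) ≠ cOne) : orderOf (wG l) = m := by
  apply orderOf_eq_of_pow_and_pow_div_prime hm
  · apply eq_of_code; rw [code_pow, code_w, h1, code_one]
  · intro q hq hqm h
    apply h2 q hq hqm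
    rw [← code_w, ← code_pow, h, code_one]

theorem order_w6 : orderOf (wG w6) = 6 := by
  refine orderOf_of (by norm_num) (by decide +kernel) ?_
  intro q hq hd
  have e : 6 = 2 * 3 := by norm_num
  rw [e, hq.dvd_mul] at hd
  rcases hd with h | h
  · rw [(Nat.prime_dvd_prime_iff_eq hq (by norm_num)).mp h]; decide +kernel
  · rw [(Nat.prime_dvd_prime_iff_eq hq (by norm_num)).mp h]; decide +kernel

theorem order_w10 : orderOf (wG w10) = 10 := by
  refine orderOf_of (by norm_num) (by decide +kernel) ?_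
  intro q hq hd
  have e : 10 = 2 * 5 := by norm_num
  rw [e, hq.dvd_mul] at hd
  rcases hd with h | h
  · rw [(Nat.prime_dvd_prime_iff_eq hq (by norm_num)).mp h]; decide +kernel
  · rw [(Nat.prime_dvd_prime_iff_eq hq (by norm_num)).mp h]; decide +kernel

theorem order_w15 : orderOf (wG w15) = 15 := by
  refine orderOf_of (by norm_num) (by decide +kernel) ?_
  intro q hq hd
  have e : 15 = 3 * 5 := by norm_num
  rw [e, hq.dvd_mul] at hd
  rcases hd with h | h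
  · rw [(Nat.prime_dvd_prime_iff_eq hq (by norm_num)).mp h]; decide +kernel
  · rw [(Nat.prime_dvd_prime_iff_eq hq (by norm_num)).mp h]; decide +kernel

/-- elements of all orders dividing one of 6, 10, 15, 7, 11, 19 -/
theorem exists_order {g : GG} (hg : g ∈ Cfsg.Spor.J1) {m d : ℕ} (hm : orderOf g = m) (hm0 : m ≠ 0) (hd : d ∣ m) :
    ∃ x : Cfsg.Spor.J1, orderOf x = d := by
  refine ⟨⟨g, hg⟩ ^ (m / d), ?_⟩
  have h1 : orderOf (⟨g, hg⟩ : Cfsg.Spor.J1) = m := by rw [Subgroup.orderOf_mk]; exact hm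
  rw [orderOf_pow_of_dvd, h1, Nat.div_div_self hd hm0]
  · have hd0 : 0 < d := Nat.pos_of_dvd_of_pos hd (Nat.pos_of_ne_zero hm0)
    exact (Nat.div_pos (Nat.le_of_dvd (Nat.pos_of_ne_zero hm0) hd) hd0).ne'
  · rw [h1]; exact Nat.div_dvd_of_dvd hd

theorem ex6 {d : ℕ} (hd : d ∣ 6) : ∃ x : Cfsg.Spor.J1, orderOf x = d := exists_order (wG_mem _) order_w6 (by norm_num) hd
theorem ex10 {d : ℕ} (hd : d ∣ 10) : ∃ x : Cfsg.Spor.J1, orderOf x = d := exists_order (wG_mem _) order_w10 (by norm_num) hd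
theorem ex15 {d : ℕ} (hd : d ∣ 15) : ∃ x : Cfsg.Spor.J1, orderOf x = d := exists_order (wG_mem _) order_w15 (by norm_num) hd
theorem ex5 {d : ℕ} (hd : d ∣ 5) : ∃ x : Cfsg.Spor.J1, orderOf x = d := exists_order Y_mem order_Y (by norm_num) hd
theorem ex7 {d : ℕ} (hd : d ∣ 7) : ∃ x : Cfsg.Spor.J1, orderOf x = d := exists_order X_mem order_X (by norm_num) hd
theorem ex11 {d : ℕ} (hd : d ∣ 11) : ∃ x : Cfsg.Spor.J1, orderOf x = d := exists_order (wG_mem _) order_w11 (by norm_num) hd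
theorem ex19 {d : ℕ} (hd : d ∣ 19) : ∃ x : Cfsg.Spor.J1, orderOf x = d := exists_order (wG_mem _) order_w19 (by norm_num) hd

theorem lcm4 {d m1 m2 m3 m4 : ℕ} (h34 : m3.Coprime m4) (h2 : m2.Coprime (m3 * m4)) (h1 : m1.Coprime (m2 * (m3 * m4)))
    (hd : d ∣ m1 * (m2 * (m3 * m4))) :
    Nat.lcm (Nat.gcd d m1) (Nat.lcm (Nat.gcd d m2) (Nat.lcm (Nat.gcd d m3) (Nat.gcd d m4))) = d := by
  rw [gcd_lcm' h34, gcd_lcm' h2, gcd_lcm' h1, Nat.gcd_eq_left hd]

theorem spec_J14 : Set.range (orderOf : ↥Cfsg.Spor.J1 × ↥Cfsg.Spor.J1 × ↥Cfsg.Spor.J1 × ↥Cfsg.Spor.J1 → ℕ) = {d | d ∣ 43890 ∧ d ≠ 43890} := by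
  ext d
  constructor
  · rintro ⟨x, rfl⟩
    rw [orderOf_quad]
    have key : ∀ y : Cfsg.Spor.J1, ∃ m ∈ [6, 10, 15, 7, 11, 19], orderOf y ∣ m := by
      intro y
      have h := orders_pow y.2
      have hpow : ∀ n, (y : GG) ^ n = 1 → orderOf y ∣ n := by
        intro n hn
        exact orderOf_dvd_of_pow_eq_one (Subtype.ext hn)
      rcases h with h | h | h | h | h | h
      · exact ⟨6, by simp, hpow _ h⟩
      · exact ⟨7, by simp, hpow _ h⟩
      · exact ⟨10, by simp, hpow _ h⟩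
      · exact ⟨11, by simp, hpow _ h⟩
      · exact ⟨15, by simp, hpow _ h⟩
      · exact ⟨19, by simp, hpow _ h⟩
    obtain ⟨m1, h1, e1⟩ := key x.1
    obtain ⟨m2, h2, e2⟩ := key x.2.1
    obtain ⟨m3, h3, e3⟩ := key x.2.2.1
    obtain ⟨m4, h4, e4⟩ := key x.2.2.2
    have hdec : ∀ m1 ∈ [6, 10, 15, 7, 11, 19], ∀ m2 ∈ [6, 10, 15, 7, 11, 19], ∀ m3 ∈ [6, 10, 15, 7, 11, 19],
        ∀ m4 ∈ [6, 10, 15, 7, 11, 19], Nat.lcm m1 (Nat.lcm m2 (Nat.lcm m3 m4)) ∣ 43890 ∧ Nat.lcm m1 (Nat.lcm m2 (Nat.lcm m3 m4)) ≠ 43890 := by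
      decide +kernel
    obtain ⟨g1, g2⟩ := hdec m1 h1 m2 h2 m3 h3 m4 h4
    have h5 : Nat.lcm (orderOf x.1) (Nat.lcm (orderOf x.2.1) (Nat.lcm (orderOf x.2.2.1) (orderOf x.2.2.2))) ∣ Nat.lcm m1 (Nat.lcm m2 (Nat.lcm m3 m4)) :=
      lcmd e1 (lcmd e2 (lcmd e3 e4))
    exact ⟨h5.trans g1, fun h => g2 (Nat.dvd_antisymm g1 (h ▸ h5))⟩
  · rintro ⟨h1, h2⟩
    rcases proper_div h1 h2 with h | h | h | h | h | h
    · obtain ⟨a, ha⟩ := ex15 (Nat.gcd_dvd_right d 15)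
      obtain ⟨b, hb⟩ := ex7 (Nat.gcd_dvd_right d 7)
      obtain ⟨c, hc⟩ := ex11 (Nat.gcd_dvd_right d 11)
      obtain ⟨e, he⟩ := ex19 (Nat.gcd_dvd_right d 19)
      refine ⟨(a, b, c, e), ?_⟩
      rw [orderOf_quad]
      show Nat.lcm (orderOf a) (Nat.lcm (orderOf b) (Nat.lcm (orderOf c) (orderOf e))) = d
      rw [ha, hb, hc, he]
      exact lcm4 (by norm_num) (by norm_num) (by norm_num) h
    · obtain ⟨a, ha⟩ := ex10 (Nat.gcd_dvd_right d 10)
      obtain ⟨b, hb⟩ := ex7 (Nat.gcd_dvd_right d 7)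
      obtain ⟨c, hc⟩ := ex11 (Nat.gcd_dvd_right d 11)
      obtain ⟨e, he⟩ := ex19 (Nat.gcd_dvd_right d 19)
      refine ⟨(a, b, c, e), ?_⟩
      rw [orderOf_quad]
      show Nat.lcm (orderOf a) (Nat.lcm (orderOf b) (Nat.lcm (orderOf c) (orderOf e))) = d
      rw [ha, hb, hc, he]
      exact lcm4 (by norm_num) (by norm_num) (by norm_num) h
    · obtain ⟨a, ha⟩ := ex6 (Nat.gcd_dvd_right d 6)
      obtain ⟨b, hb⟩ := ex7 (Nat.gcd_dvd_right d 7)
      obtain ⟨c, hc⟩ := ex11 (Nat.gcd_dvd_right d 11)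
      obtain ⟨e, he⟩ := ex19 (Nat.gcd_dvd_right d 19)
      refine ⟨(a, b, c, e), ?_⟩
      rw [orderOf_quad]
      show Nat.lcm (orderOf a) (Nat.lcm (orderOf b) (Nat.lcm (orderOf c) (orderOf e))) = d
      rw [ha, hb, hc, he]
      exact lcm4 (by norm_num) (by norm_num) (by norm_num) h
    · obtain ⟨a, ha⟩ := ex6 (Nat.gcd_dvd_right d 6)
      obtain ⟨b, hb⟩ := ex5 (Nat.gcd_dvd_right d 5)
      obtain ⟨c, hc⟩ := ex11 (Nat.gcd_dvd_right d 11)
      obtain ⟨e, he⟩ := ex19 (Nat.gcd_dvd_right d 19)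
      refine ⟨(a, b, c, e), ?_⟩
      rw [orderOf_quad]
      show Nat.lcm (orderOf a) (Nat.lcm (orderOf b) (Nat.lcm (orderOf c) (orderOf e))) = d
      rw [ha, hb, hc, he]
      exact lcm4 (by norm_num) (by norm_num) (by norm_num) h
    · obtain ⟨a, ha⟩ := ex6 (Nat.gcd_dvd_right d 6)
      obtain ⟨b, hb⟩ := ex5 (Nat.gcd_dvd_right d 5)
      obtain ⟨c, hc⟩ := ex7 (Nat.gcd_dvd_right d 7)
      obtain ⟨e, he⟩ := ex19 (Nat.gcd_dvd_right d 19)
      refine ⟨(a, b, c, e), ?_⟩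
      rw [orderOf_quad]
      show Nat.lcm (orderOf a) (Nat.lcm (orderOf b) (Nat.lcm (orderOf c) (orderOf e))) = d
      rw [ha, hb, hc, he]
      exact lcm4 (by norm_num) (by norm_num) (by norm_num) h
    · obtain ⟨a, ha⟩ := ex6 (Nat.gcd_dvd_right d 6)
      obtain ⟨b, hb⟩ := ex5 (Nat.gcd_dvd_right d 5)
      obtain ⟨c, hc⟩ := ex7 (Nat.gcd_dvd_right d 7)
      obtain ⟨e, he⟩ := ex11 (Nat.gcd_dvd_right d 11)
      refine ⟨(a, b, c, e), ?_⟩
      rw [orderOf_quad]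
      show Nat.lcm (orderOf a) (Nat.lcm (orderOf b) (Nat.lcm (orderOf c) (orderOf e))) = d
      rw [ha, hb, hc, he]
      exact lcm4 (by norm_num) (by norm_num) (by norm_num) h

/-- Frobenius groups with elements of orders `1, p, r` -/
theorem exists_frob (p r : ℕ) [hp : Fact p.Prime] (hr : r.Prime) (hne : p ≠ r) (N : ℕ) :
    ∃ (F : Type) (_ : Group F) (_ : Finite F), N < Nat.card F ∧
      (∀ x : F, orderOf x ∣ p ∨ orderOf x ∣ r) ∧ (∃ x : F, orderOf x = p) ∧ (∃ x : F, orderOf x = r) := by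
  haveI : Fact r.Prime := ⟨hr⟩
  have hr1 := hr.one_lt
  set m := (r - 1) * (N + 1) with hm
  have hm0 : m ≠ 0 := Nat.mul_ne_zero (by omega) (by omega)
  let K := GaloisField p m
  haveI : Fintype K := Fintype.ofFinite K
  have hK : Nat.card K = p ^ m := GaloisField.card p m hm0
  have hmod : r ∣ p ^ m - 1 := by
    have h1 : p ^ (r - 1) ≡ 1 [MOD r] := by
      have h2 := Nat.ModEq.pow_totient ((Nat.coprime_primes hp.out hr).mpr hne)
      rwa [Nat.totient_prime hr] at h2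
    have h2 := h1.pow (N + 1)
    rw [← pow_mul, one_pow] at h2
    exact (Nat.modEq_iff_dvd' (Nat.one_le_pow _ _ hp.out.pos)).mp h2.symm
  obtain ⟨u, hu⟩ : ∃ u : Kˣ, orderOf u = r := by
    apply exists_prime_orderOf_dvd_card' r
    rw [Nat.card_units, hK]; exact hmod
  let ρ : Subgroup.zpowers u →* AddMonoid.End K :=
    { toFun := fun s => AddMonoidHom.mulLeft ((s : Kˣ) : K)
      map_one' := by ext x; exact one_mul x
      map_mul' := fun s t => by ext x; exact mul_assoc _ _ _ }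
  have hρ : ∀ (s : Subgroup.zpowers u) (x : K), ρ s x = ((s : Kˣ) : K) * x := fun s x => rfl
  have hpK : ∀ a : K, p • a = 0 := fun a => by rw [nsmul_eq_mul, CharP.cast_eq_zero, zero_mul]
  refine ⟨SD ρ, inferInstance, inferInstance, ?_, ?_, ?_, ?_⟩
  · rw [SD.card_eq, hK]
    have h1 : N < p ^ m := by
      calc N < N + 1 := Nat.lt_succ_self N
        _ ≤ m := Nat.le_mul_of_pos_left _ (by omega)
        _ < p ^ m := Nat.lt_pow_self hp.out.one_lt
    exact h1.trans_le (Nat.le_mul_of_pos_right _ Nat.card_pos)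
  · intro x
    have hs : orderOf x.s ∣ r := by
      rw [← hu, ← Nat.card_zpowers u]
      exact orderOf_dvd_natCard _
    rcases SD.orderOf_cases ρ hp.out hpK x with h | ⟨h, v, hv, hf⟩
    · right; rw [h]; exact hs
    · left
      rw [hρ] at hf
      have h1 : ((x.s : Kˣ) : K) = 1 := mul_right_cancel₀ hv (by rw [hf, one_mul])
      have h2 : x.s = 1 := Subtype.ext (Units.ext h1)
      rw [h, h2, orderOf_one, one_mul]
  · refine ⟨⟨1, 1⟩, ?_⟩
    apply orderOf_eq_prime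
    · rw [SD.pow_mk_one, hpK]; rfl
    · intro h
      exact one_ne_zero (congrArg SD.a h)
  · refine ⟨SD.ofS ρ ⟨u, Subgroup.mem_zpowers u⟩, ?_⟩
    rw [SD.orderOf_ofS, Subgroup.orderOf_mk, hu]

theorem exists_lcm_frob {F : Type} [Group F] {p r d : ℕ} (hp : p.Prime) (hr : r.Prime)
    (h1 : ∃ x : F, orderOf x = p) (h2 : ∃ x : F, orderOf x = r) :
    (∃ x : F, orderOf x = Nat.gcd d p) ∧ (∃ x : F, orderOf x = Nat.gcd d r) := by
  constructor
  · rcases (Nat.dvd_prime hp).mp (Nat.gcd_dvd_right d p) with h | h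
    · exact ⟨1, by rw [h, orderOf_one]⟩
    · rw [h]; exact h1
  · rcases (Nat.dvd_prime hr).mp (Nat.gcd_dvd_right d r) with h | h
    · exact ⟨1, by rw [h, orderOf_one]⟩
    · rw [h]; exact h2

theorem orderOf_quint {A B C D E : Type*} [Group A] [Group B] [Group C] [Group D] [Group E] (x : A × B × C × D × E) :
    orderOf x = Nat.lcm (orderOf x.1) (Nat.lcm (orderOf x.2.1) (Nat.lcm (orderOf x.2.2.1) (Nat.lcm (orderOf x.2.2.2.1) (orderOf x.2.2.2.2)))) := by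
  rw [Prod.orderOf, Prod.orderOf, Prod.orderOf, Prod.orderOf]

theorem lcm5 {d m1 m2 m3 m4 m5 : ℕ} (h45 : m4.Coprime m5) (h3 : m3.Coprime (m4 * m5)) (h2 : m2.Coprime (m3 * (m4 * m5)))
    (h1 : m1.Coprime (m2 * (m3 * (m4 * m5)))) (hd : d ∣ m1 * (m2 * (m3 * (m4 * m5)))) :
    Nat.lcm (Nat.gcd d m1) (Nat.lcm (Nat.gcd d m2) (Nat.lcm (Nat.gcd d m3) (Nat.lcm (Nat.gcd d m4) (Nat.gcd d m5)))) = d := by
  rw [gcd_lcm' h45, gcd_lcm' h3, gcd_lcm' h2, gcd_lcm' h1, Nat.gcd_eq_left hd]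

theorem exists_big (N : ℕ) : ∃ (F : Type) (_ : Group F) (_ : Finite F), N < Nat.card F ∧
    Set.range (orderOf : F → ℕ) = {d | d ∣ 43890 ∧ d ≠ 43890} := by
  haveI : Fact (Nat.Prime 2) := ⟨by norm_num⟩
  haveI : Fact (Nat.Prime 3) := ⟨by norm_num⟩
  obtain ⟨F1, i1, j1, n1, o1, p1, r1⟩ := exists_frob 2 3 (by norm_num) (by norm_num) N
  obtain ⟨F2, i2, j2, n2, o2, p2, r2⟩ := exists_frob 3 5 (by norm_num) (by norm_num) N
  obtain ⟨F3, i3, j3, n3, o3, p3, r3⟩ := exists_frob 5 7 (by norm_num) (by norm_num) N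
  obtain ⟨F4, i4, j4, n4, o4, p4, r4⟩ := exists_frob 7 11 (by norm_num) (by norm_num) N
  obtain ⟨F5, i5, j5, n5, o5, p5, r5⟩ := exists_frob 11 19 (by norm_num) (by norm_num) N
  refine ⟨F1 × F2 × F3 × F4 × F5, inferInstance, inferInstance, ?_, ?_⟩
  · rw [Nat.card_prod]
    exact n1.trans_le (Nat.le_mul_of_pos_right _ Nat.card_pos)
  ext d
  constructor
  · rintro ⟨x, rfl⟩
    rw [orderOf_quint]
    have key : ∀ {F : Type} (_ : Group F) {p r : ℕ}, (∀ x : F, orderOf x ∣ p ∨ orderOf x ∣ r) → ∀ x : F, ∃ m ∈ [p, r], orderOf x ∣ m := by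
      intro F _ p r h x
      rcases h x with h | h
      · exact ⟨p, by simp, h⟩
      · exact ⟨r, by simp, h⟩
    obtain ⟨m1, h1, e1⟩ := key i1 o1 x.1
    obtain ⟨m2, h2, e2⟩ := key i2 o2 x.2.1
    obtain ⟨m3, h3, e3⟩ := key i3 o3 x.2.2.1
    obtain ⟨m4, h4, e4⟩ := key i4 o4 x.2.2.2.1
    obtain ⟨m5, h5, e5⟩ := key i5 o5 x.2.2.2.2
    have hdec : ∀ m1 ∈ [2, 3], ∀ m2 ∈ [3, 5], ∀ m3 ∈ [5, 7], ∀ m4 ∈ [7, 11], ∀ m5 ∈ [11, 19],
        Nat.lcm m1 (Nat.lcm m2 (Nat.lcm m3 (Nat.lcm m4 m5))) ∣ 43890 ∧ Nat.lcm m1 (Nat.lcm m2 (Nat.lcm m3 (Nat.lcm m4 m5))) ≠ 43890 := by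
      decide +kernel
    obtain ⟨g1, g2⟩ := hdec m1 h1 m2 h2 m3 h3 m4 h4 m5 h5
    have h6 := lcmd e1 (lcmd e2 (lcmd e3 (lcmd e4 e5)))
    exact ⟨h6.trans g1, fun h => g2 (Nat.dvd_antisymm g1 (h ▸ h6))⟩
  · rintro ⟨h1, h2⟩
    have q1 := exists_lcm_frob (d := d) (by norm_num) (by norm_num) p1 r1
    have q2 := exists_lcm_frob (d := d) (by norm_num) (by norm_num) p2 r2
    have q3 := exists_lcm_frob (d := d) (by norm_num) (by norm_num) p3 r3
    have q4 := exists_lcm_frob (d := d) (by norm_num) (by norm_num) p4 r4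
    have q5 := exists_lcm_frob (d := d) (by norm_num) (by norm_num) p5 r5
    have fin : ∀ {m1 m2 m3 m4 m5 : ℕ}, (∃ x : F1, orderOf x = Nat.gcd d m1) → (∃ x : F2, orderOf x = Nat.gcd d m2) →
        (∃ x : F3, orderOf x = Nat.gcd d m3) → (∃ x : F4, orderOf x = Nat.gcd d m4) → (∃ x : F5, orderOf x = Nat.gcd d m5) →
        m4.Coprime m5 → m3.Coprime (m4 * m5) → m2.Coprime (m3 * (m4 * m5)) →
        m1.Coprime (m2 * (m3 * (m4 * m5))) → d ∣ m1 * (m2 * (m3 * (m4 * m5))) → d ∈ Set.range (orderOf : F1 × F2 × F3 × F4 × F5 → ℕ) := by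
      rintro m1 m2 m3 m4 m5 ⟨a, ha⟩ ⟨b, hb⟩ ⟨c, hc⟩ ⟨e, he⟩ ⟨f, hf⟩ k1 k2 k3 k4 k5
      refine ⟨(a, b, c, e, f), ?_⟩
      rw [orderOf_quint]
      show Nat.lcm (orderOf a) (Nat.lcm (orderOf b) (Nat.lcm (orderOf c) (Nat.lcm (orderOf e) (orderOf f)))) = d
      rw [ha, hb, hc, he, hf]
      exact lcm5 k1 k2 k3 k4 k5
    rcases proper_div h1 h2 with h | h | h | h | h | h
    · exact fin q1.2 q2.2 q3.2 q4.2 q5.2 (by norm_num) (by norm_num) (by norm_num) (by norm_num) h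
    · exact fin q1.1 q2.2 q3.2 q4.2 q5.2 (by norm_num) (by norm_num) (by norm_num) (by norm_num) h
    · exact fin q1.1 q2.1 q3.2 q4.2 q5.2 (by norm_num) (by norm_num) (by norm_num) (by norm_num) h
    · exact fin q1.1 q2.1 q3.1 q4.2 q5.2 (by norm_num) (by norm_num) (by norm_num) (by norm_num) h
    · exact fin q1.1 q2.1 q3.1 q4.1 q5.2 (by norm_num) (by norm_num) (by norm_num) (by norm_num) h
    · exact fin q1.1 q2.1 q3.1 q4.1 q5.1 (by norm_num) (by norm_num) (by norm_num) (by norm_num) h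

end Cfsg.Agent.H22.J1
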