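import Mathlib

set_option autoImplicit false
set_option linter.unusedVariables false

/-!
# H22.SpinAn: the double cover of the alternating group, by a Clifford algebra over `ZMod 7`
-/

open Equiv
open scoped commutatorElement

namespace Cfsg.Agent.H22.SpinAn

instance fact7 : Fact (Nat.Prime 7) := ⟨by norm_num⟩

abbrev F := ZMod 7

instance inv2 : Invertible (2 : F) := ⟨4, by decide, by decide⟩

abbrev Qf (n : ℕ) : QuadraticForm F (Fin n → F) := QuadraticMap.weightedSumSquares F (fun _ : Fin n => (1 : F))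

abbrev Cl (n : ℕ) := CliffordAlgebra (Qf n)

variable {n : ℕ}

def e (i : Fin n) : Cl n := CliffordAlgebra.ι (Qf n) (Pi.single i 1)

theorem e_sq (i : Fin n) : e i * e i = 1 := by
  unfold e
  rw [CliffordAlgebra.ι_sq_scalar, QuadraticMap.weightedSumSquares_apply, Finset.sum_eq_single i]
  · simp
  · intro j _ hj
    simp [Pi.single_eq_of_ne hj]
  · simp

theorem e_anti {i j : Fin n} (h : i ≠ j) : e i * e j = -(e j * e i) := by
  have h1 : (Qf n).IsOrtho (Pi.single i (1 : F)) (Pi.single j 1) := by
    rw [QuadraticMap.isOrtho_def, QuadraticMap.weightedSumSquares_apply, QuadraticMap.weightedSumSquares_apply,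
      QuadraticMap.weightedSumSquares_apply, ← Finset.sum_add_distrib]
    apply Finset.sum_congr rfl
    intro k _
    by_cases hk : k = i
    · subst hk
      simp [Pi.single_eq_of_ne h]
    · simp [Pi.single_eq_of_ne hk]
  exact CliffordAlgebra.ι_mul_ι_comm_of_isOrtho h1

theorem involute_e (i : Fin n) : CliffordAlgebra.involute (e i) = -(e i) := CliffordAlgebra.involute_ι _

theorem reverse_e (i : Fin n) : CliffordAlgebra.reverse (e i) = e i := CliffordAlgebra.reverse_ι _

/-- the product of a word -/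
def ew (w : List (Fin n)) : Cl n := (w.map e).prod

theorem ew_nil : ew ([] : List (Fin n)) = 1 := rfl

theorem ew_cons (i : Fin n) (w : List (Fin n)) : ew (i :: w) = e i * ew w := by simp [ew]

theorem ew_append (w w' : List (Fin n)) : ew (w ++ w') = ew w * ew w' := by simp [ew]

theorem mem_span_words (x : Cl n) : x ∈ Submodule.span F (Set.range (ew (n := n))) := by
  induction x using CliffordAlgebra.induction with
  | algebraMap r =>
    rw [Algebra.algebraMap_eq_smul_one, ← ew_nil]
    exact Submodule.smul_mem _ _ (Submodule.subset_span ⟨_, rfl⟩)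
  | ι v =>
    have : v = ∑ i, v i • (Pi.single i (1 : F) : Fin n → F) := by
      conv_lhs => rw [← Finset.univ_sum_single v]
      apply Finset.sum_congr rfl
      intro i _
      rw [← Pi.single_smul, smul_eq_mul, mul_one]
    rw [this, map_sum]
    apply Submodule.sum_mem
    intro i _
    rw [map_smul]
    apply Submodule.smul_mem
    apply Submodule.subset_span
    exact ⟨[i], by rw [ew_cons, ew_nil, mul_one, e]⟩
  | mul a b ha hb =>
    have h := Submodule.mul_mem_mul ha hb
    rw [Submodule.span_mul_span] at h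
    refine Submodule.span_mono ?_ h
    rintro _ ⟨_, ⟨w, rfl⟩, _, ⟨w', rfl⟩, rfl⟩
    exact ⟨w ++ w', ew_append _ _⟩
  | add a b ha hb => exact Submodule.add_mem _ ha hb

theorem conj_ew (i : Fin n) (w : List (Fin n)) :
    e i * CliffordAlgebra.involute (ew w) * e i = (-1) ^ (w.count i) * ew w := by
  induction w with
  | nil => simp [ew_nil, e_sq]
  | cons j w ih =>
    rw [ew_cons, map_mul, involute_e]
    by_cases h : i = j
    · subst h
      rw [List.count_cons_self, pow_succ]
      calc e i * (-e i * CliffordAlgebra.involute (ew w)) * e i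
          = -(e i * (e i * CliffordAlgebra.involute (ew w) * e i)) := by noncomm_ring
        _ = _ := by rw [ih]; rcases Nat.even_or_odd (w.count i) with h | h <;> simp [h.neg_one_pow]
    · rw [List.count_cons_of_ne (Ne.symm h)]
      calc e i * (-e j * CliffordAlgebra.involute (ew w)) * e i
          = (-(e i * e j)) * CliffordAlgebra.involute (ew w) * e i := by noncomm_ring
        _ = e j * (e i * CliffordAlgebra.involute (ew w) * e i) := by rw [e_anti h]; noncomm_ring
        _ = _ := by rw [ih]; rcases Nat.even_or_odd (w.count i) with h | h <;> simp [h.neg_one_pow]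

theorem involute_ew (w : List (Fin n)) : CliffordAlgebra.involute (ew w) = ew w ∨ CliffordAlgebra.involute (ew w) = -ew w := by
  induction w with
  | nil => left; simp [ew_nil]
  | cons j w ih =>
    rw [ew_cons, map_mul, involute_e]
    rcases ih with h | h
    · right; rw [h, neg_mul]
    · left; rw [h, neg_mul_neg]

theorem ew_even (k : ℕ) : ∀ w : List (Fin n), w.length = k → (∀ i, Even (w.count i)) → ew w ∈ (⊥ : Subalgebra F (Cl n)) := by
  induction k using Nat.strong_induction_on with
  | _ k ih =>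
    intro w hw hev
    cases w with
    | nil => rw [ew_nil]; exact one_mem _
    | cons i w =>
      have h1 := hev i
      rw [List.count_cons_self] at h1
      have h2 : i ∈ w := by
        rw [← List.count_pos_iff]
        rcases Nat.eq_zero_or_pos (w.count i) with h | h
        · rw [h] at h1; exact absurd h1 (by decide)
        · exact h
      obtain ⟨a, b, rfl⟩ := List.mem_iff_append.mp h2
      have h3 : ew (a ++ b) ∈ (⊥ : Subalgebra F (Cl n)) := by
        refine ih (a ++ b).length (by rw [← hw]; simp) _ rfl ?_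
        intro j
        have := hev j
        by_cases hj : i = j
        · subst hj
          rw [List.count_cons_self, List.count_append, List.count_cons_self] at this
          rw [List.count_append]
          rcases this with ⟨m, hm⟩
          exact ⟨m - 1, by omega⟩
        · rw [List.count_cons_of_ne hj, List.count_append, List.count_cons_of_ne hj] at this
          rw [List.count_append]
          exact this
      have h4 : ew (i :: (a ++ i :: b)) = (e i * ew a * e i) * ew b := by
        rw [ew_cons, ew_append, ew_cons]; noncomm_ring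
      have h5 : e i * ew a * e i = ew a ∨ e i * ew a * e i = -ew a := by
        have h6 := conj_ew i a
        have h7 : ((-1 : Cl n)) ^ (a.count i) * ew a = ew a ∨ ((-1 : Cl n)) ^ (a.count i) * ew a = - ew a := by
          rcases neg_one_pow_eq_or (Cl n) (a.count i) with h | h
          · left; rw [h, one_mul]
          · right; rw [h, neg_one_mul]
        rcases involute_ew a with h | h
        · rw [h] at h6
          rw [h6]; exact h7
        · rw [h] at h6
          have h8 : e i * ew a * e i = -((-1 : Cl n) ^ (a.count i) * ew a) := by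
            rw [← h6]; noncomm_ring
          rw [h8]
          rcases h7 with h | h
          · right; rw [h]
          · left; rw [h, neg_neg]
      rw [h4]
      rcases h5 with h | h
      · rw [h, ← ew_append]; exact h3
      · rw [h, neg_mul, ← ew_append]; exact neg_mem h3

/-- the twisted centre of the Clifford algebra is the scalars -/
theorem mem_bot_of_fixed {x : Cl n} (hx : ∀ i, e i * CliffordAlgebra.involute x * e i = x) : x ∈ (⊥ : Subalgebra F (Cl n)) := by
  have key : ∀ s : Finset (Fin n), x ∈ Submodule.span F {y : Cl n | ∃ w : List (Fin n), (∀ i ∈ s, Even (w.count i)) ∧ y = ew w} := by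
    intro s
    induction s using Finset.induction_on with
    | empty =>
      have := mem_span_words x
      refine Submodule.span_mono ?_ this
      rintro _ ⟨w, rfl⟩
      exact ⟨w, by simp, rfl⟩
    | insert i s his ih =>
      have h1 : ∀ y ∈ Submodule.span F {y : Cl n | ∃ w : List (Fin n), (∀ i ∈ s, Even (w.count i)) ∧ y = ew w},
          y + e i * CliffordAlgebra.involute y * e i ∈
            Submodule.span F {y : Cl n | ∃ w : List (Fin n), (∀ j ∈ insert i s, Even (w.count j)) ∧ y = ew w} := by
        intro y hy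
        induction hy using Submodule.span_induction with
        | mem y hy =>
          obtain ⟨w, hw, rfl⟩ := hy
          rw [conj_ew]
          rcases Nat.even_or_odd (w.count i) with h | h
          · rw [h.neg_one_pow, one_mul]
            have h2 : ew w ∈ Submodule.span F {y : Cl n | ∃ w : List (Fin n), (∀ j ∈ insert i s, Even (w.count j)) ∧ y = ew w} := by
              apply Submodule.subset_span
              refine ⟨w, ?_, rfl⟩
              intro j hj
              rcases Finset.mem_insert.mp hj with rfl | hj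
              · exact h
              · exact hw j hj
            exact Submodule.add_mem _ h2 h2
          · rw [h.neg_one_pow, neg_one_mul, add_neg_cancel]
            exact Submodule.zero_mem _
        | zero => simp
        | add a b _ _ ha hb =>
          have := Submodule.add_mem _ ha hb
          rw [map_add]
          convert this using 1
          noncomm_ring
        | smul c a _ ha =>
          have := Submodule.smul_mem _ c ha
          rw [map_smul]
          convert this using 1
          rw [smul_add, mul_smul_comm, smul_mul_assoc]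
      have h2 := h1 x ih
      rw [hx i] at h2
      have h3 := Submodule.smul_mem _ (4 : F) h2
      have h4 : (4 : F) • (x + x) = x := by
        rw [← two_smul F x, smul_smul]
        have : (4 * 2 : F) = 1 := by decide
        rw [this, one_smul]
      rwa [h4] at h3
  have h1 := key Finset.univ
  have h2 : Submodule.span F {y : Cl n | ∃ w : List (Fin n), (∀ i ∈ (Finset.univ : Finset (Fin n)), Even (w.count i)) ∧ y = ew w} ≤
      Subalgebra.toSubmodule (⊥ : Subalgebra F (Cl n)) := by
    rw [Submodule.span_le]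
    rintro _ ⟨w, hw, rfl⟩
    exact ew_even w.length w rfl (fun i => hw i (Finset.mem_univ i))
  exact h2 h1


/-- the sign as an element of the Clifford algebra -/
def sg (σ : Perm (Fin n)) : Cl n := (((Perm.sign σ : ℤˣ) : ℤ) : Cl n)

theorem sg_one : sg (1 : Perm (Fin n)) = 1 := by simp [sg]

theorem sg_mul (σ τ : Perm (Fin n)) : sg (σ * τ) = sg σ * sg τ := by simp [sg]

theorem sg_inv (σ : Perm (Fin n)) : sg σ⁻¹ = sg σ := by simp [sg]

theorem sg_sq (σ : Perm (Fin n)) : sg σ * sg σ = 1 := by
  rw [← sg_mul]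
  rcases Int.units_eq_one_or (Perm.sign σ) with h | h <;> simp [sg, h]

theorem sg_comm (σ : Perm (Fin n)) (x : Cl n) : sg σ * x = x * sg σ := (Int.cast_commute _ x).eq

theorem involute_sg (σ : Perm (Fin n)) : CliffordAlgebra.involute (sg σ) = sg σ := by simp [sg]

/-- the double cover of the symmetric group (as pairs) -/
def T (n : ℕ) : Subgroup ((Cl n)ˣ × Perm (Fin n)) where
  carrier := {x | CliffordAlgebra.involute (x.1 : Cl n) = sg x.2 * x.1 ∧ CliffordAlgebra.reverse (x.1 : Cl n) * x.1 = 1 ∧
    ∀ i, (x.1 : Cl n) * e i = sg x.2 * (e (x.2 i) * x.1)}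
  one_mem' := by
    refine ⟨?_, ?_, ?_⟩ <;> simp [sg_one]
  mul_mem' := by
    rintro ⟨g, σ⟩ ⟨h, τ⟩ ⟨a1, b1, c1⟩ ⟨a2, b2, c2⟩
    simp only at a1 b1 c1 a2 b2 c2
    refine ⟨?_, ?_, ?_⟩
    · simp only [Prod.mk_mul_mk, Units.val_mul, map_mul]
      rw [a1, a2, sg_mul]
      calc sg σ * (g : Cl n) * (sg τ * h) = sg σ * ((g : Cl n) * sg τ) * h := by simp only [mul_assoc]
        _ = sg σ * (sg τ * g) * h := by rw [sg_comm τ (g : Cl n)]
        _ = _ := by simp only [mul_assoc]
    · simp only [Prod.mk_mul_mk, Units.val_mul, CliffordAlgebra.reverse.map_mul]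
      calc CliffordAlgebra.reverse (h : Cl n) * CliffordAlgebra.reverse (g : Cl n) * (g * h)
          = CliffordAlgebra.reverse (h : Cl n) * (CliffordAlgebra.reverse (g : Cl n) * g) * h := by simp only [mul_assoc]
        _ = 1 := by rw [b1, mul_one, b2]
    · intro i
      simp only [Prod.mk_mul_mk, Units.val_mul, Perm.mul_apply]
      calc (g : Cl n) * h * e i = g * (h * e i) := by rw [mul_assoc]
        _ = g * (sg τ * (e (τ i) * h)) := by rw [c2]
        _ = sg τ * (g * e (τ i)) * h := by rw [← mul_assoc (g : Cl n), ← sg_comm]; simp only [mul_assoc]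
        _ = sg τ * (sg σ * (e (σ (τ i)) * g)) * h := by rw [c1]
        _ = _ := by rw [sg_mul, ← mul_assoc (sg τ), sg_comm τ (sg σ)]; simp only [mul_assoc]
  inv_mem' := by
    rintro ⟨g, σ⟩ ⟨a1, b1, c1⟩
    simp only at a1 b1 c1
    refine ⟨?_, ?_, ?_⟩
    · simp only [Prod.inv_mk]
      rw [sg_inv]
      have h1 : CliffordAlgebra.involute ((g⁻¹ : (Cl n)ˣ) : Cl n) * CliffordAlgebra.involute (g : Cl n) = 1 := by
        rw [← map_mul, Units.inv_mul, map_one]
      rw [a1] at h1
      calc CliffordAlgebra.involute ((g⁻¹ : (Cl n)ˣ) : Cl n)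
          = CliffordAlgebra.involute ((g⁻¹ : (Cl n)ˣ) : Cl n) * (sg σ * (g * ((g⁻¹ : (Cl n)ˣ) : Cl n)) * sg σ) := by
            rw [Units.mul_inv, mul_one, sg_sq, mul_one]
        _ = (CliffordAlgebra.involute ((g⁻¹ : (Cl n)ˣ) : Cl n) * (sg σ * g)) * ((g⁻¹ : (Cl n)ˣ) : Cl n) * sg σ := by
            simp only [mul_assoc]
        _ = _ := by rw [h1, one_mul, sg_comm]
    · simp only [Prod.inv_mk]
      have h1 : CliffordAlgebra.reverse (g : Cl n) = ((g⁻¹ : (Cl n)ˣ) : Cl n) := by
        calc CliffordAlgebra.reverse (g : Cl n) = CliffordAlgebra.reverse (g : Cl n) * (g * ((g⁻¹ : (Cl n)ˣ) : Cl n)) := by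
              rw [Units.mul_inv, mul_one]
          _ = _ := by rw [← mul_assoc, b1, one_mul]
      rw [← h1, CliffordAlgebra.reverse_reverse, h1, Units.mul_inv]
    · intro i
      simp only [Prod.inv_mk]
      rw [sg_inv]
      have h1 := c1 (σ⁻¹ i)
      rw [show σ (σ⁻¹ i) = i from σ.apply_symm_apply i] at h1
      calc ((g⁻¹ : (Cl n)ˣ) : Cl n) * e i = sg σ * sg σ * (((g⁻¹ : (Cl n)ˣ) : Cl n) * e i * (g * ((g⁻¹ : (Cl n)ˣ) : Cl n))) := by
            rw [Units.mul_inv, mul_one, sg_sq, one_mul]
        _ = sg σ * ((sg σ * ((g⁻¹ : (Cl n)ˣ) : Cl n)) * (e i * g) * ((g⁻¹ : (Cl n)ˣ) : Cl n)) := by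
            simp only [mul_assoc]
        _ = sg σ * (((g⁻¹ : (Cl n)ˣ) : Cl n) * (sg σ * (e i * g)) * ((g⁻¹ : (Cl n)ˣ) : Cl n)) := by
            rw [sg_comm σ ((g⁻¹ : (Cl n)ˣ) : Cl n)]; simp only [mul_assoc]
        _ = sg σ * (((g⁻¹ : (Cl n)ˣ) : Cl n) * (g * e (σ⁻¹ i)) * ((g⁻¹ : (Cl n)ˣ) : Cl n)) := by rw [h1]
        _ = _ := by rw [← mul_assoc ((g⁻¹ : (Cl n)ˣ) : Cl n) g, Units.inv_mul, one_mul]

theorem mem_T {x : (Cl n)ˣ × Perm (Fin n)} : x ∈ T n ↔ CliffordAlgebra.involute (x.1 : Cl n) = sg x.2 * x.1 ∧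
    CliffordAlgebra.reverse (x.1 : Cl n) * x.1 = 1 ∧ ∀ i, (x.1 : Cl n) * e i = sg x.2 * (e (x.2 i) * x.1) := Iff.rfl

/-- the lift of a transposition -/
def t (i j : Fin n) : Cl n := (5 : F) • (e i - e j)

theorem t_sq {i j : Fin n} (h : i ≠ j) : t i j * t i j = 1 := by
  unfold t
  rw [smul_mul_smul_comm]
  have h1 : (e i - e j) * (e i - e j) = (1 : Cl n) + 1 := by
    calc (e i - e j) * (e i - e j) = e i * e i - e i * e j - e j * e i + e j * e j := by noncomm_ring
      _ = 1 + 1 := by rw [e_sq, e_sq, e_anti h]; noncomm_ring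
  rw [h1, smul_add, ← add_smul]
  have : (5 * 5 + 5 * 5 : F) = 1 := by decide
  rw [this, one_smul]

def tu (i j : Fin n) (h : i ≠ j) : (Cl n)ˣ := ⟨t i j, t i j, t_sq h, t_sq h⟩

theorem t_e {i j : Fin n} (h : i ≠ j) (k : Fin n) : t i j * e k = -(e (swap i j k) * t i j) := by
  unfold t
  rw [smul_mul_assoc, mul_smul_comm, ← smul_neg]
  congr 1
  by_cases hi : k = i
  · subst hi
    rw [swap_apply_left, sub_mul, mul_sub, e_sq, e_sq]; noncomm_ring
  · by_cases hj : k = j
    · subst hj
      rw [swap_apply_right, sub_mul, mul_sub, e_sq, e_sq]; noncomm_ring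
    · rw [swap_apply_of_ne_of_ne hi hj, sub_mul, mul_sub, e_anti (Ne.symm hi), e_anti (Ne.symm hj)]
      noncomm_ring

theorem t_mem {i j : Fin n} (h : i ≠ j) : ((tu i j h, swap i j) : (Cl n)ˣ × Perm (Fin n)) ∈ T n := by
  have hs : sg (swap i j) = -1 := by simp [sg, Perm.sign_swap h]
  rw [mem_T]
  refine ⟨?_, ?_, ?_⟩
  · simp only [hs]
    show CliffordAlgebra.involute (t i j) = -1 * t i j
    rw [t, map_smul, map_sub, involute_e, involute_e, neg_one_mul, ← smul_neg]
    congr 1
    noncomm_ring
  · show CliffordAlgebra.reverse (t i j) * t i j = 1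
    have : CliffordAlgebra.reverse (t i j) = t i j := by
      rw [t, map_smul, map_sub, reverse_e, reverse_e]
    rw [this, t_sq h]
  · intro k
    simp only [hs]
    show t i j * e k = -1 * (e (swap i j k) * t i j)
    rw [t_e h, neg_one_mul]

theorem surj (σ : Perm (Fin n)) : ∃ g : (Cl n)ˣ, (g, σ) ∈ T n := by
  induction σ using Perm.swap_induction_on with
  | one => exact ⟨1, one_mem _⟩
  | swap_mul f x y hxy ih =>
    obtain ⟨g, hg⟩ := ih
    exact ⟨tu x y hxy * g, mul_mem (t_mem hxy) hg⟩

theorem ker_T {g : (Cl n)ˣ} (h : (g, (1 : Perm (Fin n))) ∈ T n) : g = 1 ∨ g = -1 := by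
  rw [mem_T] at h
  obtain ⟨h1, h2, h3⟩ := h
  simp only [sg_one, one_mul, Perm.one_apply] at h1 h2 h3
  have h4 : (g : Cl n) ∈ (⊥ : Subalgebra F (Cl n)) := by
    apply mem_bot_of_fixed
    intro i
    rw [h1, ← h3, mul_assoc, e_sq, mul_one]
  obtain ⟨c, hc⟩ := Algebra.mem_bot.mp h4
  rw [← hc, CliffordAlgebra.reverse.commutes, ← map_mul] at h2
  have hinj : Function.Injective (algebraMap F (Cl n)) := (algebraMap F (Cl n)).injective
  have h5 : c * c = 1 := hinj (by rw [h2, map_one])
  rcases mul_self_eq_one_iff.mp h5 with h6 | h6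
  · left; ext; rw [← hc, h6, map_one, Units.val_one]
  · right; ext; rw [← hc, h6, map_neg, map_one, Units.val_neg, Units.val_one]

theorem neg_one_mem : ((-1, 1) : (Cl n)ˣ × Perm (Fin n)) ∈ T n := by
  rw [mem_T]
  refine ⟨?_, ?_, ?_⟩ <;> simp [sg_one]

theorem neg_one_ne : (-1 : (Cl n)ˣ) ≠ 1 := by
  intro h
  have h1 : (-1 : Cl n) = 1 := by
    have := congrArg Units.val h
    simpa using this
  have hinj : Function.Injective (algebraMap F (Cl n)) := (algebraMap F (Cl n)).injective
  have h2 : (-1 : F) = 1 := hinj (by rw [map_neg, map_one, h1])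
  exact absurd h2 (by decide)


/-- the double cover of the alternating group -/
def Γ (n : ℕ) : Subgroup ((Cl n)ˣ × Perm (Fin n)) := T n ⊓ (alternatingGroup (Fin n)).comap (MonoidHom.snd _ _)

def z (n : ℕ) : Γ n := ⟨(-1, 1), Subgroup.mem_inf.mpr ⟨neg_one_mem, Subgroup.mem_comap.mpr (one_mem _)⟩⟩

def φ (n : ℕ) : Γ n →* alternatingGroup (Fin n) where
  toFun x := ⟨x.1.2, (Subgroup.mem_inf.mp x.2).2⟩
  map_one' := rfl
  map_mul' _ _ := rfl

theorem z_central (n : ℕ) : z n ∈ Subgroup.center (Γ n) := by
  rw [Subgroup.mem_center_iff]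
  rintro ⟨⟨g, σ⟩, h⟩
  apply Subtype.ext
  apply Prod.ext
  · show g * -1 = -1 * g
    simp
  · show σ * 1 = 1 * σ
    simp

theorem z_ne (n : ℕ) : z n ≠ 1 := by
  intro h
  have h1 := congrArg (fun x : Γ n => x.1.1) h
  exact neg_one_ne h1

theorem z_order (n : ℕ) : orderOf (z n) = 2 := by
  apply orderOf_eq_prime
  · apply Subtype.ext
    apply Prod.ext
    · show (-1 : (Cl n)ˣ) ^ 2 = 1
      simp
    · show (1 : Perm (Fin n)) ^ 2 = 1
      simp
  · exact z_ne n

theorem φ_surj (n : ℕ) : Function.Surjective (φ n) := by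
  rintro ⟨σ, hσ⟩
  obtain ⟨g, hg⟩ := surj σ
  exact ⟨⟨(g, σ), Subgroup.mem_inf.mpr ⟨hg, hσ⟩⟩, rfl⟩

theorem φ_ker (n : ℕ) : (φ n).ker = Subgroup.zpowers (z n) := by
  apply le_antisymm
  · rintro ⟨⟨g, σ⟩, h⟩ hx
    rw [MonoidHom.mem_ker] at hx
    have h1 : σ = 1 := congrArg Subtype.val hx
    subst h1
    rcases ker_T (Subgroup.mem_inf.mp h).1 with h2 | h2
    · subst h2
      exact one_mem _
    · subst h2
      exact Subgroup.mem_zpowers _
  · rw [Subgroup.zpowers_le, MonoidHom.mem_ker]
    rfl

theorem finite_Γ (n : ℕ) : Finite (Γ n) := by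
  have : (Subgroup.zpowers (z n)).Normal := φ_ker n ▸ MonoidHom.normal_ker _
  have e1 : Γ n ⧸ (φ n).ker ≃* alternatingGroup (Fin n) := QuotientGroup.quotientKerEquivOfSurjective _ (φ_surj n)
  have : Finite (Γ n ⧸ (φ n).ker) := Finite.of_equiv _ e1.symm.toEquiv
  have : Finite (φ n).ker := by
    rw [φ_ker]
    apply Nat.finite_of_card_ne_zero
    rw [Nat.card_zpowers, z_order]
    decide
  exact Finite.of_equiv _ (Subgroup.groupEquivQuotientProdSubgroup (s := (φ n).ker)).symm

theorem t_conj {i j k l : Fin n} (hij : i ≠ j) (hkl : k ≠ l) :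
    t i j * t k l = -(t (swap i j k) (swap i j l) * t i j) := by
  conv_lhs => rw [t.eq_1 k l]
  conv_rhs => rw [t.eq_1 (swap i j k) (swap i j l)]
  rw [mul_smul_comm, mul_sub, t_e hij, t_e hij, smul_mul_assoc, ← smul_neg]
  congr 1
  noncomm_ring

theorem t_symm (i j : Fin n) : t i j = - t j i := by
  rw [t, t, ← smul_neg, neg_sub]

/-- disjoint transpositions lift to anticommuting elements -/
theorem t_disj {i j k l : Fin n} (hij : i ≠ j) (hkl : k ≠ l) (hki : k ≠ i) (hkj : k ≠ j) (hli : l ≠ i) (hlj : l ≠ j) :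
    t i j * t k l = -(t k l * t i j) := by
  rw [t_conj hij hkl, swap_apply_of_ne_of_ne hki hkj, swap_apply_of_ne_of_ne hli hlj]

/-- the lift of a product of two transpositions -/
def tt (i j k l : Fin n) (hij : i ≠ j) (hkl : k ≠ l) : Γ n :=
  ⟨(tu i j hij * tu k l hkl, swap i j * swap k l), Subgroup.mem_inf.mpr
    ⟨mul_mem (t_mem hij) (t_mem hkl), Subgroup.mem_comap.mpr (by
      show swap i j * swap k l ∈ alternatingGroup (Fin n)
      rw [Perm.mem_alternatingGroup, Perm.sign_mul, Perm.sign_swap hij, Perm.sign_swap hkl]; rfl)⟩⟩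

theorem z_comm (hn : 4 ≤ n) : z n ∈ commutator (Γ n) := by
  obtain ⟨a, ha⟩ : ∃ a : Fin n, a = ⟨0, by omega⟩ := ⟨_, rfl⟩
  obtain ⟨b, hb⟩ : ∃ b : Fin n, b = ⟨1, by omega⟩ := ⟨_, rfl⟩
  obtain ⟨c, hc⟩ : ∃ c : Fin n, c = ⟨2, by omega⟩ := ⟨_, rfl⟩
  obtain ⟨d, hd⟩ : ∃ d : Fin n, d = ⟨3, by omega⟩ := ⟨_, rfl⟩
  have hab : a ≠ b := by rw [ha, hb]; simp
  have hac : a ≠ c := by rw [ha, hc]; simp
  have had : a ≠ d := by rw [ha, hd]; simp
  have hbc : b ≠ c := by rw [hb, hc]; simp
  have hbd : b ≠ d := by rw [hb, hd]; simp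
  have hcd : c ≠ d := by rw [hc, hd]; simp
  -- x = t_ab t_cd, y = t_ac t_bd, y x = - x y
  have key : t a c * t b d * (t a b * t c d) = -(t a b * t c d * (t a c * t b d)) := by
    have h1 : t b d * t a b = - (t a d * t b d) := by
      rw [t_conj hbd hab, swap_apply_of_ne_of_ne hab had, swap_apply_left]
    have h2 : t b d * t c d = - (t c b * t b d) := by
      rw [t_conj hbd hcd, swap_apply_of_ne_of_ne hbc.symm hcd, swap_apply_right]
    have h3 : t a c * t a d = - (t c d * t a c) := by
      rw [t_conj hac had, swap_apply_left, swap_apply_of_ne_of_ne had.symm hcd.symm]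
    have h4 : t a c * t c b = - (t a b * t a c) := by
      rw [t_conj hac hbc.symm, swap_apply_right, swap_apply_of_ne_of_ne hab.symm hbc]
    have h5 := t_disj hab hcd hac.symm hbc.symm had.symm hbd.symm
    calc t a c * t b d * (t a b * t c d) = t a c * (t b d * t a b) * t c d := by noncomm_ring
      _ = -(t a c * t a d * (t b d * t c d)) := by rw [h1]; noncomm_ring
      _ = -((t a c * t a d) * (-(t c b * t b d))) := by rw [h2]
      _ = t a c * t a d * t c b * t b d := by noncomm_ring
      _ = - (t c d * (t a c * t c b) * t b d) := by rw [h3]; noncomm_ring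
      _ = (t c d * t a b) * (t a c * t b d) := by rw [h4]; noncomm_ring
      _ = _ := by rw [h5]; noncomm_ring
  have h : z n = ⁅tt a c b d hac hbd, tt a b c d hab hcd⁆ := by
    rw [commutatorElement_def, eq_mul_inv_iff_mul_eq, eq_mul_inv_iff_mul_eq]
    apply Subtype.ext
    apply Prod.ext
    · show -1 * (tu a b hab * tu c d hcd) * (tu a c hac * tu b d hbd) = (tu a c hac * tu b d hbd) * (tu a b hab * tu c d hcd)
      ext
      show -1 * (t a b * t c d) * (t a c * t b d) = t a c * t b d * (t a b * t c d)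
      rw [key]; noncomm_ring
    · show 1 * (swap a b * swap c d) * (swap a c * swap b d) = (swap a c * swap b d) * (swap a b * swap c d)
      rw [one_mul]
      obtain ⟨f, hf⟩ : ∃ f, f = swap a c * swap b d := ⟨_, rfl⟩
      have f1 : f a = c := by rw [hf, Perm.mul_apply, swap_apply_of_ne_of_ne hab had, swap_apply_left]
      have f2 : f b = d := by
        rw [hf, Perm.mul_apply, swap_apply_left, swap_apply_of_ne_of_ne had.symm hcd.symm]
      have f3 : f c = a := by rw [hf, Perm.mul_apply, swap_apply_of_ne_of_ne hbc.symm hcd, swap_apply_right]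
      have f4 : f d = b := by
        rw [hf, Perm.mul_apply, swap_apply_right, swap_apply_of_ne_of_ne hab.symm hbc]
      have h6 : swap c d * swap a b = swap a b * swap c d := by
        rw [mul_swap_eq_swap_mul, swap_apply_of_ne_of_ne hac had, swap_apply_of_ne_of_ne hbc hbd]
      rw [← hf]
      calc swap a b * swap c d * f = swap c d * (swap (f c) (f d) * f) := by rw [f3, f4, ← mul_assoc, h6]
        _ = swap c d * (f * swap c d) := by rw [mul_swap_eq_swap_mul]
        _ = (swap (f a) (f b) * f) * swap c d := by rw [f1, f2, mul_assoc]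
        _ = f * swap a b * swap c d := by rw [show f * swap a b = swap (f a) (f b) * f from mul_swap_eq_swap_mul f a b]
        _ = _ := by rw [mul_assoc]
  rw [h]
  exact Subgroup.commutator_mem_commutator (Subgroup.mem_top _) (Subgroup.mem_top _)

end Cfsg.Agent.H22.SpinAn
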