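import Mathlib
import Cfsg.Agent.H5.UnitCenter

set_option autoImplicit false

/-! The Sylow 2-subgroup of `PSU₃(2ⁿ)`. -/

namespace Cfsg.Agent.H22

open Cfsg Matrix

/-- pairs `(a,b)` with `b + σ b = a σ a` -/
structure UG (F : Type*) [Field F] (σ : F →+* F) where
  a : F
  b : F
  rel : b + σ b = a * σ a

namespace UG

variable {F : Type*} [Field F] {σ : F →+* F}

theorem ext' {x y : UG F σ} (h1 : x.a = y.a) (h2 : x.b = y.b) : x = y := by
  cases x; cases y; simp only at h1 h2; subst h1; subst h2; rfl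

instance instGroupUG [h2 : Fact ((2 : F) = 0)] [hs : Fact (∀ a : F, σ (σ a) = a)] : Group (UG F σ) where
  mul x y := ⟨x.a + y.a, x.b + y.b + x.a * σ y.a, by
    have h1 := x.rel
    have h3 := y.rel
    simp only [map_add, map_mul, hs.out]
    linear_combination h1 + h3⟩
  one := ⟨0, 0, by simp⟩
  inv x := ⟨x.a, σ x.b, by
    have h1 := x.rel
    rw [hs.out]
    linear_combination h1⟩
  mul_assoc x y z := by
    apply ext'
    · exact add_assoc _ _ _
    · show x.b + y.b + x.a * σ y.a + z.b + (x.a + y.a) * σ z.a = x.b + (y.b + z.b + y.a * σ z.a) + x.a * σ (y.a + z.a)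
      rw [map_add]; ring
  one_mul x := by
    apply ext'
    · exact zero_add _
    · show 0 + x.b + 0 * σ x.a = x.b
      ring
  mul_one x := by
    apply ext'
    · exact add_zero _
    · show x.b + 0 + x.a * σ 0 = x.b
      rw [map_zero]; ring
  inv_mul_cancel x := by
    apply ext'
    · show x.a + x.a = 0
      linear_combination x.a * h2.out
    · show σ x.b + x.b + x.a * σ x.a = 0
      have h1 := x.rel
      linear_combination h1 + x.a * σ x.a * h2.out

variable [h2 : Fact ((2 : F) = 0)] [hs : Fact (∀ a : F, σ (σ a) = a)]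

theorem mul_a (x y : UG F σ) : (x * y).a = x.a + y.a := rfl
theorem mul_b (x y : UG F σ) : (x * y).b = x.b + y.b + x.a * σ y.a := rfl
theorem one_a : (1 : UG F σ).a = 0 := rfl
theorem one_b : (1 : UG F σ).b = 0 := rfl
theorem inv_a (x : UG F σ) : (x⁻¹).a = x.a := rfl
theorem inv_b (x : UG F σ) : (x⁻¹).b = σ x.b := rfl

/-- the trace -/
def phi (σ : F →+* F) : F →+ F where
  toFun b := b + σ b
  map_zero' := by simp
  map_add' x y := by simp only [map_add]; ring

omit h2 hs in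
theorem phi_apply (b : F) : phi σ b = b + σ b := rfl

omit hs in
theorem mem_ker {b : F} : b ∈ (phi σ).ker ↔ σ b = b := by
  rw [AddMonoidHom.mem_ker, phi_apply]
  constructor
  · intro h
    linear_combination h - b * h2.out
  · intro h
    rw [h]
    linear_combination b * h2.out

theorem phi_ker [Fintype F] {q : ℕ} (hq : 2 ≤ q) (hF : Fintype.card F = q ^ 2) (hσ : ∀ x, σ x = x ^ q) :
    Nat.card (phi σ).ker = q ∧ (phi σ).range = (phi σ).ker := by
  classical
  have hle : (phi σ).range ≤ (phi σ).ker := by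
    rintro _ ⟨b, rfl⟩
    rw [mem_ker, phi_apply, map_add, hs.out, add_comm]
  have hk : Nat.card (phi σ).ker ≤ q := by
    have hp : (Polynomial.X ^ q - Polynomial.X : Polynomial F) ≠ 0 := FiniteField.X_pow_card_sub_X_ne_zero F (by omega)
    have h1 : ∀ b ∈ (phi σ).ker, b ∈ (Polynomial.X ^ q - Polynomial.X : Polynomial F).roots.toFinset := by
      intro b hb
      rw [mem_ker, hσ] at hb
      rw [Multiset.mem_toFinset, Polynomial.mem_roots hp]
      simp [hb]
    have h3 : Nat.card (phi σ).ker ≤ (Polynomial.X ^ q - Polynomial.X : Polynomial F).roots.toFinset.card := by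
      have := Nat.card_le_card_of_injective (β := (Polynomial.X ^ q - Polynomial.X : Polynomial F).roots.toFinset)
        (fun x : (phi σ).ker => ⟨x.1, h1 x.1 x.2⟩)
        (by intro x y h; exact Subtype.ext (congrArg (fun z => z.1) h))
      rwa [Nat.card_eq_finsetCard] at this
    refine h3.trans ((Multiset.toFinset_card_le _).trans ((Polynomial.card_roots' _).trans ?_))
    rw [FiniteField.X_pow_card_sub_X_natDegree_eq F (by omega)]
  have hr : Nat.card (phi σ).range ≤ Nat.card (phi σ).ker := AddSubgroup.card_le_of_le hle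
  have hm : Nat.card (phi σ).ker * Nat.card (phi σ).range = q ^ 2 := by
    rw [← hF, ← Nat.card_eq_fintype_card, ← AddSubgroup.index_ker]
    exact (phi σ).ker.card_mul_index
  have hkq : Nat.card (phi σ).ker = q := by
    by_contra hne
    have hlt : Nat.card (phi σ).ker < q := lt_of_le_of_ne hk hne
    have h5 : Nat.card (phi σ).ker * Nat.card (phi σ).range ≤ Nat.card (phi σ).ker * Nat.card (phi σ).ker := Nat.mul_le_mul_left _ hr
    nlinarith
  refine ⟨hkq, ?_⟩
  apply AddSubgroup.eq_of_le_of_card_ge hle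
  rw [hkq] at hm ⊢
  have : q * Nat.card (phi σ).range = q * q := by rw [hm]; ring
  exact (Nat.eq_of_mul_eq_mul_left (by omega) this).ge

theorem exists_phi [Fintype F] {q : ℕ} (hq : 2 ≤ q) (hF : Fintype.card F = q ^ 2) (hσ : ∀ x, σ x = x ^ q)
    {c : F} (hc : σ c = c) : ∃ b : F, b + σ b = c := by
  have h1 : c ∈ (phi σ).ker := mem_ker.mpr hc
  rw [← (phi_ker hq hF hσ).2] at h1
  obtain ⟨b, hb⟩ := h1
  exact ⟨b, hb⟩

omit h2 in
theorem norm_fix (a : F) : σ (a * σ a) = a * σ a := by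
  rw [map_mul, hs.out, mul_comm]

omit h2 hs in
theorem selfadd (h2 : (2 : F) = 0) (x : F) : x + x = 0 := by linear_combination x * h2

theorem card_fiber [Fintype F] {q : ℕ} (hq : 2 ≤ q) (hF : Fintype.card F = q ^ 2) (hσ : ∀ x, σ x = x ^ q)
    {c : F} (hc : σ c = c) : Nat.card {b : F // b + σ b = c} = q := by
  obtain ⟨b0, hb0⟩ := exists_phi hq hF hσ hc
  refine (Nat.card_congr ?_).trans (phi_ker hq hF hσ).1
  refine ⟨fun b => ⟨b.1 + b0, ?_⟩, fun k => ⟨k.1 + b0, ?_⟩, ?_, ?_⟩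
  · rw [AddMonoidHom.mem_ker, map_add, phi_apply, phi_apply, b.2, hb0]
    exact selfadd h2.out c
  · have hk := k.2
    rw [AddMonoidHom.mem_ker, phi_apply] at hk
    rw [map_add]
    linear_combination hk + hb0
  · intro b
    apply Subtype.ext
    show b.1 + b0 + b0 = b.1
    rw [add_assoc, selfadd h2.out, add_zero]
  · intro k
    apply Subtype.ext
    show k.1 + b0 + b0 = k.1
    rw [add_assoc, selfadd h2.out, add_zero]

theorem card_UG [Fintype F] {q : ℕ} (hq : 2 ≤ q) (hF : Fintype.card F = q ^ 2) (hσ : ∀ x, σ x = x ^ q) :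
    Nat.card (UG F σ) = q ^ 3 := by
  classical
  have e : UG F σ ≃ (Σ a : F, {b : F // b + σ b = a * σ a}) :=
    ⟨fun x => ⟨x.a, x.b, x.rel⟩, fun y => ⟨y.1, y.2.1, y.2.2⟩, fun x => rfl, fun y => rfl⟩
  rw [Nat.card_congr e, Nat.card_sigma]
  rw [Finset.sum_congr rfl (fun a _ => card_fiber hq hF hσ (norm_fix a))]
  rw [Finset.sum_const, Finset.card_univ, hF]
  simp only [smul_eq_mul]
  ring

/-- the matrix -/
def mat (x : UG F σ) : Matrix (Fin 3) (Fin 3) F :=
  !![1 + x.b, x.b, x.a; x.b, 1 + x.b, x.a; σ x.a, σ x.a, 1]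

theorem mat_mul (x y : UG F σ) : mat (x * y) = mat x * mat y := by
  have h2 := h2.out
  ext i j
  fin_cases i <;> fin_cases j <;>
    simp [mat, Matrix.mul_apply, Fin.sum_univ_three, mul_a, mul_b]
  · linear_combination (-x.b * y.b) * h2
  · linear_combination (-x.b * y.b) * h2
  · linear_combination (-x.b * y.a) * h2
  · linear_combination (-x.b * y.b) * h2
  · linear_combination (-x.b * y.b) * h2
  · linear_combination (-x.b * y.a) * h2
  · linear_combination - (σ x.a * y.b) * h2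
  · linear_combination - (σ x.a * y.b) * h2
  · linear_combination (σ x.a * y.a) * h2

omit hs in
theorem mat_det (x : UG F σ) : (mat x).det = 1 := by
  have h2 := h2.out
  rw [Matrix.det_fin_three]
  simp [mat]
  linear_combination (x.b - x.a * σ x.a) * h2

theorem mat_cols (x : UG F σ) (i j : Fin 3) :
    H5.hB (Fin 3) σ (fun k => mat x k i) (fun k => mat x k j) = if i = j then 1 else 0 := by
  have h2 := h2.out
  have hr := x.rel
  have h4 := hs.out x.a
  rw [H5.hB_apply]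
  fin_cases i <;> fin_cases j <;> simp [mat, Fin.sum_univ_three, h4]
  · linear_combination hr + (σ x.b * x.b + x.a * σ x.a) * h2
  · linear_combination hr + (σ x.b * x.b + x.a * σ x.a) * h2
  · linear_combination (x.a + x.a * σ x.b) * h2
  · linear_combination hr + (σ x.b * x.b + x.a * σ x.a) * h2
  · linear_combination hr + (σ x.b * x.b + x.a * σ x.a) * h2
  · linear_combination (x.a + x.a * σ x.b) * h2
  · linear_combination (σ x.a + σ x.a * x.b) * h2
  · linear_combination (σ x.a + σ x.a * x.b) * h2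
  · linear_combination (x.a * σ x.a) * h2

/-- the embedding in `SU_3(q)` -/
def toSU {q : ℕ} (hσ : ∀ x, σ x = x ^ q) : UG F σ →* SU 3 F q where
  toFun x := H5.mkSU hσ (mat x) (mat_cols x) (mat_det x)
  map_one' := by
    apply Subtype.ext
    apply Subtype.ext
    show mat (1 : UG F σ) = 1
    ext i j
    fin_cases i <;> fin_cases j <;> simp [mat, one_a, one_b]
  map_mul' x y := by
    apply Subtype.ext
    apply Subtype.ext
    exact mat_mul x y

theorem toSU_inj {q : ℕ} (hσ : ∀ x, σ x = x ^ q) : Function.Injective (toSU hσ) := by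
  intro x y h
  have h1 : mat x = mat y := congrArg (fun z : SU 3 F q => z.1.1) h
  apply ext'
  · have := congrFun (congrFun h1 0) 2
    simpa [mat] using this
  · have := congrFun (congrFun h1 0) 1
    simpa [mat] using this

theorem mem_center [Fintype F] {q : ℕ} (hq : 2 ≤ q) (hF : Fintype.card F = q ^ 2) (hσ : ∀ x, σ x = x ^ q) (hσ1 : σ ≠ RingHom.id F)
    (x : UG F σ) : x ∈ Subgroup.center (UG F σ) ↔ x.a = 0 := by
  rw [Subgroup.mem_center_iff]
  constructor
  · intro h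
    by_contra ha
    apply hσ1
    ext t
    obtain ⟨d, hd⟩ := exists_phi hq hF hσ (norm_fix (x.a * t))
    have h1 := congrArg UG.b (h ⟨x.a * t, d, hd⟩)
    rw [mul_b, mul_b] at h1
    simp only [map_mul] at h1
    have h2 : x.a * σ x.a * (t - σ t) = 0 := by linear_combination h1
    rcases mul_eq_zero.mp h2 with h3 | h3
    · rcases mul_eq_zero.mp h3 with h4 | h4
      · exact absurd h4 ha
      · exact absurd ((map_eq_zero σ).1 h4) ha
    · exact (sub_eq_zero.mp h3).symm
  · intro ha y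
    apply ext'
    · rw [mul_a, mul_a, add_comm]
    · rw [mul_b, mul_b, ha, map_zero]; ring

theorem card_center [Fintype F] {q : ℕ} (hq : 2 ≤ q) (hF : Fintype.card F = q ^ 2) (hσ : ∀ x, σ x = x ^ q) (hσ1 : σ ≠ RingHom.id F) :
    Nat.card (Subgroup.center (UG F σ)) = q := by
  have hc := mem_center hq hF hσ hσ1
  rw [← (phi_ker hq hF hσ).1]
  refine Nat.card_congr ⟨fun x => ⟨x.1.b, ?_⟩, fun b => ⟨⟨0, b.1, ?_⟩, ?_⟩, ?_, ?_⟩
  · rw [mem_ker]
    have h1 := x.1.rel
    rw [(hc _).1 x.2, zero_mul] at h1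
    linear_combination h1 - x.1.b * h2.out
  · have := b.2
    rw [AddMonoidHom.mem_ker, phi_apply] at this
    rw [this]; ring
  · rw [hc]
  · intro x
    apply Subtype.ext
    apply ext'
    · exact ((hc _).mp x.2).symm
    · rfl
  · intro b
    rfl

theorem mul_self_iff (x : UG F σ) : x * x = 1 ↔ x.a = 0 := by
  constructor
  · intro h
    have h1 := congrArg UG.b h
    rw [mul_b, one_b, selfadd h2.out, zero_add] at h1
    rcases mul_eq_zero.mp h1 with h4 | h4
    · exact h4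
    · exact (map_eq_zero σ).1 h4
  · intro h
    apply ext'
    · rw [mul_a, one_a, h, add_zero]
    · rw [mul_b, one_b, h, selfadd h2.out]; ring

end UG

theorem fact_two {F : Type*} [Field F] [Fintype F] {n : ℕ} (hn : 1 ≤ n) (hF : Fintype.card F = (2 ^ n) ^ 2) : (2 : F) = 0 := by
  have h1 : ((Fintype.card F : ℕ) : F) = 0 := FiniteField.cast_card_eq_zero F
  rw [hF, ← pow_mul] at h1
  push_cast at h1
  exact pow_eq_zero_iff (by omega) |>.mp h1

/-- the Sylow subgroup -/
theorem sylow_equiv {F : Type*} [Field F] [Fintype F] {n : ℕ} (hn : 1 ≤ n) (hF : Fintype.card F = (2 ^ n) ^ 2)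
    (σ : F →+* F) (hσ : ∀ x, σ x = x ^ (2 ^ n)) [h2 : Fact ((2 : F) = 0)] [hs : Fact (∀ a : F, σ (σ a) = a)]
    (S : Sylow 2 (Cfsg.PSU 3 F (2 ^ n))) : Nonempty (UG F σ ≃* (S : Subgroup (Cfsg.PSU 3 F (2 ^ n)))) := by
  haveI : Fact (Nat.Prime 2) := ⟨Nat.prime_two⟩
  have hq : 2 ≤ 2 ^ n := by
    calc 2 = 2 ^ 1 := by norm_num
      _ ≤ 2 ^ n := Nat.pow_le_pow_right (by norm_num) hn
  have hcard := UG.card_UG hq hF hσ
  have hcen := H5.card_center_SU (q := 2 ^ n) (F := F) (n := 3) hF (by norm_num)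
  haveI : Finite (UG F σ) := Nat.finite_of_card_ne_zero (by rw [hcard]; positivity)
  obtain ⟨m, hm, hmo⟩ : ∃ m, Nat.card (Cfsg.PSU 3 F (2 ^ n)) = (2 ^ n) ^ 3 * m ∧ ¬ 2 ∣ m := by
    have h := H5.card_PSU_mul (q := 2 ^ n) (n := 3) (F := F) hF (by norm_num)
    have h3 : H5.ordU (2 ^ n) 3 = (2 ^ n + 1) * ((2 ^ n) ^ 3 * (((2 ^ n) ^ 2 - 1) * ((2 ^ n) ^ 3 + 1))) := by
      unfold H5.ordU
      simp [Finset.prod_range_succ]
      ring
    rw [h3] at h
    have h4 : Nat.gcd 3 (2 ^ n + 1) * Nat.card (Cfsg.PSU 3 F (2 ^ n)) = (2 ^ n) ^ 3 * (((2 ^ n) ^ 2 - 1) * ((2 ^ n) ^ 3 + 1)) := by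
      have : (2 ^ n + 1) * (Nat.gcd 3 (2 ^ n + 1) * Nat.card (Cfsg.PSU 3 F (2 ^ n))) = (2 ^ n + 1) * ((2 ^ n) ^ 3 * (((2 ^ n) ^ 2 - 1) * ((2 ^ n) ^ 3 + 1))) := by
        rw [← h]; ring
      exact Nat.eq_of_mul_eq_mul_left (by positivity) this
    have h5 : Nat.Coprime (Nat.gcd 3 (2 ^ n + 1)) ((2 ^ n) ^ 3) := by
      apply Nat.Coprime.coprime_dvd_left (Nat.gcd_dvd_left _ _)
      apply Nat.Coprime.pow_right
      apply Nat.Coprime.pow_right
      norm_num
    have h6 : (2 ^ n) ^ 3 ∣ Nat.card (Cfsg.PSU 3 F (2 ^ n)) := by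
      apply (h5.symm).dvd_of_dvd_mul_left (m := Nat.gcd 3 (2 ^ n + 1))
      rw [h4]
      exact dvd_mul_right _ _
    obtain ⟨m, hm⟩ := h6
    refine ⟨m, hm, ?_⟩
    intro h2m
    rw [hm] at h4
    have h7 : Nat.gcd 3 (2 ^ n + 1) * m = ((2 ^ n) ^ 2 - 1) * ((2 ^ n) ^ 3 + 1) := by
      have : (2 ^ n) ^ 3 * (Nat.gcd 3 (2 ^ n + 1) * m) = (2 ^ n) ^ 3 * (((2 ^ n) ^ 2 - 1) * ((2 ^ n) ^ 3 + 1)) := by
        rw [← h4]; ring
      exact Nat.eq_of_mul_eq_mul_left (by positivity) this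
    have h8 : 2 ∣ ((2 ^ n) ^ 2 - 1) * ((2 ^ n) ^ 3 + 1) := by
      rw [← h7]; exact dvd_mul_of_dvd_right h2m _
    obtain ⟨j, rfl⟩ : ∃ j, n = j + 1 := ⟨n - 1, by omega⟩
    have e1 : (2 ^ (j + 1)) ^ 2 - 1 = 2 * (2 ^ j * 2 ^ (j + 1)) - 1 := by
      congr 1; ring
    have e2 : (2 ^ (j + 1)) ^ 3 + 1 = 2 * (2 ^ j * (2 ^ (j + 1)) ^ 2) + 1 := by ring
    have e3 : 0 < 2 ^ j * 2 ^ (j + 1) := by positivity
    rw [e1, e2] at h8
    rcases (Nat.Prime.dvd_mul Nat.prime_two).1 h8 with h9 | h9 <;> omega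
  have hm0 : m ≠ 0 := by rintro rfl; exact hmo (dvd_zero _)
  haveI : Finite (Cfsg.PSU 3 F (2 ^ n)) := Nat.finite_of_card_ne_zero (by rw [hm]; positivity)
  let f : UG F σ →* Cfsg.PSU 3 F (2 ^ n) := (QuotientGroup.mk' (Subgroup.center (SU 3 F (2 ^ n)))).comp (UG.toSU hσ)
  have hf : Function.Injective f := by
    rw [injective_iff_map_eq_one]
    intro x hx
    have h1 : UG.toSU hσ x ∈ Subgroup.center (SU 3 F (2 ^ n)) := by
      have : (QuotientGroup.mk' (Subgroup.center (SU 3 F (2 ^ n)))) (UG.toSU hσ x) = 1 := hx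
      rwa [QuotientGroup.mk'_apply, QuotientGroup.eq_one_iff] at this
    have h3 : orderOf x ∣ (2 ^ n) ^ 3 := by rw [← hcard]; exact orderOf_dvd_natCard x
    have h4 : orderOf (UG.toSU hσ x) = orderOf x := orderOf_injective _ (UG.toSU_inj hσ) x
    have h5 : orderOf (UG.toSU hσ x) ∣ Nat.gcd 3 (2 ^ n + 1) := by
      rw [← hcen]
      have := orderOf_dvd_natCard (⟨_, h1⟩ : Subgroup.center (SU 3 F (2 ^ n)))
      rwa [← Subgroup.orderOf_coe] at this
    rw [h4] at h5
    have h6 : orderOf x ∣ 3 := h5.trans (Nat.gcd_dvd_left _ _)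
    have h7 : Nat.Coprime 3 ((2 ^ n) ^ 3) := by
      apply Nat.Coprime.pow_right
      apply Nat.Coprime.pow_right
      norm_num
    have h8 : orderOf x = 1 := Nat.dvd_one.1 (h7 ▸ Nat.dvd_gcd h6 h3)
    exact orderOf_eq_one_iff.1 h8
  have e : UG F σ ≃* f.range := MonoidHom.ofInjective hf
  have hcard' : Nat.card f.range = 2 ^ (Nat.card (Cfsg.PSU 3 F (2 ^ n))).factorization 2 := by
    rw [← Nat.card_congr e.toEquiv, hcard, hm]
    have h1 : ((2 ^ n) ^ 3 * m).factorization 2 = n * 3 := by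
      rw [← pow_mul, Nat.factorization_mul (by positivity) hm0, Nat.Prime.factorization_pow Nat.prime_two]
      simp [Nat.factorization_eq_zero_of_not_dvd hmo]
    rw [h1, pow_mul]
  let T : Sylow 2 (Cfsg.PSU 3 F (2 ^ n)) := Sylow.ofCard f.range hcard'
  have e2 : (T : Subgroup (Cfsg.PSU 3 F (2 ^ n))) ≃* (S : Subgroup (Cfsg.PSU 3 F (2 ^ n))) := Sylow.equiv T S
  exact ⟨e.trans e2⟩

end Cfsg.Agent.H22
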