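import Mathlib
import Cfsg.Agent.H22.USyl

set_option autoImplicit false
set_option linter.all false

/-! Involutory automorphisms of the Sylow 2-subgroup of `PSU₃(2ⁿ)` centralize its centre. -/

namespace Cfsg.Agent.H22

open Cfsg

variable {F : Type*} [Field F] {σ : F →+* F}

theorem sq_inj (h2 : (2 : F) = 0) {s t : F} (h : s ^ 2 = t ^ 2) : s = t := by
  have : (s - t) ^ 2 = 0 := by linear_combination h - (s * t - t ^ 2) * h2
  exact sub_eq_zero.1 (pow_eq_zero_iff (by norm_num) |>.1 this)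

theorem exists_sqrt [Finite F] (h2 : (2 : F) = 0) (t : F) : ∃ l : F, l ^ 2 = t := by
  haveI : CharP F 2 := by
    rw [CharP.charP_iff_prime_eq_zero Nat.prime_two]
    exact_mod_cast h2
  haveI : Fact (Nat.Prime 2) := ⟨Nat.prime_two⟩
  obtain ⟨l, hl⟩ := (Finite.injective_iff_surjective.1 (frobenius_inj F 2)) t
  exact ⟨l, hl⟩

theorem exists_sqrt_fix [Finite F] (h2 : (2 : F) = 0) {t : F} (ht : σ t = t) : ∃ l : F, l ^ 2 = t ∧ σ l = l := by
  obtain ⟨l, hl⟩ := exists_sqrt h2 t
  refine ⟨l, hl, sq_inj h2 ?_⟩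
  rw [← map_pow, hl, ht]

theorem eq_of_add' (h2 : (2 : F) = 0) {x y : F} (h : x + y = 0) : x = y := by
  linear_combination h - y * h2

theorem stepA [Fintype F] {q : ℕ} (h2 : (2 : F) = 0) (hs : ∀ a : F, σ (σ a) = a) (hσ1 : σ ≠ RingHom.id F)
    (hKq : Nat.card {c : F // σ c = c} = q)
    (g h : F → F) (hga : ∀ a b, g (a + b) = g a + g b)
    (hha : ∀ c d, σ c = c → σ d = d → h (c + d) = h c + h d)
    (hN : ∀ a, h (a * σ a) = g a * σ (g a)) (hhK : ∀ c, σ c = c → σ (h c) = h c)
    (hgg : ∀ a, g (g a) = a) (hhh : ∀ c, σ c = c → h (h c) = c) : ∀ c, σ c = c → h c = c := by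
  classical
  have hg0 : g 0 = 0 := by
    have := hga 0 0
    rw [add_zero] at this
    linear_combination -this
  have hh0 : h 0 = 0 := by
    have := hha 0 0 (map_zero σ) (map_zero σ)
    rw [add_zero] at this
    linear_combination -this
  have hg00 : ∀ a, g a = 0 → a = 0 := by
    intro a ha
    rw [← hgg a, ha, hg0]
  have hh00 : ∀ c, σ c = c → h c = 0 → c = 0 := by
    intro c hc hc0
    rw [← hhh c hc, hc0, hh0]
  have hNf : ∀ a : F, σ (a * σ a) = a * σ a := by
    intro a; rw [map_mul, hs, mul_comm]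
  have hTf : ∀ a b : F, σ (a * σ b + σ a * b) = a * σ b + σ a * b := by
    intro a b
    rw [map_add, map_mul, map_mul, hs, hs]; ring
  have hT : ∀ a b, h (a * σ b + σ a * b) = g a * σ (g b) + σ (g a) * g b := by
    intro a b
    have h1 := hN (a + b)
    have e1 : (a + b) * σ (a + b) = (a * σ a + b * σ b) + (a * σ b + σ a * b) := by
      rw [map_add]; ring
    rw [e1, hha _ _ (by rw [map_add, hNf, hNf]) (hTf a b), hha _ _ (hNf a) (hNf b), hN, hN, hga, map_add] at h1
    linear_combination h1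
  have hTK : ∀ a b : F, a ≠ 0 → a * σ b + σ a * b = 0 → σ (b / a) = b / a := by
    intro a b ha hab
    have ha' : σ a ≠ 0 := fun h0 => ha ((map_eq_zero σ).1 h0)
    rw [map_div₀, div_eq_div_iff ha' ha]
    linear_combination hab - σ a * b * h2
  have hKT : ∀ a b : F, a ≠ 0 → σ (b / a) = b / a → a * σ b + σ a * b = 0 := by
    intro a b ha hab
    have ha' : σ a ≠ 0 := fun h0 => ha ((map_eq_zero σ).1 h0)
    rw [map_div₀, div_eq_div_iff ha' ha] at hab
    linear_combination hab + σ a * b * h2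
  -- L1
  have L1 : ∀ l a : F, σ l = l → a ≠ 0 → σ (g (l * a) / g a) = g (l * a) / g a := by
    intro l a hl ha
    apply hTK _ _ (fun h0 => ha (hg00 a h0))
    rw [← hT]
    have : a * σ (l * a) + σ a * (l * a) = 0 := by
      rw [map_mul, hl]
      linear_combination l * a * σ a * h2
    rw [this, hh0]
  have hgK : ∀ a b : F, a ≠ 0 → σ (b / a) ≠ b / a → σ (g b / g a) ≠ g b / g a := by
    intro a b ha hab h1
    apply hab
    apply hTK a b ha
    apply hh00 _ (hTf a b)
    rw [hT]
    exact hKT _ _ (fun h0 => ha (hg00 a h0)) h1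
  -- L2
  have L2 : ∀ l a b : F, σ l = l → a ≠ 0 → σ (b / a) ≠ b / a → g (l * a) / g a = g (l * b) / g b := by
    intro l a b hl ha hab
    have hb : b ≠ 0 := by
      rintro rfl
      apply hab
      simp
    have hab0 : a + b ≠ 0 := by
      intro h0
      apply hab
      have : b = a := (eq_of_add' h2 h0).symm
      rw [this, div_self ha, map_one]
    have hga0 : g a ≠ 0 := fun h0 => ha (hg00 a h0)
    have hgb0 : g b ≠ 0 := fun h0 => hb (hg00 b h0)
    have hgab0 : g (a + b) ≠ 0 := fun h0 => hab0 (hg00 _ h0)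
    have m1 := L1 l a hl ha
    have m2 := L1 l b hl hb
    have m3 := L1 l (a + b) hl hab0
    have e1 : g (l * a) = g (l * a) / g a * g a := by field_simp
    have e2 : g (l * b) = g (l * b) / g b * g b := by field_simp
    have e3 : g (l * (a + b)) = g (l * (a + b)) / g (a + b) * g (a + b) := by field_simp
    have e4 : g (l * (a + b)) = g (l * a) + g (l * b) := by rw [mul_add, hga]
    generalize g (l * a) / g a = x at *
    generalize g (l * b) / g b = y at *
    generalize g (l * (a + b)) / g (a + b) = z at *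
    have e5 : (z - x) * g a = (y - z) * g b := by
      rw [e4, e1, e2, hga] at e3
      linear_combination -e3
    by_cases hxz : z = x
    · rw [hxz, sub_self, zero_mul, eq_comm] at e5
      rcases mul_eq_zero.1 e5 with h1 | h1
      · exact (sub_eq_zero.1 h1).symm
      · exact absurd h1 hgb0
    · exfalso
      have hyz : y - z ≠ 0 := by
        intro h0
        rw [h0, zero_mul] at e5
        exact (mul_eq_zero.1 e5).elim (fun h1 => hxz (sub_eq_zero.1 h1)) hga0
      apply hgK a b ha hab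
      have e6 : g b / g a = (z - x) / (y - z) := by
        rw [div_eq_div_iff hga0 hyz]
        linear_combination -e5
      rw [e6, map_div₀, map_sub, map_sub, m1, m2, m3]
  have hex : ∃ t : F, σ t ≠ t := by
    by_contra hcon
    push Not at hcon
    exact hσ1 (RingHom.ext hcon)
  obtain ⟨t0, ht0⟩ := hex
  have hg1 : g 1 ≠ 0 := fun h0 => one_ne_zero (hg00 1 h0)
  have hsem : ∀ l a : F, σ l = l → g (l * a) = g l / g 1 * g a := by
    intro l a hl
    by_cases ha : a = 0
    · rw [ha, mul_zero, hg0, mul_zero]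
    have hga0 : g a ≠ 0 := fun h0 => ha (hg00 a h0)
    have key : g (l * a) / g a = g l / g 1 := by
      by_cases haK : σ a = a
      · have h1 := L2 l a t0 hl ha (by
          intro h0
          rw [map_div₀, haK] at h0
          apply ht0
          field_simp at h0
          exact h0)
        have h3 := L2 l 1 t0 hl one_ne_zero (by rwa [div_one])
        rw [h1, ← h3, mul_one]
      · have h3 := L2 l 1 a hl one_ne_zero (by rwa [div_one])
        rw [← h3, mul_one]
    rw [← key]; field_simp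
  obtain ⟨τ, hτ⟩ : ∃ τ : F → F, ∀ l, τ l = g l / g 1 := ⟨_, fun l => rfl⟩
  have hsem' : ∀ l a : F, σ l = l → g (l * a) = τ l * g a := fun l a hl => by rw [hτ]; exact hsem l a hl
  have hτK : ∀ l, σ l = l → σ (τ l) = τ l := by
    intro l hl
    have := L1 l 1 hl one_ne_zero
    rwa [mul_one, ← hτ] at this
  have hτ1 : τ 1 = 1 := by rw [hτ, div_self hg1]
  have hτ0 : τ 0 = 0 := by rw [hτ, hg0, zero_div]
  have hτa : ∀ l k, τ (l + k) = τ l + τ k := by intro l k; rw [hτ, hτ, hτ, hga, add_div]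
  have hτm : ∀ l k, σ l = l → τ (l * k) = τ l * τ k := by
    intro l k hl; rw [hτ (l * k), hsem' l k hl, hτ k, mul_div_assoc]
  have hτp : ∀ l, σ l = l → ∀ m : ℕ, τ (l ^ m) = τ l ^ m := by
    intro l hl m
    induction m with
    | zero => rw [pow_zero, pow_zero, hτ1]
    | succ m ih => rw [pow_succ', hτm _ _ hl, ih, pow_succ']
  have hττ : ∀ l, σ l = l → τ (τ l) = l := by
    intro l hl
    have h1 : g l = τ l * g 1 := by rw [hτ]; field_simp
    have h3 := hgg l
    rw [h1, hsem' _ _ (hτK l hl), hgg, mul_one] at h3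
    exact h3
  have hhs : ∀ k c, σ k = k → σ c = c → h (k * c) = τ k * h c := by
    intro k c hk hc
    obtain ⟨l, hl, hlf⟩ := exists_sqrt_fix (σ := σ) h2 hk
    obtain ⟨s, hs', hsf⟩ := exists_sqrt_fix (σ := σ) h2 hc
    have e1 : k * c = (l * s) * σ (l * s) := by rw [map_mul, hlf, hsf, ← hl, ← hs']; ring
    have e2 : c = s * σ s := by rw [hsf, ← hs']; ring
    rw [e1, hN, hsem' _ _ hlf, map_mul, hτK _ hlf, e2, hN, ← hl, sq, hτm _ _ hlf]
    ring
  by_cases hid : ∀ l, σ l = l → τ l = l
  · have he : h 1 = 1 := by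
      have h1 := hhh 1 (map_one σ)
      have h3 := hhs (h 1) 1 (hhK 1 (map_one σ)) (map_one σ)
      rw [mul_one, h1, hid _ (hhK 1 (map_one σ))] at h3
      apply sq_inj h2
      rw [sq, ← h3, one_pow]
    intro c hc
    have h3 := hhs c 1 hc (map_one σ)
    rw [mul_one, he, mul_one, hid c hc] at h3
    exact h3
  · exfalso
    push Not at hid
    obtain ⟨d, hd, hdτ⟩ := hid
    -- fixed vectors
    have hW : ∀ v, g (v + g v) = v + g v := by intro v; rw [hga, hgg, add_comm]
    have hW2 : ∀ v, g (d * v + τ d * g v) = d * v + τ d * g v := by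
      intro v
      rw [hga, hsem' _ _ hd, hsem' _ _ (hτK d hd), hττ d hd, hgg, add_comm]
    have hdd : d + τ d ≠ 0 := fun h0 => hdτ (eq_of_add' h2 h0).symm
    have hspan : ∀ w1 : F, w1 ≠ 0 → ∃ w2, g w2 = w2 ∧ σ (w2 / w1) ≠ w2 / w1 := by
      intro w1 hw1
      by_contra hcon
      push Not at hcon
      apply ht0
      have h1 := hcon _ (hW (w1 * t0))
      have h3 := hcon _ (hW2 (w1 * t0))
      have e1 : t0 = ((d * (w1 * t0) + τ d * g (w1 * t0)) / w1 + τ d * ((w1 * t0 + g (w1 * t0)) / w1)) / (d + τ d) := by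
        generalize g (w1 * t0) = G
        field_simp
        linear_combination (- τ d * G) * h2
      rw [e1, map_div₀, map_add, map_mul, map_add, h1, h3, hτK d hd, hd]
    obtain ⟨w1, hw1, hw10⟩ : ∃ w1, g w1 = w1 ∧ w1 ≠ 0 := by
      obtain ⟨w2, hw2, hw2'⟩ := hspan 1 one_ne_zero
      refine ⟨w2, hw2, ?_⟩
      rintro rfl
      apply hw2'
      simp
    obtain ⟨w2, hw2, hw2'⟩ := hspan w1 hw10
    obtain ⟨u, hu⟩ : ∃ u, u = w2 / w1 := ⟨_, rfl⟩
    rw [← hu] at hw2'
    have hσw1 : σ w1 ≠ 0 := fun h0 => hw10 ((map_eq_zero σ).1 h0)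
    have hn1 : w1 * σ w1 ≠ 0 := mul_ne_zero hw10 hσw1
    have hE : ∀ z, σ z = z → h z = z → τ (z / (w1 * σ w1)) = z / (w1 * σ w1) := by
      intro z hz hhz
      have hzn : σ (z / (w1 * σ w1)) = z / (w1 * σ w1) := by rw [map_div₀, hz, hNf]
      have h1 := hhs (z / (w1 * σ w1)) (w1 * σ w1) hzn (hNf w1)
      rw [div_mul_cancel₀ _ hn1, hhz, hN, hw1] at h1
      rw [eq_div_iff hn1]
      exact h1.symm
    have htr : τ (u + σ u) = u + σ u ∧ σ (u + σ u) = u + σ u := by
      constructor
      · have h1 := hE (w1 * σ w2 + σ w1 * w2) (hTf _ _) (by rw [hT, hw1, hw2])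
        have e1 : (w1 * σ w2 + σ w1 * w2) / (w1 * σ w1) = u + σ u := by
          rw [hu, map_div₀]; field_simp; ring
        rwa [e1] at h1
      · rw [map_add, hs, add_comm]
    have hnm : τ (u * σ u) = u * σ u ∧ σ (u * σ u) = u * σ u := by
      constructor
      · have h1 := hE (w2 * σ w2) (hNf _) (by rw [hN, hw2])
        have e1 : (w2 * σ w2) / (w1 * σ w1) = u * σ u := by
          rw [hu, map_div₀]; field_simp
        rwa [e1] at h1
      · exact hNf u
    -- the subfield
    let K0 : Subfield F :=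
      { carrier := {x | σ x = x ∧ τ x = x}
        mul_mem' := fun {a b} ha hb => ⟨by rw [map_mul, ha.1, hb.1], by rw [hτm _ _ ha.1, ha.2, hb.2]⟩
        one_mem' := ⟨map_one σ, hτ1⟩
        add_mem' := fun {a b} ha hb => ⟨by rw [map_add, ha.1, hb.1], by rw [hτa, ha.2, hb.2]⟩
        zero_mem' := ⟨map_zero σ, hτ0⟩
        neg_mem' := fun {a} ha => by
          have : -a = a := by linear_combination -a * h2
          rw [this]; exact ha
        inv_mem' := fun a ha => ⟨by rw [map_inv₀, ha.1], by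
          by_cases h0 : a = 0
          · rw [h0, inv_zero, hτ0]
          · have h1 := hτm a a⁻¹ ha.1
            rw [mul_inv_cancel₀ h0, hτ1, ha.2] at h1
            exact (eq_inv_of_mul_eq_one_right h1.symm)⟩ }
    haveI : Fintype K0 := Fintype.ofFinite _
    have hK0 : ∀ x, x ∈ K0 ↔ σ x = x ∧ τ x = x := fun x => Iff.rfl
    obtain ⟨Q, hQ⟩ : ∃ Q, Q = Fintype.card K0 := ⟨_, rfl⟩
    have hθ0 : ∀ x ∈ K0, x ^ Q = x := by
      intro x hx
      have := FiniteField.pow_card (⟨x, hx⟩ : K0)
      rw [← hQ] at this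
      exact congrArg Subtype.val this
    haveI : CharP F 2 := by
      rw [CharP.charP_iff_prime_eq_zero Nat.prime_two]
      exact_mod_cast h2
    haveI : CharP K0 2 := inferInstance
    haveI : Fact (Nat.Prime 2) := ⟨Nat.prime_two⟩
    obtain ⟨m, -, hm⟩ := FiniteField.card K0 2
    have hθa : ∀ x y : F, (x + y) ^ Q = x ^ Q + y ^ Q := by
      intro x y
      rw [hQ, hm]
      exact add_pow_char_pow x y 2 m
    have hquad : ∀ x y : F, x + y ∈ K0 → x * y ∈ K0 → x ^ Q = x ∨ x ^ Q = y := by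
      intro x y h1 h3
      have e1 : x ^ 2 = (x + y) * x - x * y := by ring
      have e2 : (x ^ Q) ^ 2 = (x + y) * x ^ Q + x * y := by
        have e3 : x ^ 2 + x * y = (x + y) * x := by ring
        have e4 := congrArg (fun z => z ^ Q) e3
        simp only [hθa, mul_pow] at e4
        have e5 := hθ0 _ h1
        have e6 := hθ0 _ h3
        rw [hθa] at e5
        rw [mul_pow] at e6
        rw [e5, e6] at e4
        have e7 : (x ^ 2) ^ Q = (x ^ Q) ^ 2 := by rw [← pow_mul, ← pow_mul, mul_comm]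
        rw [e7] at e4
        linear_combination e4 - x * y * h2
      have e8 : (x ^ Q - x) * (x ^ Q - y) = 0 := by
        linear_combination e2 + x * y * h2
      rcases mul_eq_zero.1 e8 with h | h
      · exact Or.inl (sub_eq_zero.1 h)
      · exact Or.inr (sub_eq_zero.1 h)
    have hu2 : (u ^ Q) ^ Q = u := by
      rcases hquad u (σ u) ⟨htr.2, htr.1⟩ ⟨hnm.2, hnm.1⟩ with h1 | h1
      · rw [h1, h1]
      · rw [h1, ← map_pow, h1, hs]
    have hK2 : ∀ x, σ x = x → (x ^ Q) ^ Q = x := by
      intro x hx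
      rcases hquad x (τ x) ⟨by rw [map_add, hx, hτK x hx], by rw [hτa, hττ x hx, add_comm]⟩
        ⟨by rw [map_mul, hx, hτK x hx], by rw [hτm _ _ hx, hττ x hx, mul_comm]⟩ with h1 | h1
      · rw [h1, h1]
      · rw [h1, ← hτp x hx, h1, hττ x hx]
    have hcard1 : Q ^ 2 ≤ q := by
      rw [← hKq, hQ, ← Nat.card_eq_fintype_card, sq, ← Nat.card_prod]
      apply Nat.card_le_card_of_injective (fun p : K0 × K0 => (⟨(p.1 : F) + p.2 * d, by
        rw [map_add, map_mul, hd, p.1.2.1, p.2.2.1]⟩ : {c : F // σ c = c}))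
      rintro ⟨x, y⟩ ⟨x', y'⟩ hxy
      have h1 : (x : F) + y * d = x' + y' * d := congrArg Subtype.val hxy
      have h3 : (y : F) = y' := by
        by_contra hne
        have hne' : (y : F) - y' ≠ 0 := sub_ne_zero.2 hne
        have e1 : d = ((x' : F) - x) / (y - y') := by
          rw [eq_div_iff hne']; linear_combination h1
        have : d ∈ K0 := by
          rw [e1]
          exact K0.div_mem (K0.sub_mem x'.2 x.2) (K0.sub_mem y.2 y'.2)
        exact hdτ this.2
      have h4 : (x : F) = x' := by rw [h3] at h1; exact add_right_cancel h1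
      exact Prod.ext (Subtype.ext h4) (Subtype.ext h3)
    have hQ2 : 1 < Q := by rw [hQ]; exact Fintype.one_lt_card
    have hQQ : 1 < Q ^ 2 := Nat.one_lt_pow (by norm_num) hQ2
    have hp : (Polynomial.X ^ (Q ^ 2) - Polynomial.X : Polynomial F) ≠ 0 := FiniteField.X_pow_card_sub_X_ne_zero F hQQ
    have hroot : ∀ x : F, (x ^ Q) ^ Q = x → x ∈ (Polynomial.X ^ (Q ^ 2) - Polynomial.X : Polynomial F).roots.toFinset := by
      intro x hx
      rw [Multiset.mem_toFinset, Polynomial.mem_roots hp]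
      rw [← pow_mul, ← sq] at hx
      simp [hx]
    have hcard2 : (Polynomial.X ^ (Q ^ 2) - Polynomial.X : Polynomial F).roots.toFinset.card ≤ Q ^ 2 := by
      refine (Multiset.toFinset_card_le _).trans ((Polynomial.card_roots' _).trans ?_)
      rw [FiniteField.X_pow_card_sub_X_natDegree_eq F hQQ]
    have hsub : insert u (Finset.univ.filter (fun x : F => σ x = x)) ⊆
        (Polynomial.X ^ (Q ^ 2) - Polynomial.X : Polynomial F).roots.toFinset := by
      intro x hx
      rcases Finset.mem_insert.1 hx with rfl | hx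
      · exact hroot _ hu2
      · exact hroot _ (hK2 x (Finset.mem_filter.1 hx).2)
    have h5 := Finset.card_le_card hsub
    rw [Finset.card_insert_of_notMem (by
      intro h0
      exact hw2' (Finset.mem_filter.1 h0).2)] at h5
    have h6 : (Finset.univ.filter (fun x : F => σ x = x)).card = q := by
      rw [← hKq, Nat.card_eq_fintype_card, Fintype.card_subtype]
    omega

/-- the maps induced by an automorphism -/
theorem frame [Fintype F] {q : ℕ} [h2 : Fact ((2 : F) = 0)] [hs : Fact (∀ a : F, σ (σ a) = a)]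
    (hq : 2 ≤ q) (hF : Fintype.card F = q ^ 2) (hσ : ∀ x, σ x = x ^ q) (α : MulAut (UG F σ)) :
    ∃ (g h : F → F), (∀ x : UG F σ, (α x).a = g x.a) ∧ (∀ z : UG F σ, z.a = 0 → (α z).a = 0 ∧ (α z).b = h z.b) ∧
      (∀ a b, g (a + b) = g a + g b) ∧ (∀ c d, σ c = c → σ d = d → h (c + d) = h c + h d) ∧
      (∀ a, h (a * σ a) = g a * σ (g a)) ∧ (∀ c, σ c = c → σ (h c) = h c) := by
  classical
  have hz : ∀ z : UG F σ, z.a = 0 → (α z).a = 0 := by
    intro z hz
    rw [← UG.mul_self_iff] at hz ⊢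
    rw [← map_mul, hz, map_one]
  have hzi : ∀ z : UG F σ, (α z).a = 0 → z.a = 0 := by
    intro z hz
    rw [← UG.mul_self_iff] at hz ⊢
    rw [← map_mul] at hz
    exact α.injective (by rw [hz, map_one])
  have hlift : ∀ a : F, ∃ x : UG F σ, x.a = a := by
    intro a
    obtain ⟨d, hd⟩ := UG.exists_phi hq hF hσ (UG.norm_fix (σ := σ) a)
    exact ⟨⟨a, d, hd⟩, rfl⟩
  choose L hL using hlift
  have hr : ∀ c : F, σ c = c → c + σ c = (0 : F) * σ 0 := by
    intro c hc
    rw [hc]; linear_combination c * h2.out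
  let g : F → F := fun a => (α (L a)).a
  let h : F → F := fun c => if hc : σ c = c then (α ⟨0, c, hr c hc⟩).b else 0
  have hg : ∀ x : UG F σ, (α x).a = g x.a := by
    intro x
    have h1 : (x * (L x.a)⁻¹).a = 0 := by
      rw [UG.mul_a, UG.inv_a, hL, UG.selfadd h2.out]
    have h3 := hz _ h1
    rw [map_mul, map_inv, UG.mul_a, UG.inv_a] at h3
    exact eq_of_add' h2.out h3
  have hfix : ∀ z : UG F σ, z.a = 0 → σ z.b = z.b := by
    intro z hz
    have h1 := z.rel
    rw [hz, zero_mul] at h1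
    linear_combination h1 - z.b * h2.out
  have hh : ∀ z : UG F σ, z.a = 0 → (α z).a = 0 ∧ (α z).b = h z.b := by
    intro z hz'
    refine ⟨hz z hz', ?_⟩
    show _ = (if hc : σ z.b = z.b then (α ⟨0, z.b, hr z.b hc⟩).b else 0)
    rw [dif_pos (hfix z hz')]
    congr 2
    exact UG.ext' hz' rfl
  refine ⟨g, h, hg, hh, ?_, ?_, ?_, ?_⟩
  · intro a b
    have h1 := hg (L a * L b)
    rw [map_mul, UG.mul_a, UG.mul_a, hg, hg, hL, hL] at h1
    exact h1.symm
  · intro c d hc hd
    have h1 := hh ((⟨0, c, hr c hc⟩ : UG F σ) * ⟨0, d, hr d hd⟩) (by rw [UG.mul_a]; simp)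
    have hc1 := hh ⟨0, c, hr c hc⟩ rfl
    have hd1 := hh ⟨0, d, hr d hd⟩ rfl
    rw [map_mul, UG.mul_b, UG.mul_b, hc1.2, hd1.2, hc1.1] at h1
    simp only [zero_mul, add_zero] at h1
    exact h1.2.symm
  · intro a
    have h1 := hh (L a * L a) (by rw [UG.mul_a, UG.selfadd h2.out])
    rw [map_mul, UG.mul_b, UG.mul_b, UG.selfadd h2.out, UG.selfadd h2.out, zero_add, zero_add, hg, hL] at h1
    exact h1.2.symm
  · intro c hc
    have hc1 := hh ⟨0, c, hr c hc⟩ rfl
    have := hfix _ hc1.1
    rw [hc1.2] at this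
    exact this

end Cfsg.Agent.H22
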